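/-
A symbolic collector for words in root elements in characteristic two: polynomials over the prime field in many
variables, evaluated by a kernel computation, with the soundness theorem for the commutator formula.
-/
import Cfsg.Agent.Lib.ChInv.El2a

set_option autoImplicit false

namespace Cfsg.Agent.Lib.Chev

open Cfsg.Lie

namespace Coll

/-- Monomials as sorted lists of variables, with repetitions. -/
abbrev MM := List ℕ

/-- Polynomials over the field with two elements. -/
abbrev PP := List MM

/-- Inserting a variable into a monomial. -/
def minsert (k : ℕ) : MM → MM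
  | [] => [k]
  | h :: t => bif Nat.ble k h then k :: h :: t else h :: minsert k t

/-- The product of monomials. -/
def mmul (a b : MM) : MM := a.foldr minsert b

/-- The lexicographic comparison: `0` for less, `1` for equal, `2` for greater. -/
def mcmp : MM → MM → ℕ
  | [], [] => 1
  | [], _ :: _ => 0
  | _ :: _, [] => 2
  | x :: a, y :: b => bif Nat.blt x y then 0 else bif Nat.blt y x then 2 else mcmp a b

lemma mcmp_eq : ∀ {a b : MM}, mcmp a b = 1 → a = b
  | [], [], _ => rfl
  | [], _ :: _, h => by simp [mcmp] at h
  | _ :: _, [], h => by simp [mcmp] at h
  | x :: a, y :: b, h => by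
    simp only [mcmp] at h
    cases h1 : Nat.blt x y
    · cases h2 : Nat.blt y x
      · simp only [h1, h2, cond_false] at h
        rw [mcmp_eq h]
        have h3 : ¬ x < y := fun hc => by
          have : Nat.blt x y = true := by simpa [Nat.blt_eq] using hc
          simp [h1] at this
        have h4 : ¬ y < x := fun hc => by
          have : Nat.blt y x = true := by simpa [Nat.blt_eq] using hc
          simp [h2] at this
        have : x = y := by omega
        rw [this]
      · simp [h1, h2] at h
    · simp [h1] at h

/-- Adding a monomial to a polynomial, with cancellation. -/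
def pins (m : MM) : PP → PP
  | [] => [m]
  | h :: t =>
    let c := mcmp m h
    bif Nat.beq c 1 then t else bif Nat.beq c 0 then m :: h :: t else h :: pins m t

/-- The sum of polynomials. -/
def padd (p q : PP) : PP := p.foldr pins q

/-- The product of polynomials. -/
def pmul (p q : PP) : PP := p.foldr (fun m acc => padd (q.map (mmul m)) acc) []

/-- The powers of a polynomial. -/
def ppow (p : PP) : ℕ → PP
  | 0 => [[]]
  | n + 1 => pmul p (ppow p n)

section val

variable {F : Type*} [Field F] (v : ℕ → F)

/-- The value of a monomial. -/
def mval (m : MM) : F := (m.map v).prod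

/-- The value of a polynomial. -/
def pval (p : PP) : F := (p.map (mval v)).sum

/-- The values of a word. -/
def wval (w : List (ℕ × PP)) : List (ℕ × F) := w.map fun e => (e.1, pval v e.2)

lemma mval_minsert (k : ℕ) (m : MM) : mval v (minsert k m) = v k * mval v m := by
  induction m with
  | nil => simp [minsert, mval]
  | cons h t ih =>
    simp only [minsert]
    cases Nat.ble k h
    · simp only [cond_false]
      simp only [mval, List.map_cons, List.prod_cons] at ih ⊢
      rw [ih]
      ring
    · simp [mval]

lemma mval_mmul (a b : MM) : mval v (mmul a b) = mval v a * mval v b := by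
  induction a with
  | nil => simp [mmul, mval]
  | cons h t ih =>
    have e : mmul (h :: t) b = minsert h (mmul t b) := rfl
    rw [e, mval_minsert, ih]
    simp only [mval, List.map_cons, List.prod_cons]
    ring

variable [CharP F 2]

lemma pval_pins (m : MM) (p : PP) : pval v (pins m p) = mval v m + pval v p := by
  induction p with
  | nil => simp [pins, pval]
  | cons h t ih =>
    simp only [pins]
    cases h1 : Nat.beq (mcmp m h) 1
    · cases h2 : Nat.beq (mcmp m h) 0
      · simp only [cond_false]
        simp only [pval, List.map_cons, List.sum_cons] at ih ⊢
        rw [ih]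
        ring
      · simp [pval]
    · have h3 : mcmp m h = 1 := Nat.eq_of_beq_eq_true h1
      have h4 := mcmp_eq h3
      subst h4
      simp only [cond_true, pval, List.map_cons, List.sum_cons]
      rw [← add_assoc, add_self_char_two, zero_add]

lemma pval_padd (p q : PP) : pval v (padd p q) = pval v p + pval v q := by
  induction p with
  | nil => simp [padd, pval]
  | cons h t ih =>
    have e : padd (h :: t) q = pins h (padd t q) := rfl
    rw [e, pval_pins, ih]
    simp only [pval, List.map_cons, List.sum_cons]
    ring

omit [CharP F 2] in
lemma pval_map_mmul (m : MM) (q : PP) : pval v (q.map (mmul m)) = mval v m * pval v q := by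
  induction q with
  | nil => simp [pval]
  | cons h t ih =>
    simp only [pval, List.map_cons, List.sum_cons, mval_mmul] at ih ⊢
    rw [ih]
    ring

lemma pval_pmul (p q : PP) : pval v (pmul p q) = pval v p * pval v q := by
  induction p with
  | nil => simp [pmul, pval]
  | cons h t ih =>
    have e : pmul (h :: t) q = padd (q.map (mmul h)) (pmul t q) := rfl
    rw [e, pval_padd, pval_map_mmul, ih]
    simp only [pval, List.map_cons, List.sum_cons]
    ring

lemma pval_ppow (p : PP) (n : ℕ) : pval v (ppow p n) = pval v p ^ n := by
  induction n with
  | zero => simp [ppow, pval, mval]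
  | succ n ih =>
    have e : ppow p (n + 1) = pmul p (ppow p n) := rfl
    rw [e, pval_pmul, ih, pow_succ]
    ring

end val

end Coll

open Coll

namespace Tbl

/-- The terms of the commutator formula on polynomials. -/
noncomputable def termsC (T : Tbl) (r s : ℕ) (p q : PP) : List (ℕ × PP) :=
  (T.commF r s).map fun c => (c.1, bif Nat.beq (c.2.1.natAbs % 2) 1 then pmul (ppow p c.2.2.1) (ppow q c.2.2.2) else [])

/-- Collection: `out` is reversed and sorted, `st` is the rest of the word. -/
noncomputable def collect (T : Tbl) : ℕ → List (ℕ × PP) → List (ℕ × PP) → Option (List (ℕ × PP))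
  | 0, _, _ => none
  | _ + 1, out, [] => some out
  | f + 1, out, e :: st =>
    match e.2 with
    | [] => collect T f out st
    | _ :: _ =>
      match out with
      | [] => collect T f [e] st
      | o :: os =>
        bif Nat.beq e.1 o.1 then
          bif Nat.blt e.1 T.n then
            match padd o.2 e.2 with
            | [] => collect T f os st
            | n :: ns => collect T f ((o.1, n :: ns) :: os) st
          else none
        else bif Nat.blt e.1 o.1 then
          bif (Nat.blt o.1 T.n && !Nat.beq o.1 (T.neg e.1)) then
            collect T f os (e :: o :: (T.termsC e.1 o.1 e.2 o.2 ++ st))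
          else none
        else collect T f (e :: out) st

/-- The full list of coordinates from a sorted word. -/
def nfOf : ℕ → ℕ → List (ℕ × PP) → Option (List PP)
  | _, 0, [] => some []
  | _, 0, _ :: _ => none
  | k, m + 1, [] => (nfOf (k + 1) m []).map ([] :: ·)
  | k, m + 1, e :: l =>
    bif Nat.beq e.1 k then (nfOf (k + 1) m l).map (e.2 :: ·) else
      (nfOf (k + 1) m (e :: l)).map ([] :: ·)

/-- The coordinates of a word. -/
noncomputable def collectNF (T : Tbl) (f : ℕ) (w : List (ℕ × PP)) : Option (List PP) :=
  (T.collect f [] w).bind fun res => nfOf (T.n / 2) (T.n / 2) res.reverse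

end Tbl

section

variable {F : Type*} [Field F] {D : ChevalleyDatum} {T : Tbl}

namespace Tbl.Good2

variable (hG : T.Good2 D) (v : ℕ → F)
include hG

lemma wval_termsC [CharP F 2] {r s : ℕ} (hr : r < D.nroots) (hs : s < D.nroots) (p q : PP) :
    wval v (T.termsC r s p q) = D.commWord F r s (pval v p) (pval v q) := by
  unfold Tbl.termsC wval Cfsg.Lie.ChevalleyDatum.commWord
  rw [commF_eq, ← commT_eq hG.correct hG.sane hr hs, List.map_map]
  refine List.map_congr_left fun c _ => ?_
  simp only [Function.comp, Prod.mk.injEq, true_and]
  cases h : Nat.beq (c.2.1.natAbs % 2) 1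
  · have h1 : c.2.1.natAbs % 2 ≠ 1 := fun hc => by
      have : Nat.beq (c.2.1.natAbs % 2) 1 = true := by simp [hc]
      simp [h] at this
    have h2 : Even c.2.1 := by
      rw [← Int.natAbs_even, Nat.even_iff]
      omega
    rw [even_cast_char_two h2]
    simp [pval]
  · have h1 : c.2.1.natAbs % 2 = 1 := Nat.eq_of_beq_eq_true h
    have h2 : Odd c.2.1 := by
      rw [← Int.natAbs_odd, Nat.odd_iff]
      exact h1
    rw [odd_cast_char_two h2, neg_char_two]
    simp only [cond_true]
    rw [pval_pmul, pval_ppow, pval_ppow, one_mul]

/-- Soundness of the collection. -/
theorem gW_collect [CharP F 2] : ∀ (f : ℕ) (out st res : List (ℕ × PP)), T.collect f out st = some res →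
    hG.gW (wval v out.reverse) * hG.gW (wval v st) = hG.gW (wval v res.reverse) := by
  intro f
  induction f with
  | zero =>
    intro out st res h
    simp [Tbl.collect] at h
  | succ f ih =>
    intro out st res h
    cases st with
    | nil =>
      simp only [Tbl.collect, Option.some.injEq] at h
      subst h
      simp [wval]
    | cons e st =>
      simp only [Tbl.collect] at h
      rcases e with ⟨r, p⟩
      simp only at h
      have hcons : hG.gW (wval v ((r, p) :: st)) = hG.xN r (pval v p) * hG.gW (wval v st) := by
        simp [wval]
      cases p with
      | nil =>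
        rw [← ih _ _ _ h, hcons]
        have : pval v ([] : PP) = 0 := by simp [pval]
        rw [this, hG.xN_zero, one_mul]
      | cons p0 p1 =>
        simp only at h
        cases out with
        | nil =>
          rw [← ih _ _ _ h, hcons]
          simp [wval]
        | cons o os =>
          rcases o with ⟨s, q⟩
          simp only at h
          have hout : hG.gW (wval v ((s, q) :: os).reverse) = hG.gW (wval v os.reverse) * hG.xN s (pval v q) := by
            simp [wval, hG.gW_append]
          cases h1 : Nat.beq r s
          · rw [h1, cond_false] at h
            cases h2 : Nat.blt r s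
            · rw [h2, cond_false] at h
              rw [← ih _ _ _ h, hcons]
              have : hG.gW (wval v ((r, p0 :: p1) :: (s, q) :: os).reverse) =
                  hG.gW (wval v ((s, q) :: os).reverse) * hG.xN r (pval v (p0 :: p1)) := by
                simp [wval, hG.gW_append, mul_assoc]
              rw [this]
              group
            · rw [h2, cond_true] at h
              cases h3 : (Nat.blt s T.n && !Nat.beq s (T.neg r))
              · rw [h3, cond_false] at h
                exact absurd h (by simp)
              · rw [h3, cond_true] at h
                rw [Bool.and_eq_true, Bool.not_eq_true'] at h3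
                obtain ⟨h4, h5⟩ := h3
                have hT := hG.correct
                have hs : s < D.nroots := by
                  rw [← hT.n_eq]
                  exact Nat.le_of_ble_eq_true h4
                have hrs : r < s := Nat.le_of_ble_eq_true h2
                have hr : r < D.nroots := by omega
                have hne : s ≠ D.neg r := fun hc => by
                  have h6 : T.neg r = D.neg r := hG.tneg_eq hr
                  rw [h6, ← hc] at h5
                  simp at h5
                have hcomm := hG.x_commG hr hs (by omega) hne (pval v (p0 :: p1)) (pval v q)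
                rw [← hG.xN_of_lt, ← hG.xN_of_lt] at hcomm
                rw [← ih _ _ _ h, hcons, hout]
                have e3 : hG.gW (wval v ((r, p0 :: p1) :: (s, q) :: (T.termsC r s (p0 :: p1) q ++ st))) =
                    hG.xN r (pval v (p0 :: p1)) * (hG.xN s (pval v q) * (hG.gW (D.commWord F r s (pval v (p0 :: p1)) (pval v q)) *
                      hG.gW (wval v st))) := by
                  rw [wval, List.map_cons, List.map_cons, hG.gW_cons, hG.gW_cons, List.map_append, hG.gW_append]
                  have := hG.wval_termsC v hr hs (p0 :: p1) q
                  rw [wval] at this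
                  rw [this]
                  rfl
                rw [e3, mul_assoc, ← mul_assoc (hG.xN s _), hcomm]
                simp only [mul_assoc]
          · have hrs : r = s := Nat.eq_of_beq_eq_true h1
            subst hrs
            rw [h1, cond_true] at h
            cases h2 : Nat.blt r T.n
            · rw [h2, cond_false] at h
              exact absurd h (by simp)
            · rw [h2, cond_true] at h
              have hT := hG.correct
              have hr : r < D.nroots := by
                rw [← hT.n_eq]
                exact Nat.le_of_ble_eq_true h2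
              have hadd := hG.xN_add hr (pval v q) (pval v (p0 :: p1))
              have hval := pval_padd v q (p0 :: p1)
              rw [hcons, hout, mul_assoc, ← mul_assoc (hG.xN r _), hadd, ← hval]
              revert h
              cases hp : padd q (p0 :: p1) with
              | nil =>
                intro h
                rw [← ih _ _ _ h]
                have : pval v ([] : PP) = 0 := by simp [pval]
                rw [this, hG.xN_zero, one_mul]
              | cons n ns =>
                intro h
                rw [← ih _ _ _ h]
                have : hG.gW (wval v ((r, n :: ns) :: os).reverse) = hG.gW (wval v os.reverse) * hG.xN r (pval v (n :: ns)) := by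
                  simp [wval, hG.gW_append]
                rw [this, mul_assoc]

omit hG in
/-- The coordinates. -/
lemma nfOf_spec (hG : T.Good2 D) : ∀ (m k : ℕ) (l : List (ℕ × PP)) (L : List PP), Tbl.nfOf k m l = some L →
    hG.gW (wval v l) = hG.gW ((List.range' k m).map fun r => (r, pval v (L.getD (r - k) []))) := by
  intro m
  induction m with
  | zero =>
    intro k l L h
    cases l with
    | nil =>
      have e1 : hG.gW (wval v ([] : List (ℕ × PP))) = 1 := rfl
      rw [e1]
      rfl
    | cons e l => simp [Tbl.nfOf] at h
  | succ m ih =>
    intro k l L h
    have hval : ∀ (a : PP) (L' : List PP), ((List.range' (k + 1) m).map fun r => (r, pval v ((a :: L').getD (r - k) []))) =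
        (List.range' (k + 1) m).map fun r => (r, pval v (L'.getD (r - (k + 1)) [])) := by
      intro a L'
      refine List.map_congr_left fun r hr => ?_
      have h1 := (List.mem_range'_1.1 hr).1
      obtain ⟨i, rfl⟩ : ∃ i, r = k + 1 + i := ⟨r - (k + 1), by omega⟩
      have e1 : k + 1 + i - k = i + 1 := by omega
      have e2 : k + 1 + i - (k + 1) = i := by omega
      rw [e1, e2]
      simp
    have hzero : pval v ([] : PP) = 0 := by simp [pval]
    cases l with
    | nil =>
      simp only [Tbl.nfOf, Option.map_eq_some_iff] at h
      obtain ⟨L', h1, rfl⟩ := h
      have h2 := ih _ _ _ h1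
      rw [List.range'_succ, List.map_cons, hG.gW_cons, hval, ← h2]
      simp [hzero, hG.xN_zero, wval]
    | cons e l =>
      simp only [Tbl.nfOf] at h
      cases h1 : Nat.beq e.1 k
      · rw [h1, cond_false, Option.map_eq_some_iff] at h
        obtain ⟨L', h2, rfl⟩ := h
        have h3 := ih _ _ _ h2
        rw [List.range'_succ, List.map_cons, hG.gW_cons, hval, ← h3]
        simp [hzero, hG.xN_zero]
      · rw [h1, cond_true, Option.map_eq_some_iff] at h
        obtain ⟨L', h2, rfl⟩ := h
        have h3 := ih _ _ _ h2
        have h4 : e.1 = k := Nat.eq_of_beq_eq_true h1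
        rw [List.range'_succ, List.map_cons, hG.gW_cons, hval, ← h3]
        simp [wval, h4]

/-- The word of a normal form. -/
theorem gW_collectNF [CharP F 2] {f : ℕ} {w : List (ℕ × PP)} {L : List PP} (h : T.collectNF f w = some L) :
    hG.gW (wval v w) = hG.gW ((List.range' (D.nroots / 2) (D.nroots / 2)).map fun r => (r, pval v (L.getD (r - D.nroots / 2) []))) := by
  unfold Tbl.collectNF at h
  rw [Option.bind_eq_some_iff] at h
  obtain ⟨res, h1, h2⟩ := h
  have h3 := hG.gW_collect v _ _ _ _ h1
  have h4 := nfOf_spec v hG _ _ _ _ h2
  rw [hG.correct.n_eq] at h4
  simp only [List.reverse_nil] at h3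
  have e : hG.gW (wval v ([] : List (ℕ × PP))) = 1 := rfl
  rw [e, one_mul] at h3
  rw [h3, h4]

/-- Equal elements have equal coordinates. -/
theorem coords [CharP F 2] (v' : ℕ → F) {f f' : ℕ} {w w' : List (ℕ × PP)} {L L' : List PP} (h : T.collectNF f w = some L)
    (h' : T.collectNF f' w' = some L') (e : hG.gW (wval v w) = hG.gW (wval v' w')) (i : ℕ) (hi : i < D.nroots / 2) :
    pval v (L.getD i []) = pval v' (L'.getD i []) := by
  rw [hG.gW_collectNF v h, hG.gW_collectNF v' h'] at e
  have e2 := congrArg (fun g : GL D.Idx F => (g : Matrix D.Idx D.Idx F)) e
  simp only [hG.gW_coe] at e2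
  have h5 := hG.even_n
  have hsum : D.nroots / 2 + D.nroots / 2 = D.nroots := by omega
  have := hG.range_word_unique (D.nroots / 2) le_rfl hsum.le (t := fun r => pval v (L.getD (r - D.nroots / 2) []))
    (t' := fun r => pval v' (L'.getD (r - D.nroots / 2) [])) e2 (D.nroots / 2 + i) (by omega) (by omega)
  simpa using this

/-- The coordinates of the identity. -/
theorem coords_one [CharP F 2] {f : ℕ} {w : List (ℕ × PP)} {L : List PP} (h : T.collectNF f w = some L)
    (e : hG.gW (wval v w) = 1) (i : ℕ) (hi : i < D.nroots / 2) : pval v (L.getD i []) = 0 := by
  rw [hG.gW_collectNF v h] at e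
  have e2 := congrArg (fun g : GL D.Idx F => (g : Matrix D.Idx D.Idx F)) e
  simp only [hG.gW_coe] at e2
  have h5 := hG.even_n
  have hsum : D.nroots / 2 + D.nroots / 2 = D.nroots := by omega
  have hone : ((1 : GL D.Idx F) : Matrix D.Idx D.Idx F) = D.wordMat F ((List.range' (D.nroots / 2) (D.nroots / 2)).map fun r => (r, (0 : F))) := by
    rw [← hG.gW_coe]
    have : hG.gW ((List.range' (D.nroots / 2) (D.nroots / 2)).map fun r => (r, (0 : F))) = 1 := by
      generalize List.range' (D.nroots / 2) (D.nroots / 2) = l
      induction l with
      | nil => rfl
      | cons a l ih => simp [hG.xN_zero, ih]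
    rw [this]
  rw [hone] at e2
  have := hG.range_word_unique (D.nroots / 2) le_rfl hsum.le (t := fun r => pval v (L.getD (r - D.nroots / 2) []))
    (t' := fun _ => 0) e2 (D.nroots / 2 + i) (by omega) (by omega)
  simpa using this

end Tbl.Good2

end

end Cfsg.Agent.Lib.Chev
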