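/-
The symbolic collector: substitution of zero for variables, and identities up to given polynomials.
-/
import Cfsg.Agent.Lib.Coll.Basic

set_option autoImplicit false

namespace Cfsg.Agent.Lib.Chev

open Cfsg.Lie

namespace Coll

/-- Whether a monomial contains one of the variables. -/
def mhas (Z : List ℕ) (m : MM) : Bool := m.any fun k => Z.any fun z => Nat.beq k z

/-- Setting the variables to zero in a polynomial. -/
def psub (Z : List ℕ) (p : PP) : PP := p.filter fun m => !mhas Z m

/-- Setting the variables to zero in a word. -/
def wsub (Z : List ℕ) (w : List (ℕ × PP)) : List (ℕ × PP) := w.map fun e => (e.1, psub Z e.2)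

/-- Equality of polynomials. -/
def peq : PP → PP → Bool
  | [], [] => true
  | [], _ :: _ => false
  | _ :: _, [] => false
  | a :: p, b :: q => Nat.beq (mcmp a b) 1 && peq p q

lemma peq_spec : ∀ {p q : PP}, peq p q = true → p = q
  | [], [], _ => rfl
  | [], _ :: _, h => by simp [peq] at h
  | _ :: _, [], h => by simp [peq] at h
  | a :: p, b :: q, h => by
    simp only [peq, Bool.and_eq_true] at h
    rw [mcmp_eq (Nat.eq_of_beq_eq_true h.1), peq_spec h.2]

section val

variable {F : Type*} [Field F] (v : ℕ → F)

lemma mval_eq_zero {Z : List ℕ} (hZ : ∀ k ∈ Z, v k = 0) {m : MM} (h : mhas Z m = true) : mval v m = 0 := by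
  simp only [mhas, List.any_eq_true] at h
  obtain ⟨k, hk, z, hz, e⟩ := h
  have e1 : k = z := by simpa using e
  subst e1
  exact List.prod_eq_zero (List.mem_map.2 ⟨k, hk, hZ k hz⟩)

lemma pval_psub {Z : List ℕ} (hZ : ∀ k ∈ Z, v k = 0) (p : PP) : pval v (psub Z p) = pval v p := by
  induction p with
  | nil => rfl
  | cons m p ih =>
    simp only [psub, pval] at ih ⊢
    rw [List.filter_cons]
    cases h : mhas Z m
    · simp only [Bool.not_false, if_true, List.map_cons, List.sum_cons]
      rw [ih]
    · simp only [Bool.not_true, Bool.false_eq_true, if_false, List.map_cons, List.sum_cons]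
      rw [ih, mval_eq_zero v hZ h, zero_add]

lemma wval_wsub {Z : List ℕ} (hZ : ∀ k ∈ Z, v k = 0) (w : List (ℕ × PP)) : wval v (wsub Z w) = wval v w := by
  simp only [wval, wsub, List.map_map]
  refine List.map_congr_left fun e _ => ?_
  simp only [Function.comp, pval_psub v hZ]

end val

/-- The valuation from a list. -/
def vL {F : Type*} [Zero F] (L : List F) (k : ℕ) : F := L.getD k 0

end Coll

open Coll

namespace Tbl

/-- The check that two words agree up to the given polynomials. -/
noncomputable def chkDiff (T : Tbl) (f f' : ℕ) (w w' : List (ℕ × PP)) (E : List PP) : Bool :=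
  match T.collectNF f w, T.collectNF f' w' with
  | some L, some L' =>
    allBelow (Nat.div T.n 2) fun i =>
      let d := padd (L.getD i []) (L'.getD i [])
      E.any (peq d)
  | _, _ => false

end Tbl

section

variable {F : Type*} [Field F] {D : ChevalleyDatum} {T : Tbl}

namespace Tbl.Good2

variable (hG : T.Good2 D) (v : ℕ → F)
include hG

/-- Two words agree as soon as the given polynomials vanish. -/
theorem gW_eq_of_diff [CharP F 2] {f f' : ℕ} {w w' : List (ℕ × PP)} {E : List PP} (h : T.chkDiff f f' w w' E = true)
    (hE : ∀ e ∈ E, pval v e = 0) : hG.gW (wval v w) = hG.gW (wval v w') := by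
  unfold Tbl.chkDiff at h
  cases h1 : T.collectNF f w with
  | none => simp [h1] at h
  | some L =>
    cases h2 : T.collectNF f' w' with
    | none => simp [h1, h2] at h
    | some L' =>
      simp only [h1, h2] at h
      rw [hG.gW_collectNF v h1, hG.gW_collectNF v h2]
      congr 1
      refine List.map_congr_left fun r hr => ?_
      obtain ⟨h3, h4⟩ := List.mem_range'_1.1 hr
      have h5 := allBelow_spec h (r - D.nroots / 2) (by
        show r - D.nroots / 2 < T.n / 2
        rw [hG.correct.n_eq]
        omega)
      simp only [List.any_eq_true] at h5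
      obtain ⟨e, he, h6⟩ := h5
      have h7 := peq_spec h6
      have h8 := hE e he
      rw [← h7, pval_padd] at h8
      have h9 : pval v (L.getD (r - D.nroots / 2) []) = pval v (L'.getD (r - D.nroots / 2) []) := by
        have h10 := congrArg (· + pval v (L'.getD (r - D.nroots / 2) [])) h8
        simp only [add_assoc, add_self_char_two, add_zero, zero_add] at h10
        exact h10
      simp only [Prod.mk.injEq, true_and]
      exact h9

end Tbl.Good2

end

end Cfsg.Agent.Lib.Chev
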