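/-
Involutions in the Chevalley group of type G₂ in characteristic two.
-/
import Cfsg.Agent.Lib.Coll.Diff
import Cfsg.Agent.Lib.ChInv.El2e
import Cfsg.Agent.Lib.Chev.T3G2

set_option autoImplicit false
set_option maxRecDepth 100000

namespace Cfsg.Agent.Lib.Chev

open Cfsg.Lie Coll

def uG2 : List (ℕ × PP) := [(6, [[0]]), (7, [[1]]), (8, [[2]]), (9, [[3]]), (10, [[4]]), (11, [[5]])]

theorem nfG2sq : digG2.tbl.collectNF 100000 (uG2 ++ uG2) = some [[], [], [[0, 1]], [[0, 1, 1]], [[0, 1, 1, 1], [1, 1, 2], [1, 3]], [[0, 0, 1, 1, 1], [0, 4], [1, 2, 2], [2, 3]]] := by decide +kernel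

def gG2A : List (ℕ × PP) := [(9, [[8]]), (8, [[7]]), (6, [[6]])]

def tG2A : List (ℕ × PP) := [(7, [[1]])]

def EG2A : List PP := [[], [[1, 6], [2]], [[1, 1, 6], [3]], [[1, 1, 1, 6], [1, 1, 7], [1, 8], [4]], [[1, 1, 6, 7], [1, 7, 7], [2, 8], [5]]]

theorem chkG2A : digG2.tbl.chkDiff 100000 100000 (gG2A ++ wsub [0] uG2) (tG2A ++ gG2A) EG2A = true := by decide +kernel

def gG2B : List (ℕ × PP) := [(10, [[7]]), (7, [[6]])]

def tG2B : List (ℕ × PP) := [(6, [[0]]), (9, [[9]])]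

def EG2B : List PP := [[], [[0, 6], [2]], [[0, 6, 6], [3], [9]], [[0, 6, 6, 6], [4], [6, 9]], [[0, 2, 6, 6], [0, 7], [5]]]

theorem chkG2B : digG2.tbl.chkDiff 100000 100000 (gG2B ++ wsub [1] uG2) (tG2B ++ gG2B) EG2B = true := by decide +kernel

def gG2C : List (ℕ × PP) := [(9, [[7]]), (7, [[6]])]

def tG2C : List (ℕ × PP) := [(8, [[2]])]

def EG2C : List PP := [[], [[2, 6, 6], [4]], [[2, 2, 6], [2, 7], [5]]]

theorem chkG2C : digG2.tbl.chkDiff 100000 100000 (gG2C ++ wsub [0, 1, 3] uG2) (tG2C ++ gG2C) EG2C = true := by decide +kernel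

def gG2D : List (ℕ × PP) := [(8, [[7]]), (7, [[6]])]

def tG2D : List (ℕ × PP) := [(9, [[3]])]

def EG2D : List PP := [[], [[3, 6], [4]], [[3, 7], [5]]]

theorem chkG2D : digG2.tbl.chkDiff 100000 100000 (gG2D ++ wsub [0, 1, 2] uG2) (tG2D ++ gG2D) EG2D = true := by decide +kernel

def gG2E : List (ℕ × PP) := [(6, [[6]])]

def tG2E : List (ℕ × PP) := [(10, [[4]])]

def EG2E : List PP := [[], [[4, 6], [5]]]

theorem chkG2E : digG2.tbl.chkDiff 100000 100000 (gG2E ++ wsub [0, 1, 2, 3] uG2) (tG2E ++ gG2E) EG2E = true := by decide +kernel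

theorem nfN6a : digG2.tbl.collectNF 100000 (uG2 ++ [(6, [[9]])]) = some [[[0], [9]], [[1]], [[1, 9], [2]], [[1, 1, 9], [3]], [[1, 1, 1, 9], [4]], [[1, 1, 2, 9], [4, 9], [5]]] := by decide +kernel

theorem nfN6b : digG2.tbl.collectNF 100000 ([(9, [[]])] ++ uG2) = some [[[0]], [[1]], [[2]], [[], [3]], [[1], [4]], [[2], [5]]] := by decide +kernel

theorem nfN10a : digG2.tbl.collectNF 100000 (uG2 ++ [(10, [[9]])]) = some [[[0]], [[1]], [[2]], [[3]], [[4], [9]], [[5]]] := by decide +kernel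

theorem nfN11a : digG2.tbl.collectNF 100000 (uG2 ++ [(11, [[9]])]) = some [[[0]], [[1]], [[2]], [[3]], [[4]], [[5], [9]]] := by decide +kernel

theorem chkG2B2 : digG2.tbl.chkDiff 100000 100000 [(11, [[5]]), (7, [[1]])] (wsub [0, 2, 3, 4] uG2) [[]] = true := by decide +kernel

theorem chkG2Cen : digG2.tbl.chkDiff 100000 100000 (uG2 ++ [(11, [[]])]) ([(11, [[]])] ++ uG2) [[]] = true := by decide +kernel

section

variable {F : Type*} [Field F] [CharP F 2]

/-- The valuation of the collector's variables. -/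
def vG (a b c d e f s0 s1 s2 x : F) : ℕ → F := vL [a, b, c, d, e, f, s0, s1, s2, x]

/-- The normal form of an element of `U`. -/
noncomputable def uV (a b c d e f : F) : GL chevG2.Idx F :=
  good3G2.toGood2.gW [(6, a), (7, b), (8, c), (9, d), (10, e), (11, f)]

lemma gW_uG2 (a b c d e f s0 s1 s2 x : F) :
    good3G2.toGood2.gW (wval (vG a b c d e f s0 s1 s2 x) uG2) = uV a b c d e f := by
  simp [wval, uG2, pval, mval, vG, vL, uV]

lemma two_eq_zero_G2 : (2 : F) = 0 := by exact_mod_cast CharP.cast_eq_zero F 2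

lemma wval_append_G2 (v : ℕ → F) (w w' : List (ℕ × PP)) : wval v (w ++ w') = wval v w ++ wval v w' := List.map_append ..

lemma conj_diff (v : ℕ → F) {g t : List (ℕ × PP)} {Z : List ℕ} {E : List PP} (hZ : ∀ k ∈ Z, v k = 0)
    (h : digG2.tbl.chkDiff 100000 100000 (g ++ wsub Z uG2) (t ++ g) E = true) (hE : ∀ e ∈ E, pval v e = 0) :
    good3G2.toGood2.gW (wval v g) * good3G2.toGood2.gW (wval v uG2) * (good3G2.toGood2.gW (wval v g))⁻¹ =
      good3G2.toGood2.gW (wval v t) := by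
  have e := good3G2.toGood2.gW_eq_of_diff v h hE
  rw [wval_append_G2, wval_append_G2, wval_wsub v hZ, good3G2.toGood2.gW_append, good3G2.toGood2.gW_append] at e
  rw [mul_inv_eq_iff_eq_mul]
  exact e

theorem caseG2A (hperf : ∀ x : F, ∃ y : F, y ^ 2 = x) {b c d e f : F} (hb : b ≠ 0) (hd : d = b * c) :
    ∃ g ∈ chevG2.group F, g * uV 0 b c d e f * g⁻¹ = good3G2.toGood2.xN 7 b := by
  have h2 := two_eq_zero_G2 (F := F)
  obtain ⟨s0, hs0⟩ : ∃ s0 : F, b * s0 = c := ⟨c / b, mul_div_cancel₀ _ hb⟩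
  obtain ⟨s1, hs1⟩ : ∃ s1 : F, b * s1 ^ 2 = b ^ 3 * s0 ^ 2 + s0 * e + f := by
    obtain ⟨y, hy⟩ := hperf ((b ^ 3 * s0 ^ 2 + s0 * e + f) / b)
    exact ⟨y, by rw [hy, mul_div_cancel₀ _ hb]⟩
  obtain ⟨s2, hs2⟩ : ∃ s2 : F, b * s2 = b ^ 3 * s0 + b ^ 2 * s1 + e := ⟨_ / b, mul_div_cancel₀ _ hb⟩
  have E1 : b * (s0 * 1) + (c * 1 + 0) = 0 := by linear_combination hs0 + c * h2
  have E2 : b * (b * (s0 * 1)) + (d * 1 + 0) = 0 := by linear_combination b * hs0 + hd + b * c * h2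
  have E3 : b * (b * (b * (s0 * 1))) + (b * (b * (s1 * 1)) + (b * (s2 * 1) + (e * 1 + 0))) = 0 := by
    linear_combination hs2 + (b ^ 3 * s0 + b ^ 2 * s1 + e) * h2
  have E4 : b * (b * (s0 * (s1 * 1))) + (b * (s1 * (s1 * 1)) + (c * (s2 * 1) + (f * 1 + 0))) = 0 := by
    linear_combination -s2 * hs0 + s0 * hs2 + hs1 + (b ^ 3 * s0 ^ 2 + b ^ 2 * s0 * s1 + e * s0 + f) * h2
  have key := conj_diff (vG 0 b c d e f s0 s1 s2 0) (Z := [0]) (by simp [vG, vL]) chkG2A (by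
    simp only [EG2A, List.forall_mem_cons, List.not_mem_nil, false_imp_iff, implies_true, and_true]
    exact ⟨rfl, E1, E2, E3, E4⟩)
  rw [gW_uG2] at key
  refine ⟨_, good3G2.toGood2.gW_mem _, key.trans ?_⟩
  simp [wval, tG2A, pval, mval, vG, vL, good3G2.toGood2.gW_cons, good3G2.toGood2.gW_nil]

theorem caseG2B {a c d e f : F} (ha : a ≠ 0) (heq : a * e + c * d = 0) :
    ∃ g ∈ chevG2.group F, ∃ x : F, g * uV a 0 c d e f * g⁻¹ = good3G2.toGood2.xN 6 a * good3G2.toGood2.xN 9 x := by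
  have h2 := two_eq_zero_G2 (F := F)
  obtain ⟨s0, hs0⟩ : ∃ s0 : F, a * s0 = c := ⟨c / a, mul_div_cancel₀ _ ha⟩
  obtain ⟨x, hx⟩ : ∃ x : F, x = a * s0 ^ 2 + d := ⟨_, rfl⟩
  obtain ⟨s1, hs1⟩ : ∃ s1 : F, a * s1 = a * c * s0 ^ 2 + f := ⟨_ / a, mul_div_cancel₀ _ ha⟩
  have he : e + s0 * d = 0 := by
    apply mul_left_cancel₀ ha
    linear_combination heq + d * hs0
  have E1 : a * (s0 * 1) + (c * 1 + 0) = 0 := by linear_combination hs0 + c * h2
  have E2 : a * (s0 * (s0 * 1)) + (d * 1 + (x * 1 + 0)) = 0 := by linear_combination hx + (a * s0 ^ 2 + d) * h2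
  have E3 : a * (s0 * (s0 * (s0 * 1))) + (e * 1 + (s0 * (x * 1) + 0)) = 0 := by
    linear_combination s0 * hx + he + a * s0 ^ 3 * h2
  have E4 : a * (c * (s0 * (s0 * 1))) + (a * (s1 * 1) + (f * 1 + 0)) = 0 := by
    linear_combination hs1 + (a * c * s0 ^ 2 + f) * h2
  have key := conj_diff (vG a 0 c d e f s0 s1 0 x) (Z := [1]) (by simp [vG, vL]) chkG2B (by
    simp only [EG2B, List.forall_mem_cons, List.not_mem_nil, false_imp_iff, implies_true, and_true]
    exact ⟨rfl, E1, E2, E3, E4⟩)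
  rw [gW_uG2] at key
  refine ⟨_, good3G2.toGood2.gW_mem _, x, key.trans ?_⟩
  simp [wval, tG2B, pval, mval, vG, vL, good3G2.toGood2.gW_cons, good3G2.toGood2.gW_nil]

theorem caseG2C (hperf : ∀ x : F, ∃ y : F, y ^ 2 = x) {c e f : F} (hc : c ≠ 0) :
    ∃ g ∈ chevG2.group F, g * uV 0 0 c 0 e f * g⁻¹ = good3G2.toGood2.xN 8 c := by
  have h2 := two_eq_zero_G2 (F := F)
  obtain ⟨s0, hs0⟩ : ∃ s0 : F, c * s0 ^ 2 = e := by
    obtain ⟨y, hy⟩ := hperf (e / c)
    exact ⟨y, by rw [hy, mul_div_cancel₀ _ hc]⟩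
  obtain ⟨s1, hs1⟩ : ∃ s1 : F, c * s1 = c ^ 2 * s0 + f := ⟨_ / c, mul_div_cancel₀ _ hc⟩
  have E1 : c * (s0 * (s0 * 1)) + (e * 1 + 0) = 0 := by linear_combination hs0 + e * h2
  have E2 : c * (c * (s0 * 1)) + (c * (s1 * 1) + (f * 1 + 0)) = 0 := by
    linear_combination hs1 + (c ^ 2 * s0 + f) * h2
  have key := conj_diff (vG 0 0 c 0 e f s0 s1 0 0) (Z := [0, 1, 3]) (by simp [vG, vL]) chkG2C (by
    simp only [EG2C, List.forall_mem_cons, List.not_mem_nil, false_imp_iff, implies_true, and_true]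
    exact ⟨rfl, E1, E2⟩)
  rw [gW_uG2] at key
  refine ⟨_, good3G2.toGood2.gW_mem _, key.trans ?_⟩
  simp [wval, tG2C, pval, mval, vG, vL, good3G2.toGood2.gW_cons, good3G2.toGood2.gW_nil]

theorem caseG2D {d e f : F} (hd : d ≠ 0) :
    ∃ g ∈ chevG2.group F, g * uV 0 0 0 d e f * g⁻¹ = good3G2.toGood2.xN 9 d := by
  have h2 := two_eq_zero_G2 (F := F)
  obtain ⟨s0, hs0⟩ : ∃ s0 : F, d * s0 = e := ⟨_ / d, mul_div_cancel₀ _ hd⟩
  obtain ⟨s1, hs1⟩ : ∃ s1 : F, d * s1 = f := ⟨_ / d, mul_div_cancel₀ _ hd⟩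
  have E1 : d * (s0 * 1) + (e * 1 + 0) = 0 := by linear_combination hs0 + e * h2
  have E2 : d * (s1 * 1) + (f * 1 + 0) = 0 := by linear_combination hs1 + f * h2
  have key := conj_diff (vG 0 0 0 d e f s0 s1 0 0) (Z := [0, 1, 2]) (by simp [vG, vL]) chkG2D (by
    simp only [EG2D, List.forall_mem_cons, List.not_mem_nil, false_imp_iff, implies_true, and_true]
    exact ⟨rfl, E1, E2⟩)
  rw [gW_uG2] at key
  refine ⟨_, good3G2.toGood2.gW_mem _, key.trans ?_⟩
  simp [wval, tG2D, pval, mval, vG, vL, good3G2.toGood2.gW_cons, good3G2.toGood2.gW_nil]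

theorem caseG2E {e f : F} (he : e ≠ 0) :
    ∃ g ∈ chevG2.group F, g * uV 0 0 0 0 e f * g⁻¹ = good3G2.toGood2.xN 10 e := by
  have h2 := two_eq_zero_G2 (F := F)
  obtain ⟨s0, hs0⟩ : ∃ s0 : F, e * s0 = f := ⟨_ / e, mul_div_cancel₀ _ he⟩
  have E1 : e * (s0 * 1) + (f * 1 + 0) = 0 := by linear_combination hs0 + f * h2
  have key := conj_diff (vG 0 0 0 0 e f s0 0 0 0) (Z := [0, 1, 2, 3]) (by simp [vG, vL]) chkG2E (by
    simp only [EG2E, List.forall_mem_cons, List.not_mem_nil, false_imp_iff, implies_true, and_true]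
    exact ⟨rfl, E1⟩)
  rw [gW_uG2] at key
  refine ⟨_, good3G2.toGood2.gW_mem _, key.trans ?_⟩
  simp [wval, tG2E, pval, mval, vG, vL, good3G2.toGood2.gW_cons, good3G2.toGood2.gW_nil]

lemma uV_F (f : F) : uV 0 0 0 0 0 f = good3G2.toGood2.xN 11 f := by
  simp [uV, good3G2.toGood2.gW_cons, good3G2.toGood2.gW_nil, good3G2.toGood2.xN_zero]

/-- Scaling a root element. -/
theorem scaleG2 (hperf : ∀ x : F, ∃ y : F, y ^ 2 = x) {r : ℕ} (hr : r < 12) {c : F} (hc : c ≠ 0) (hp : chevG2.pairing r r = 2) :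
    ∃ g ∈ chevG2.group F, g * good3G2.toGood2.xN r c * g⁻¹ = good3G2.toGood2.xN r 1 := by
  have hG := good3G2.toGood2
  have hrl : r < chevG2.nroots := hr
  obtain ⟨s, hs⟩ := hperf c⁻¹
  have hs0 : s ≠ 0 := by
    rintro rfl
    rw [zero_pow two_ne_zero] at hs
    exact inv_ne_zero hc hs.symm
  refine ⟨good3G2.toGood2.hU hrl hs0, good3G2.toGood2.N_le_group ((le_sup_left : _ ≤ chevG2.monomialSubgroup F) (good3G2.toGood2.hU_mem hrl hs0)), ?_⟩
  rw [good3G2.toGood2.xN_of_lt hrl, good3G2.toGood2.hU_conj_x hrl hrl hs0 c, hp, good3G2.toGood2.xN_of_lt hrl]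
  congr 1
  have e3 : s ^ (2 : ℤ) = c⁻¹ := by
    rw [← hs]
    norm_cast
  rw [e3]
  exact inv_mul_cancel₀ hc

/-- Reaching the representatives by the Weyl group. -/
theorem weylG2 (l : List ℕ) (hl : ∀ i ∈ l, i < 2) {r : ℕ} (hr : r < 12) (t : F) :
    ∃ g ∈ chevG2.group F, g * good3G2.toGood2.xN r t * g⁻¹ = good3G2.toGood2.xN (wperm digG2.tbl l r) t :=
  ⟨good3G2.toGood2.nProd l, good3G2.toGood2.N_le_group (good3G2.toGood2.nProd_mem_N hl),
    good3G2.toGood2.nProd_xN hl hr t⟩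

theorem toRepG2 (hperf : ∀ x : F, ∃ y : F, y ^ 2 = x) {r : ℕ} (hr : r < 12) {c : F} (hc : c ≠ 0) (hp : chevG2.pairing r r = 2)
    (l : List ℕ) (hl : ∀ i ∈ l, i < 2) {r' : ℕ} (hw : wperm digG2.tbl l r = r') :
    ∃ g ∈ chevG2.group F, g * good3G2.toGood2.xN r c * g⁻¹ = good3G2.toGood2.xN r' 1 := by
  obtain ⟨g1, hg1, e1⟩ := scaleG2 hperf hr hc hp
  obtain ⟨g2, hg2, e2⟩ := weylG2 l hl hr (1 : F)
  refine ⟨g2 * g1, Subgroup.mul_mem _ hg2 hg1, ?_⟩
  rw [← hw, ← e2, ← e1]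
  group

/-- Involutions of `U`. -/
theorem inv_U_G2 (hperf : ∀ x : F, ∃ y : F, y ^ 2 = x) {u : GL chevG2.Idx F} (hU : u ∈ chevG2.posUnipotent F)
    (h1 : u ≠ 1) (h2 : u * u = 1) :
    ∃ g ∈ chevG2.group F, g * u * g⁻¹ = good3G2.toGood2.xN 11 1 ∨ g * u * g⁻¹ = good3G2.toGood2.xN 9 1 := by
  obtain ⟨a, b, c, d, e, f, rfl⟩ : ∃ a b c d e f : F, u = uV a b c d e f := by
    obtain ⟨t, ⟨-, ht⟩, -⟩ := (good3G2.toGood2.U_normal_form (F := F)).1 u hU
    refine ⟨t 6, t 7, t 8, t 9, t 10, t 11, ?_⟩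
    apply Units.ext
    rw [ht, good3G2.toGood2.posRoots_eq]
    rw [uV, good3G2.toGood2.gW_coe]
    rfl
  have hsq : good3G2.toGood2.gW (wval (vG a b c d e f 0 0 0 0) (uG2 ++ uG2)) = 1 := by
    rw [wval_append_G2, good3G2.toGood2.gW_append, gW_uG2]
    exact h2
  have e8 : a * (b * 1) + 0 = 0 := good3G2.toGood2.coords_one _ nfG2sq hsq 2 (by decide)
  have e10 : a * (b * (b * (b * 1))) + (b * (b * (c * 1)) + (b * (d * 1) + 0)) = 0 := good3G2.toGood2.coords_one _ nfG2sq hsq 4 (by decide)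
  have e11 : a * (a * (b * (b * (b * 1)))) + (a * (e * 1) + (b * (c * (c * 1)) + (c * (d * 1) + 0))) = 0 := good3G2.toGood2.coords_one _ nfG2sq hsq 5 (by decide)
  have htwo := two_eq_zero_G2 (F := F)
  have short : ∀ r : ℕ, r < 12 → ∀ l : List ℕ, (∀ i ∈ l, i < 2) → wperm digG2.tbl l r = 9 → chevG2.pairing r r = 2 → ∀ x : F, x ≠ 0 → ∀ g ∈ chevG2.group F,
      g * uV a b c d e f * g⁻¹ = good3G2.toGood2.xN r x →
      ∃ g ∈ chevG2.group F, g * uV a b c d e f * g⁻¹ = good3G2.toGood2.xN 11 1 ∨ g * uV a b c d e f * g⁻¹ = good3G2.toGood2.xN 9 1 := by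
    intro r hr l hl hw hp x hx g hg eg
    obtain ⟨g', hg', e'⟩ := toRepG2 hperf hr hx hp l hl hw
    refine ⟨g' * g, Subgroup.mul_mem _ hg' hg, Or.inr ?_⟩
    rw [← e', ← eg]
    group
  have long : ∀ r : ℕ, r < 12 → ∀ l : List ℕ, (∀ i ∈ l, i < 2) → wperm digG2.tbl l r = 11 → chevG2.pairing r r = 2 → ∀ x : F, x ≠ 0 → ∀ g ∈ chevG2.group F,
      g * uV a b c d e f * g⁻¹ = good3G2.toGood2.xN r x →
      ∃ g ∈ chevG2.group F, g * uV a b c d e f * g⁻¹ = good3G2.toGood2.xN 11 1 ∨ g * uV a b c d e f * g⁻¹ = good3G2.toGood2.xN 9 1 := by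
    intro r hr l hl hw hp x hx g hg eg
    obtain ⟨g', hg', e'⟩ := toRepG2 hperf hr hx hp l hl hw
    refine ⟨g' * g, Subgroup.mul_mem _ hg' hg, Or.inl ?_⟩
    rw [← e', ← eg]
    group
  by_cases hb : b = 0
  · subst hb
    by_cases ha : a = 0
    · subst ha
      by_cases hc : c = 0
      · subst hc
        by_cases hd : d = 0
        · subst hd
          by_cases he : e = 0
          · subst he
            have hf : f ≠ 0 := by
              rintro rfl
              apply h1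
              rw [uV_F, good3G2.toGood2.xN_zero]
            refine long 11 (by decide) [] (by simp) rfl (by decide +kernel) f hf 1 (Subgroup.one_mem _) ?_
            rw [uV_F]
            group
          · obtain ⟨g, hg, eg⟩ := caseG2E (f := f) he
            exact long 10 (by decide) [1] (by simp) (by decide +kernel) (by decide +kernel) e he g hg eg
        · obtain ⟨g, hg, eg⟩ := caseG2D (e := e) (f := f) hd
          exact short 9 (by decide) [] (by simp) rfl (by decide +kernel) d hd g hg eg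
      · have hd : d = 0 := by
          have : c * d = 0 := by simpa using e11
          exact (mul_eq_zero.1 this).resolve_left hc
        subst hd
        obtain ⟨g, hg, eg⟩ := caseG2C hperf (e := e) (f := f) hc
        exact short 8 (by decide) [0] (by simp) (by decide +kernel) (by decide +kernel) c hc g hg eg
    · have heq : a * e + c * d = 0 := by simpa using e11
      obtain ⟨g, hg, x, eg⟩ := caseG2B ha heq
      by_cases hx : x = 0
      · subst hx
        rw [good3G2.toGood2.xN_zero, mul_one] at eg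
        exact long 6 (by decide) [1, 0] (by simp) (by decide +kernel) (by decide +kernel) a ha g hg eg
      · obtain ⟨g2, hg2, e2⟩ : ∃ g2 ∈ chevG2.group F, g2 * (good3G2.toGood2.xN 6 a * good3G2.toGood2.xN 9 x) * g2⁻¹ = uV 0 x 0 0 0 a := by
          refine ⟨good3G2.toGood2.nProd [1, 0], good3G2.toGood2.N_le_group (good3G2.toGood2.nProd_mem_N (by decide)), ?_⟩
          have e3 : good3G2.toGood2.nProd [1, 0] * (good3G2.toGood2.xN 6 a * good3G2.toGood2.xN 9 x) * (good3G2.toGood2.nProd [1, 0])⁻¹ =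
              (good3G2.toGood2.nProd [1, 0] * good3G2.toGood2.xN 6 a * (good3G2.toGood2.nProd [1, 0])⁻¹) * (good3G2.toGood2.nProd [1, 0] * good3G2.toGood2.xN 9 x * (good3G2.toGood2.nProd [1, 0])⁻¹) := by group
          rw [e3, good3G2.toGood2.nProd_xN (by decide) (by decide), good3G2.toGood2.nProd_xN (by decide) (by decide)]
          have e4 : wperm digG2.tbl [1, 0] 6 = 11 := by decide +kernel
          have e5 : wperm digG2.tbl [1, 0] 9 = 7 := by decide +kernel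
          rw [e4, e5]
          have key := good3G2.toGood2.gW_eq_of_diff (vG 0 x 0 0 0 a 0 0 0 0) chkG2B2 (by simp [pval])
          rw [wval_wsub _ (by simp [vG, vL]), gW_uG2] at key
          rw [← key]
          simp [wval, pval, mval, vG, vL, good3G2.toGood2.gW_cons, good3G2.toGood2.gW_nil]
        obtain ⟨g3, hg3, e3⟩ := caseG2A hperf (b := x) (c := 0) (d := 0) (e := 0) (f := a) hx (by simp)
        refine short 7 (by decide) [0, 1] (by simp) (by decide +kernel) (by decide +kernel) x hx (g3 * g2 * g) (Subgroup.mul_mem _ (Subgroup.mul_mem _ hg3 hg2) hg) ?_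
        rw [← e3, ← e2, ← eg]
        group
  · have ha : a = 0 := by
      have : a * b = 0 := by simpa using e8
      exact (mul_eq_zero.1 this).resolve_right hb
    subst ha
    have hd : d = b * c := by
      have e12 : b * (b * c + d) = 0 := by
        linear_combination e10 + 0 * htwo
      have := (mul_eq_zero.1 e12).resolve_left hb
      linear_combination this - b * c * htwo
    obtain ⟨g, hg, eg⟩ := caseG2A hperf (e := e) (f := f) hb hd
    exact short 7 (by decide) [0, 1] (by simp) (by decide +kernel) (by decide +kernel) b hb g hg eg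

/-- The long roots are preserved by the Weyl group. -/
lemma long_inv_G2 : ∀ i, i < 2 → ∀ r ∈ [0, 1, 5, 6, 10, 11], digG2.tbl.refl i r ∈ [0, 1, 5, 6, 10, 11] := by decide +kernel

lemma wperm_long_G2 (l : List ℕ) (hl : ∀ i ∈ l, i < 2) : wperm digG2.tbl l 11 ∈ [0, 1, 5, 6, 10, 11] := by
  induction l with
  | nil => simp
  | cons i l ih =>
    rw [wperm_cons]
    exact long_inv_G2 i (hl i (by simp)) _ (ih fun j hj => hl j (List.mem_cons_of_mem _ hj))

/-- Root elements of the two lengths are not conjugate. -/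
theorem nonconj_G2 {h : GL chevG2.Idx F} (hh : h ∈ chevG2.group F)
    (e : h * good3G2.toGood2.xN 11 (1 : F) * h⁻¹ = good3G2.toGood2.xN 9 1) : False := by
  have hG := good3G2.toGood2
  obtain ⟨n, hn, b, hb, b', hb', rfl⟩ := hG.bruhat_exists hh
  -- the right factor
  obtain ⟨h1, hh1, u1, hu1, rfl⟩ := hG.mem_borel' hb'
  have hcen : u1 * good3G2.toGood2.xN 11 (1 : F) * u1⁻¹ = good3G2.toGood2.xN 11 1 := by
    obtain ⟨t, ⟨-, ht⟩, -⟩ := (good3G2.toGood2.U_normal_form (F := F)).1 u1 hu1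
    have eu : u1 = uV (t 6) (t 7) (t 8) (t 9) (t 10) (t 11) := by
      apply Units.ext
      rw [ht, good3G2.toGood2.posRoots_eq]
      rw [uV, good3G2.toGood2.gW_coe]
      rfl
    have key := good3G2.toGood2.gW_eq_of_diff (vG (t 6) (t 7) (t 8) (t 9) (t 10) (t 11) 0 0 0 0) chkG2Cen (by simp [pval])
    rw [wval_append_G2, wval_append_G2, good3G2.toGood2.gW_append, good3G2.toGood2.gW_append, gW_uG2, ← eu] at key
    have e1 : good3G2.toGood2.gW (wval (vG (t 6) (t 7) (t 8) (t 9) (t 10) (t 11) 0 0 0 0) [(11, [[]])]) = good3G2.toGood2.xN 11 (1 : F) := by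
      simp [wval, pval, mval, good3G2.toGood2.gW_cons, good3G2.toGood2.gW_nil]
    rw [e1] at key
    rw [mul_inv_eq_iff_eq_mul]
    exact key
  have hr11 : (11 : ℕ) < chevG2.nroots := by decide
  obtain ⟨c1, hc1, e1⟩ := hG.H_conj_x hh1 hr11
  obtain ⟨h2, hh2, l, hl, rfl⟩ := hG.N_form hn
  have hlong := wperm_long_G2 l (fun i hi => hl i hi)
  have e3 := hG.nProd_xN (F := F) hl hr11 (c1 * 1)
  generalize wperm digG2.tbl l 11 = w at hlong e3
  have hw : w < chevG2.nroots := by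
    have : ∀ r ∈ [0, 1, 5, 6, 10, 11], r < chevG2.nroots := by decide
    exact this _ hlong
  obtain ⟨c2, hc2, e2⟩ := hG.H_conj_x hh2 hw
  obtain ⟨u3, hu3, h3, hh3, rfl⟩ := hG.mem_borel hb
  obtain ⟨c3, hc3, e4⟩ := hG.H_conj_x hh3 hw
  -- the element
  have hwn : w < chevG2.nroots := hw
  have key : u3 * hG.xU hwn (c3 * (c2 * (c1 * 1))) = good3G2.toGood2.xN 9 1 * u3 := by
    have e5 : u3 * hG.xU hwn (c3 * (c2 * (c1 * 1))) * u3⁻¹ = good3G2.toGood2.xN 9 1 := by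
      have s1 : h1 * good3G2.toGood2.xN 11 (1 : F) * h1⁻¹ = good3G2.toGood2.xN 11 (c1 * 1) := by
        rw [good3G2.toGood2.xN_of_lt hr11, good3G2.toGood2.xN_of_lt hr11]
        exact e1 1
      have s2 : (h1 * u1) * good3G2.toGood2.xN 11 (1 : F) * (h1 * u1)⁻¹ = good3G2.toGood2.xN 11 (c1 * 1) := by
        rw [← s1, ← hcen]
        rw [hcen]
        have s0 : (h1 * u1) * good3G2.toGood2.xN 11 (1 : F) * (h1 * u1)⁻¹ = h1 * (u1 * good3G2.toGood2.xN 11 (1 : F) * u1⁻¹) * h1⁻¹ := by group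
        rw [s0, hcen]
      have s3 : hG.nProd l * good3G2.toGood2.xN 11 (c1 * 1) * (hG.nProd l)⁻¹ = hG.xU hw (c1 * 1) := by
        rw [e3, hG.xN_of_lt hw]
      have s4 : h2 * hG.xU hw (c1 * 1) * h2⁻¹ = hG.xU hw (c2 * (c1 * 1)) := e2 _
      have s5 : h3 * hG.xU hw (c2 * (c1 * 1)) * h3⁻¹ = hG.xU hw (c3 * (c2 * (c1 * 1))) := e4 _
      rw [← e, ← s5, ← s4, ← s3, ← s2]
      group
    rw [← e5]
    group
  have hc : c3 * (c2 * (c1 * 1)) ≠ 0 := by
    simp [hc1, hc2, hc3]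
  obtain ⟨c, hcd⟩ : ∃ c, c = c3 * (c2 * (c1 * 1)) := ⟨_, rfl⟩
  rw [← hcd] at key hc
  -- negative roots
  by_cases hneg : w < 6
  · have h5 : hG.xU hwn c = u3⁻¹ * good3G2.toGood2.xN 9 1 * u3 := by
      rw [mul_assoc, ← key]
      group
    have h6 : hG.xU hwn c ∈ chevG2.posUnipotent F := by
      rw [h5]
      refine Subgroup.mul_mem _ (Subgroup.mul_mem _ (Subgroup.inv_mem _ hu3) ?_) hu3
      rw [good3G2.toGood2.xN_of_lt (by decide)]
      exact hG.xU_mem_U _ (by decide) _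
    have h7 : hG.xU hwn c ∈ chevG2.negUnipotent F := hG.xU_mem_V _ hneg _
    have h8 : hG.xU hwn c ∈ chevG2.posUnipotent F ⊓ chevG2.negUnipotent F := ⟨h6, h7⟩
    rw [hG.U_inf_V] at h8
    exact hG.xU_ne_one hwn hc (by simpa using h8)
  · obtain ⟨t, ⟨-, ht⟩, -⟩ := (good3G2.toGood2.U_normal_form (F := F)).1 u3 hu3
    have eu : u3 = uV (t 6) (t 7) (t 8) (t 9) (t 10) (t 11) := by
      apply Units.ext
      rw [ht, good3G2.toGood2.posRoots_eq]
      rw [uV, good3G2.toGood2.gW_coe]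
      rfl
    rw [← hG.xN_of_lt hw] at key
    have hw6 : w = 6 ∨ w = 10 ∨ w = 11 := by
      simp only [List.mem_cons, List.not_mem_nil, or_false] at hlong
      omega
    have vv : ∀ (s : List (ℕ × PP)), hG.gW (wval (vG (t 6) (t 7) (t 8) (t 9) (t 10) (t 11) 0 0 0 c) (uG2 ++ s)) = u3 * hG.gW (wval (vG (t 6) (t 7) (t 8) (t 9) (t 10) (t 11) 0 0 0 c) s) := by
      intro s
      rw [wval_append_G2, hG.gW_append, gW_uG2, eu]
    have ea : hG.gW (wval (vG (t 6) (t 7) (t 8) (t 9) (t 10) (t 11) 0 0 0 c) [(9, [[]])]) = good3G2.toGood2.xN 9 (1 : F) := by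
      simp [wval, pval, mval, hG.gW_cons, hG.gW_nil]
    have eb : hG.gW (wval (vG (t 6) (t 7) (t 8) (t 9) (t 10) (t 11) 0 0 0 c) ([(9, [[]])] ++ uG2)) = good3G2.toGood2.xN 9 (1 : F) * u3 := by
      rw [wval_append_G2, hG.gW_append, gW_uG2, ea, eu]
    rcases hw6 with rfl | rfl | rfl
    · have e6 : hG.gW (wval (vG (t 6) (t 7) (t 8) (t 9) (t 10) (t 11) 0 0 0 c) [(6, [[9]])]) = good3G2.toGood2.xN 6 c := by
        simp [wval, pval, mval, vG, vL, hG.gW_cons, hG.gW_nil]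
      have e7 : hG.gW (wval (vG (t 6) (t 7) (t 8) (t 9) (t 10) (t 11) 0 0 0 c) (uG2 ++ [(6, [[9]])])) = hG.gW (wval (vG (t 6) (t 7) (t 8) (t 9) (t 10) (t 11) 0 0 0 c) ([(9, [[]])] ++ uG2)) := by
        rw [vv, e6, eb]
        exact key
      have c6 : t 6 * 1 + (c * 1 + 0) = t 6 * 1 + 0 := hG.coords _ _ nfN6a nfN6b e7 0 (by decide)
      exact hc (by simpa using c6)
    · have e6 : hG.gW (wval (vG (t 6) (t 7) (t 8) (t 9) (t 10) (t 11) 0 0 0 c) [(10, [[9]])]) = good3G2.toGood2.xN 10 c := by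
        simp [wval, pval, mval, vG, vL, hG.gW_cons, hG.gW_nil]
      have e7 : hG.gW (wval (vG (t 6) (t 7) (t 8) (t 9) (t 10) (t 11) 0 0 0 c) (uG2 ++ [(10, [[9]])])) = hG.gW (wval (vG (t 6) (t 7) (t 8) (t 9) (t 10) (t 11) 0 0 0 c) ([(9, [[]])] ++ uG2)) := by
        rw [vv, e6, eb]
        exact key
      have c9 : t 9 * 1 + 0 = 1 + (t 9 * 1 + 0) := hG.coords _ _ nfN10a nfN6b e7 3 (by decide)
      simp at c9
    · have e6 : hG.gW (wval (vG (t 6) (t 7) (t 8) (t 9) (t 10) (t 11) 0 0 0 c) [(11, [[9]])]) = good3G2.toGood2.xN 11 c := by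
        simp [wval, pval, mval, vG, vL, hG.gW_cons, hG.gW_nil]
      have e7 : hG.gW (wval (vG (t 6) (t 7) (t 8) (t 9) (t 10) (t 11) 0 0 0 c) (uG2 ++ [(11, [[9]])])) = hG.gW (wval (vG (t 6) (t 7) (t 8) (t 9) (t 10) (t 11) 0 0 0 c) ([(9, [[]])] ++ uG2)) := by
        rw [vv, e6, eb]
        exact key
      have c9 : t 9 * 1 + 0 = 1 + (t 9 * 1 + 0) := hG.coords _ _ nfN11a nfN6b e7 3 (by decide)
      simp at c9

end

/-- The representatives. -/
def repsG2 : List (List ℕ) := [[11], [9]]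

section

variable {F : Type*} [Field F] [CharP F 2]

lemma xL_singleG2 (r : ℕ) : (good3G2.toGood2.xL [r] : GL chevG2.Idx F) = good3G2.toGood2.xN r 1 := by
  simp [good3G2.toGood2.xL_cons, good3G2.toGood2.xL_nil]

theorem hsqG2 : ∀ rep ∈ repsG2, (good3G2.toGood2.xL rep : GL chevG2.Idx F) * good3G2.toGood2.xL rep = 1 ∧
    (good3G2.toGood2.xL rep : GL chevG2.Idx F) ≠ 1 := by
  have hG := good3G2.toGood2
  have key : ∀ r, r < chevG2.nroots → (good3G2.toGood2.xL [r] : GL chevG2.Idx F) * good3G2.toGood2.xL [r] = 1 ∧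
      (good3G2.toGood2.xL [r] : GL chevG2.Idx F) ≠ 1 := by
    intro r hr
    rw [xL_singleG2]
    constructor
    · rw [hG.xN_add hr, add_self_char_two, hG.xN_zero]
    · rw [hG.xN_of_lt hr]
      exact hG.xU_ne_one hr one_ne_zero
  intro rep hrep
  simp only [repsG2, List.mem_cons, List.not_mem_nil, or_false] at hrep
  rcases hrep with rfl | rfl
  · exact key 11 (by decide)
  · exact key 9 (by decide)

theorem hconjG2 [Finite F] : ∀ v ∈ chevG2.group F, v * v = 1 → v ≠ 1 → ∃ rep ∈ repsG2, ∃ h ∈ chevG2.group F, h * v * h⁻¹ = good3G2.toGood2.xL rep := by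
  intro v hv h2 h1
  obtain ⟨g₁, hg₁, hu⟩ := exists_conj_U good3G2 hv h2
  have hperf : ∀ x : F, ∃ y : F, y ^ 2 = x := by
    intro x
    obtain ⟨s, hs⟩ := FiniteField.isSquare_of_char_two (ringChar.eq F 2) x
    exact ⟨s, by rw [hs, pow_two]⟩
  have h3 : (g₁ * v * g₁⁻¹) * (g₁ * v * g₁⁻¹) = 1 := by
    have e' : g₁ * v * g₁⁻¹ * (g₁ * v * g₁⁻¹) = g₁ * (v * v) * g₁⁻¹ := by group
    rw [e', h2]
    simp
  have h4 : g₁ * v * g₁⁻¹ ≠ 1 := by
    intro h5
    apply h1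
    have : v = g₁⁻¹ * (g₁ * v * g₁⁻¹) * g₁ := by group
    rw [this, h5]
    group
  obtain ⟨g₂, hg₂, e⟩ := inv_U_G2 hperf hu h4 h3
  rcases e with e | e
  · refine ⟨[11], by simp [repsG2], g₂ * g₁, Subgroup.mul_mem _ hg₂ hg₁, ?_⟩
    rw [xL_singleG2, ← e]
    group
  · refine ⟨[9], by simp [repsG2], g₂ * g₁, Subgroup.mul_mem _ hg₂ hg₁, ?_⟩
    rw [xL_singleG2, ← e]
    group

theorem hnonG2 : ∀ a ∈ repsG2, ∀ b ∈ repsG2, ∀ h ∈ chevG2.group F,
    h * (good3G2.toGood2.xL a : GL chevG2.Idx F) * h⁻¹ = good3G2.toGood2.xL b → a = b := by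
  intro a ha b hb h hh e
  simp only [repsG2, List.mem_cons, List.not_mem_nil, or_false] at ha hb
  rcases ha with rfl | rfl <;> rcases hb with rfl | rfl
  · rfl
  · rw [xL_singleG2, xL_singleG2] at e
    exact (nonconj_G2 hh e).elim
  · rw [xL_singleG2, xL_singleG2] at e
    refine (nonconj_G2 (h := h⁻¹) (Subgroup.inv_mem _ hh) ?_).elim
    rw [← e]
    group
  · rfl

/-- The classes of involutions in type G₂ in characteristic two. -/
theorem mainG2 {F : Type*} [Field F] [Fintype F] [CharP F 2] :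
    (∀ y : GL chevG2.Idx F, (y : Matrix chevG2.Idx chevG2.Idx F) ∈ repsG2.map (fun rep => chevG2.wordMat F (rep.map fun r => (r, (1 : F)))) →
        y ∈ chevG2.group F ∧ orderOf y = 2) ∧
    (∀ g ∈ chevG2.group F, orderOf g = 2 → ∃ y ∈ chevG2.group F,
        (y : Matrix chevG2.Idx chevG2.Idx F) ∈ repsG2.map (fun rep => chevG2.wordMat F (rep.map fun r => (r, (1 : F)))) ∧
        ∃ h ∈ chevG2.group F, h * g * h⁻¹ = y) ∧
    (∀ y₁ ∈ chevG2.group F, ∀ y₂ ∈ chevG2.group F,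
        (y₁ : Matrix chevG2.Idx chevG2.Idx F) ∈ repsG2.map (fun rep => chevG2.wordMat F (rep.map fun r => (r, (1 : F)))) →
        (y₂ : Matrix chevG2.Idx chevG2.Idx F) ∈ repsG2.map (fun rep => chevG2.wordMat F (rep.map fun r => (r, (1 : F)))) →
        (∃ h ∈ chevG2.group F, h * y₁ * h⁻¹ = y₂) → (y₁ : Matrix chevG2.Idx chevG2.Idx F) = (y₂ : Matrix chevG2.Idx chevG2.Idx F)) :=
  finalG good3G2.toGood2 repsG2 hsqG2 hconjG2 hnonG2

end

end Cfsg.Agent.Lib.Chev
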