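/-
The group ²F₄(q): the chain form of the fixed elements of `U` and the leading letter of an element.
-/
import Cfsg.Agent.Lib.Coll.Diff
import Cfsg.Agent.Lib.Tw.ReeF4i
import Cfsg.Agent.Lib.Tw.ReeF4g

set_option autoImplicit false
set_option maxRecDepth 100000

namespace Cfsg.Agent.Lib.Chev

open Cfsg.Lie Coll

section

variable {K : Type*} [Field K] [CharP K 2] (hperf : ∀ x : K, ∃ y : K, y ^ 2 = x) (φ : K ≃+* K)

/-- The element of the monomial group of a word. -/
noncomputable def mF4 (l : List ℕ) (hl : ∀ i ∈ l, i < chevF4.rank) : ↥(chevF4.monomialSubgroup K) :=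
  ⟨good3F4.toGood2.nProd l, good3F4.toGood2.nProd_mem_N hl⟩

/-- The letters of the chain. -/
noncomputable def lettF4 (j : ℕ) (pre : List ℕ) (a b : K) : GL chevF4.Idx K :=
  good3F4.toGood2.nProd pre * (if j = 0 then parU φ a else suzU φ a b) * (good3F4.toGood2.nProd pre)⁻¹

/-- The products of the letters of the chain. -/
noncomputable def prodF4 : List ℕ → List ℕ → List (K × K) → GL chevF4.Idx K
  | [], _, _ => 1
  | _ :: _, _, [] => 1
  | j :: post, pre, e :: ps => lettF4 φ j pre e.1 e.2 * prodF4 post (pre ++ wJF4 j) ps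

/-- The orbit group fixed points. -/
lemma mem_XJ_fix (hφ : ∀ x, φ (φ (x ^ 2)) = x) {j : ℕ} (hj : j < 2) {x : GL chevF4.Idx K}
    (hx : x ∈ XJ chevF4 K (orbF4.J j) ⊓ (twF4 hperf φ).fix) : ∃ a b : K, x = if j = 0 then parU φ a else suzU φ a b := by
  interval_cases j
  · obtain ⟨t, rfl⟩ := (mem_X0_fix_iff hperf φ hφ).1 hx
    exact ⟨t, 0, rfl⟩
  · obtain ⟨t, u, rfl⟩ := (mem_X1_fix_iff hperf φ hφ).1 hx
    exact ⟨t, u, rfl⟩

lemma wJF4_lt {j : ℕ} (hj : j < 2) : ∀ i ∈ wJF4 j, i < chevF4.rank := by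
  interval_cases j <;> decide

/-- The form of a chain. -/
theorem chain_form (hφ : ∀ x, φ (φ (x ^ 2)) = x) (post pre : List ℕ) (hpre : ∀ i ∈ pre, i < chevF4.rank)
    (hm : (good3F4.toGood2.nProd pre : GL chevF4.Idx K) ∈ (twF4 hperf φ).fix)
    (h : chainOK digF4.tbl chevF4 orbF4 pre post) {g : GL chevF4.Idx K} (hg : g ∈ (twF4 hperf φ).UF (good3F4.toGood2.nProd pre)) :
    ∃ ps : List (K × K), ps.length = post.length ∧ g = prodF4 φ post pre ps := by
  induction post generalizing pre g with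
  | nil =>
    refine ⟨[], rfl, ?_⟩
    have h1 := (twnF4 hperf φ hφ).UF_bot (mF4 pre hpre) (fun r hr => by
      have e : (good3F4.toGood2.permN (mF4 (K := K) pre hpre) r : ℕ) = wperm digF4.tbl pre r := good3F4.toGood2.permN_nProd hpre r
      rw [e]
      exact h r r.2 hr)
    have e : ((mF4 pre hpre : ↥(chevF4.monomialSubgroup K)) : GL chevF4.Idx K) = good3F4.toGood2.nProd pre := rfl
    rw [e] at h1
    rw [h1] at hg
    exact (Subgroup.mem_bot.1 hg)
  | cons j post ih =>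
    obtain ⟨hj, h1, h2⟩ := h
    have hj2 : j < 2 := hj
    have hred : ∀ s : Fin chevF4.nroots, chevF4.nroots / 2 ≤ (s : ℕ) → chevF4.InRootSub (orbF4.J j) s →
        chevF4.nroots / 2 ≤ (good3F4.toGood2.permN (mF4 (K := K) pre hpre) s : ℕ) := by
      intro s hs hsJ
      have e : (good3F4.toGood2.permN (mF4 (K := K) pre hpre) s : ℕ) = wperm digF4.tbl pre s := good3F4.toGood2.permN_nProd hpre s
      rw [e]
      exact h1 s s.2 hs hsJ
    obtain ⟨h3, _, _⟩ := (twnF4 hperf φ hφ).UF_step (mF4 pre hpre) hm hj hred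
    obtain ⟨x, hx, g', hg', e⟩ := h3 g hg
    obtain ⟨a, b, rfl⟩ := mem_XJ_fix hperf φ hφ hj2 hx
    have hn : (twnF4 hperf φ hφ).n j = good3F4.toGood2.nProd (wJF4 j) := rfl
    have e1 : ((mF4 pre hpre : ↥(chevF4.monomialSubgroup K)) : GL chevF4.Idx K) * (twnF4 hperf φ hφ).n j =
        good3F4.toGood2.nProd (pre ++ wJF4 j) := by
      rw [hn, good3F4.toGood2.nProd_append]
      rfl
    rw [e1] at hg'
    have hn2 : good3F4.toGood2.nProd (wJF4 j) ∈ (twF4 hperf φ).fix := (twnF4 hperf φ hφ).fix j hj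
    have hpre' : ∀ i ∈ pre ++ wJF4 j, i < chevF4.rank := by
      intro i hi
      rcases List.mem_append.1 hi with hi | hi
      · exact hpre i hi
      · exact wJF4_lt hj2 i hi
    obtain ⟨ps, hps, e2⟩ := ih (pre ++ wJF4 j) hpre' (by
      rw [good3F4.toGood2.nProd_append]
      exact Subgroup.mul_mem _ hm hn2) h2 hg'
    refine ⟨(a, b) :: ps, by simp [hps], ?_⟩
    rw [e, e2]
    rfl

/-- The leading letter of an element of a chain. -/
theorem lead_form (hφ : ∀ x, φ (φ (x ^ 2)) = x) (post pre : List ℕ) (hpre : ∀ i ∈ pre, i < chevF4.rank)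
    (hm : (good3F4.toGood2.nProd pre : GL chevF4.Idx K) ∈ (twF4 hperf φ).fix)
    (h : chainOK digF4.tbl chevF4 orbF4 pre post) {g : GL chevF4.Idx K} (hg : g ∈ (twF4 hperf φ).UF (good3F4.toGood2.nProd pre))
    (hne : g ≠ 1) : ∃ m ∈ (twF4 hperf φ).fix, ∃ j, j < 2 ∧ ∃ a b : K, (if j = 0 then parU φ a else suzU φ a b) ≠ 1 ∧
      ∃ g' ∈ (twF4 hperf φ).UF (good3F4.toGood2.nProd (wJF4 j)), m⁻¹ * g * m = (if j = 0 then parU φ a else suzU φ a b) * g' := by
  induction post generalizing pre g with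
  | nil =>
    exfalso
    have h1 := (twnF4 hperf φ hφ).UF_bot (mF4 pre hpre) (fun r hr => by
      have e : (good3F4.toGood2.permN (mF4 (K := K) pre hpre) r : ℕ) = wperm digF4.tbl pre r := good3F4.toGood2.permN_nProd hpre r
      rw [e]
      exact h r r.2 hr)
    have e : ((mF4 pre hpre : ↥(chevF4.monomialSubgroup K)) : GL chevF4.Idx K) = good3F4.toGood2.nProd pre := rfl
    rw [e] at h1
    rw [h1] at hg
    exact hne (Subgroup.mem_bot.1 hg)
  | cons j post ih =>
    obtain ⟨hj, h1, h2⟩ := h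
    have hj2 : j < 2 := hj
    have hred : ∀ s : Fin chevF4.nroots, chevF4.nroots / 2 ≤ (s : ℕ) → chevF4.InRootSub (orbF4.J j) s →
        chevF4.nroots / 2 ≤ (good3F4.toGood2.permN (mF4 (K := K) pre hpre) s : ℕ) := by
      intro s hs hsJ
      have e : (good3F4.toGood2.permN (mF4 (K := K) pre hpre) s : ℕ) = wperm digF4.tbl pre s := good3F4.toGood2.permN_nProd hpre s
      rw [e]
      exact h1 s s.2 hs hsJ
    obtain ⟨h3, _, _⟩ := (twnF4 hperf φ hφ).UF_step (mF4 pre hpre) hm hj hred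
    obtain ⟨x, hx, g', hg', e⟩ := h3 g hg
    obtain ⟨a, b, hab⟩ := mem_XJ_fix hperf φ hφ hj2 hx
    have hn : (twnF4 hperf φ hφ).n j = good3F4.toGood2.nProd (wJF4 j) := rfl
    have e1 : ((mF4 pre hpre : ↥(chevF4.monomialSubgroup K)) : GL chevF4.Idx K) * (twnF4 hperf φ hφ).n j =
        good3F4.toGood2.nProd (pre ++ wJF4 j) := by
      rw [hn, good3F4.toGood2.nProd_append]
      rfl
    have e2 : ((mF4 pre hpre : ↥(chevF4.monomialSubgroup K)) : GL chevF4.Idx K) = good3F4.toGood2.nProd pre := rfl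
    have hn2 : good3F4.toGood2.nProd (wJF4 j) ∈ (twF4 hperf φ).fix := (twnF4 hperf φ hφ).fix j hj
    by_cases hx1 : x = 1
    · have hpre' : ∀ i ∈ pre ++ wJF4 j, i < chevF4.rank := by
        intro i hi
        rcases List.mem_append.1 hi with hi | hi
        · exact hpre i hi
        · exact wJF4_lt hj2 i hi
      rw [e1] at hg'
      have hgg : g = g' := by
        rw [e, hx1]
        group
      rw [hgg] at hne
      obtain ⟨m, hm', j', hj', a', b', h5, g2, hg2, e5⟩ := ih (pre ++ wJF4 j) hpre' (by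
        rw [good3F4.toGood2.nProd_append]
        exact Subgroup.mul_mem _ hm hn2) h2 hg' hne
      exact ⟨m, hm', j', hj', a', b', h5, g2, hg2, by rw [hgg]; exact e5⟩
    · refine ⟨good3F4.toGood2.nProd pre, hm, j, hj2, a, b, ?_, (good3F4.toGood2.nProd pre)⁻¹ * g' * good3F4.toGood2.nProd pre, ?_, ?_⟩
      · rw [← hab]
        exact hx1
      · obtain ⟨h6, h7, h8⟩ := hg'
        rw [Tw.mem_UF]
        refine ⟨?_, ?_, ?_⟩
        · have h9 := (twnF4 hperf φ hφ).QP_conj (mF4 pre hpre) hj hred (Tw.mem_QP ((mF4 pre hpre) * (twnF4 hperf φ hφ).s j hj) h6 h8)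
          exact TwN.R_le_U _ h9
        · exact Subgroup.mul_mem _ (Subgroup.mul_mem _ (Subgroup.inv_mem _ hm) h7) hm
        · have e3 : (good3F4.toGood2.nProd (wJF4 j))⁻¹ * ((good3F4.toGood2.nProd pre)⁻¹ * g' * good3F4.toGood2.nProd pre) * good3F4.toGood2.nProd (wJF4 j) =
              (((mF4 pre hpre : ↥(chevF4.monomialSubgroup K)) : GL chevF4.Idx K) * (twnF4 hperf φ hφ).n j)⁻¹ * g' * (((mF4 pre hpre : ↥(chevF4.monomialSubgroup K)) : GL chevF4.Idx K) * (twnF4 hperf φ hφ).n j) := by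
            rw [hn, e2]
            group
          rw [e3]
          exact h8
      · rw [e, hab, e2]
        group

end

end Cfsg.Agent.Lib.Chev
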