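/-
The group ²F₄(q): the chain forms as words of the collector.
-/
import Cfsg.Agent.Lib.Coll.ReeB

set_option autoImplicit false
set_option maxRecDepth 100000

namespace Cfsg.Agent.Lib.Chev

open Cfsg.Lie Coll

section

variable {K : Type*} [Field K] [CharP K 2] (φ : K ≃+* K)

lemma wval_append' (v : ℕ → K) (w w' : List (ℕ × PP)) : wval v (w ++ w') = wval v w ++ wval v w' := List.map_append ..

lemma gW_wval_append (v : ℕ → K) (w w' : List (ℕ × PP)) :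
    good3F4.toGood2.gW (wval v (w ++ w')) = good3F4.toGood2.gW (wval v w) * good3F4.toGood2.gW (wval v w') := by
  rw [wval_append', good3F4.toGood2.gW_append]

lemma gW_wval_wsub (v : ℕ → K) {Z : List ℕ} (hZ : ∀ k ∈ Z, v k = 0) (w : List (ℕ × PP)) :
    good3F4.toGood2.gW (wval v (wsub Z w)) = good3F4.toGood2.gW (wval v w) := by
  rw [wval_wsub v hZ]

lemma gW_lP (v : ℕ → K) {i : ℕ} (r1 r2 : ℕ) {a : K} (h0 : v i = a) (h1 : v (i + 1) = φ a) :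
    good3F4.toGood2.gW (wval v (lP r1 r2 i)) = good3F4.toGood2.gW [(r1, φ a), (r2, a)] := by
  simp [wval, lP, pval, mval, h0, h1]

lemma gW_lS (v : ℕ → K) {i : ℕ} (r1 r2 r3 r4 : ℕ) {a b : K} (h0 : v i = a) (h1 : v (i + 1) = φ a) (h2 : v (i + 2) = b)
    (h3 : v (i + 3) = φ (b ^ 2)) :
    good3F4.toGood2.gW (wval v (lS r1 r2 r3 r4 i)) = good3F4.toGood2.gW [(r1, φ a), (r2, a), (r3, φ a * a + b), (r4, φ (b ^ 2))] := by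
  simp [wval, lS, pval, mval, h0, h1, h2, h3, mul_comm (φ a) a]

lemma parU_gW (a : K) : parU φ a = good3F4.toGood2.gW [(33, φ a), (24, a)] := by
  simp [parU, ppF4]

lemma suzU_gW (a b : K) : suzU φ a b = good3F4.toGood2.gW [(27, φ a), (25, a), (28, φ a * a + b), (30, φ (b ^ 2))] := by
  unfold suzU
  rw [ggF4_eq_gW]

lemma lett0 {pre : List ℕ} (hpre : ∀ i ∈ pre, i < chevF4.rank) {r1 r2 : ℕ} (h1 : wperm digF4.tbl pre 33 = r1) (h2 : wperm digF4.tbl pre 24 = r2)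
    (a b : K) : lettF4 φ 0 pre a b = good3F4.toGood2.gW [(r1, φ a), (r2, a)] := by
  unfold lettF4
  rw [if_pos rfl, parU_gW, good3F4.toGood2.nProd_gW hpre _ (by
    intro x hx
    have h : ∀ r ∈ [33, 24], r < chevF4.nroots := by decide
    simp only [List.mem_cons, List.not_mem_nil, or_false] at hx
    rcases hx with rfl | rfl <;> exact h _ (by simp))]
  simp [h1, h2]

lemma lett1 {pre : List ℕ} (hpre : ∀ i ∈ pre, i < chevF4.rank) {r1 r2 r3 r4 : ℕ} (h1 : wperm digF4.tbl pre 27 = r1) (h2 : wperm digF4.tbl pre 25 = r2)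
    (h3 : wperm digF4.tbl pre 28 = r3) (h4 : wperm digF4.tbl pre 30 = r4)
    (a b : K) : lettF4 φ 1 pre a b = good3F4.toGood2.gW [(r1, φ a), (r2, a), (r3, φ a * a + b), (r4, φ (b ^ 2))] := by
  unfold lettF4
  rw [if_neg (by decide), suzU_gW, good3F4.toGood2.nProd_gW hpre _ (by
    intro x hx
    have h : ∀ r ∈ [27, 25, 28, 30], r < chevF4.nroots := by decide
    simp only [List.mem_cons, List.not_mem_nil, or_false] at hx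
    rcases hx with rfl | rfl | rfl | rfl <;> exact h _ (by simp))]
  simp [h1, h2, h3, h4]

/-- The valuation of the chain starting with the short orbit. -/
def vPF (a1 a2 b2 a3 a4 b4 a5 a6 b6 a7 a8 b8 : K) (X : List K) : ℕ → K :=
  vL ([a1, φ a1, a2, φ a2, b2, φ (b2 ^ 2), a3, φ a3, a4, φ a4, b4, φ (b4 ^ 2), a5, φ a5, a6, φ a6, b6, φ (b6 ^ 2), a7, φ a7, a8, φ a8, b8, φ (b8 ^ 2)] ++ X)

/-- The valuation of the chain starting with the long orbit. -/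
def vSF (a1 b1 a2 a3 b3 a4 a5 b5 a6 a7 b7 a8 : K) (X : List K) : ℕ → K :=
  vL ([a1, φ a1, b1, φ (b1 ^ 2), a2, φ a2, a3, φ a3, b3, φ (b3 ^ 2), a4, φ a4, a5, φ a5, b5, φ (b5 ^ 2), a6, φ a6, a7, φ a7, b7, φ (b7 ^ 2), a8, φ a8] ++ X)

/-- The product of the letters as a word. -/
theorem prodP (p1 p2 p3 p4 p5 p6 p7 p8 : K × K) (X : List K) :
    prodF4 φ [0, 1, 0, 1, 0, 1, 0, 1] [] [p1, p2, p3, p4, p5, p6, p7, p8] = good3F4.toGood2.gW (wval (vPF φ p1.1 p2.1 p2.2 p3.1 p4.1 p4.2 p5.1 p6.1 p6.2 p7.1 p8.1 p8.2 X) wPc) := by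
  have l1 : lettF4 φ 0 [] p1.1 p1.2 = good3F4.toGood2.gW [(33, φ p1.1), (24, p1.1)] :=
    lett0 φ (by decide) (by decide +kernel) (by decide +kernel) _ _
  have l2 : lettF4 φ 1 [0, 3] p2.1 p2.2 = good3F4.toGood2.gW [(34, φ p2.1), (26, p2.1), (36, φ p2.1 * p2.1 + p2.2), (42, φ (p2.2 ^ 2))] :=
    lett1 φ (by decide) (by decide +kernel) (by decide +kernel) (by decide +kernel) (by decide +kernel) _ _
  have l3 : lettF4 φ 0 [0, 3, 1, 2, 1, 2] p3.1 p3.2 = good3F4.toGood2.gW [(38, φ p3.1), (43, p3.1)] :=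
    lett0 φ (by decide) (by decide +kernel) (by decide +kernel) _ _
  have l4 : lettF4 φ 1 [0, 3, 1, 2, 1, 2, 0, 3] p4.1 p4.2 = good3F4.toGood2.gW [(29, φ p4.1), (41, p4.1), (44, φ p4.1 * p4.1 + p4.2), (47, φ (p4.2 ^ 2))] :=
    lett1 φ (by decide) (by decide +kernel) (by decide +kernel) (by decide +kernel) (by decide +kernel) _ _
  have l5 : lettF4 φ 0 [0, 3, 1, 2, 1, 2, 0, 3, 1, 2, 1, 2] p5.1 p5.2 = good3F4.toGood2.gW [(39, φ p5.1), (45, p5.1)] :=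
    lett0 φ (by decide) (by decide +kernel) (by decide +kernel) _ _
  have l6 : lettF4 φ 1 [0, 3, 1, 2, 1, 2, 0, 3, 1, 2, 1, 2, 0, 3] p6.1 p6.2 = good3F4.toGood2.gW [(35, φ p6.1), (31, p6.1), (40, φ p6.1 * p6.1 + p6.2), (46, φ (p6.2 ^ 2))] :=
    lett1 φ (by decide) (by decide +kernel) (by decide +kernel) (by decide +kernel) (by decide +kernel) _ _
  have l7 : lettF4 φ 0 [0, 3, 1, 2, 1, 2, 0, 3, 1, 2, 1, 2, 0, 3, 1, 2, 1, 2] p7.1 p7.2 = good3F4.toGood2.gW [(37, φ p7.1), (32, p7.1)] :=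
    lett0 φ (by decide) (by decide +kernel) (by decide +kernel) _ _
  have l8 : lettF4 φ 1 [0, 3, 1, 2, 1, 2, 0, 3, 1, 2, 1, 2, 0, 3, 1, 2, 1, 2, 0, 3] p8.1 p8.2 = good3F4.toGood2.gW [(27, φ p8.1), (25, p8.1), (28, φ p8.1 * p8.1 + p8.2), (30, φ (p8.2 ^ 2))] :=
    lett1 φ (by decide) (by decide +kernel) (by decide +kernel) (by decide +kernel) (by decide +kernel) _ _
  have e1 : prodF4 φ [0, 1, 0, 1, 0, 1, 0, 1] [] [p1, p2, p3, p4, p5, p6, p7, p8] = lettF4 φ 0 [] p1.1 p1.2 * (lettF4 φ 1 [0, 3] p2.1 p2.2 * (lettF4 φ 0 [0, 3, 1, 2, 1, 2] p3.1 p3.2 * (lettF4 φ 1 [0, 3, 1, 2, 1, 2, 0, 3] p4.1 p4.2 * (lettF4 φ 0 [0, 3, 1, 2, 1, 2, 0, 3, 1, 2, 1, 2] p5.1 p5.2 * (lettF4 φ 1 [0, 3, 1, 2, 1, 2, 0, 3, 1, 2, 1, 2, 0, 3] p6.1 p6.2 * (lettF4 φ 0 [0, 3, 1, 2, 1, 2, 0, 3, 1, 2, 1, 2, 0, 3, 1, 2, 1, 2] p7.1 p7.2 * (lettF4 φ 1 [0,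 3, 1, 2, 1, 2, 0, 3, 1, 2, 1, 2, 0, 3, 1, 2, 1, 2, 0, 3] p8.1 p8.2 * 1))))))) := rfl
  rw [e1, l1, l2, l3, l4, l5, l6, l7, l8, mul_one]
  simp only [wPc, gW_wval_append]
  rw [gW_lP φ (vPF φ p1.1 p2.1 p2.2 p3.1 p4.1 p4.2 p5.1 p6.1 p6.2 p7.1 p8.1 p8.2 X) (i := 0) 33 24 (a := p1.1) rfl rfl,
    gW_lS φ (vPF φ p1.1 p2.1 p2.2 p3.1 p4.1 p4.2 p5.1 p6.1 p6.2 p7.1 p8.1 p8.2 X) (i := 2) 34 26 36 42 (a := p2.1) (b := p2.2) rfl rfl rfl rfl,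
    gW_lP φ (vPF φ p1.1 p2.1 p2.2 p3.1 p4.1 p4.2 p5.1 p6.1 p6.2 p7.1 p8.1 p8.2 X) (i := 6) 38 43 (a := p3.1) rfl rfl,
    gW_lS φ (vPF φ p1.1 p2.1 p2.2 p3.1 p4.1 p4.2 p5.1 p6.1 p6.2 p7.1 p8.1 p8.2 X) (i := 8) 29 41 44 47 (a := p4.1) (b := p4.2) rfl rfl rfl rfl,
    gW_lP φ (vPF φ p1.1 p2.1 p2.2 p3.1 p4.1 p4.2 p5.1 p6.1 p6.2 p7.1 p8.1 p8.2 X) (i := 12) 39 45 (a := p5.1) rfl rfl,
    gW_lS φ (vPF φ p1.1 p2.1 p2.2 p3.1 p4.1 p4.2 p5.1 p6.1 p6.2 p7.1 p8.1 p8.2 X) (i := 14) 35 31 40 46 (a := p6.1) (b := p6.2) rfl rfl rfl rfl,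
    gW_lP φ (vPF φ p1.1 p2.1 p2.2 p3.1 p4.1 p4.2 p5.1 p6.1 p6.2 p7.1 p8.1 p8.2 X) (i := 18) 37 32 (a := p7.1) rfl rfl,
    gW_lS φ (vPF φ p1.1 p2.1 p2.2 p3.1 p4.1 p4.2 p5.1 p6.1 p6.2 p7.1 p8.1 p8.2 X) (i := 20) 27 25 28 30 (a := p8.1) (b := p8.2) rfl rfl rfl rfl]
  simp only [mul_assoc]

/-- The product of the letters as a word. -/
theorem prodS (p1 p2 p3 p4 p5 p6 p7 p8 : K × K) (X : List K) :
    prodF4 φ [1, 0, 1, 0, 1, 0, 1, 0] [] [p1, p2, p3, p4, p5, p6, p7, p8] = good3F4.toGood2.gW (wval (vSF φ p1.1 p1.2 p2.1 p3.1 p3.2 p4.1 p5.1 p5.2 p6.1 p7.1 p7.2 p8.1 X) wSc) := by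
  have l1 : lettF4 φ 1 [] p1.1 p1.2 = good3F4.toGood2.gW [(27, φ p1.1), (25, p1.1), (28, φ p1.1 * p1.1 + p1.2), (30, φ (p1.2 ^ 2))] :=
    lett1 φ (by decide) (by decide +kernel) (by decide +kernel) (by decide +kernel) (by decide +kernel) _ _
  have l2 : lettF4 φ 0 [1, 2, 1, 2] p2.1 p2.2 = good3F4.toGood2.gW [(37, φ p2.1), (32, p2.1)] :=
    lett0 φ (by decide) (by decide +kernel) (by decide +kernel) _ _
  have l3 : lettF4 φ 1 [1, 2, 1, 2, 0, 3] p3.1 p3.2 = good3F4.toGood2.gW [(35, φ p3.1), (31, p3.1), (40, φ p3.1 * p3.1 + p3.2), (46, φ (p3.2 ^ 2))] :=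
    lett1 φ (by decide) (by decide +kernel) (by decide +kernel) (by decide +kernel) (by decide +kernel) _ _
  have l4 : lettF4 φ 0 [1, 2, 1, 2, 0, 3, 1, 2, 1, 2] p4.1 p4.2 = good3F4.toGood2.gW [(39, φ p4.1), (45, p4.1)] :=
    lett0 φ (by decide) (by decide +kernel) (by decide +kernel) _ _
  have l5 : lettF4 φ 1 [1, 2, 1, 2, 0, 3, 1, 2, 1, 2, 0, 3] p5.1 p5.2 = good3F4.toGood2.gW [(29, φ p5.1), (41, p5.1), (44, φ p5.1 * p5.1 + p5.2), (47, φ (p5.2 ^ 2))] :=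
    lett1 φ (by decide) (by decide +kernel) (by decide +kernel) (by decide +kernel) (by decide +kernel) _ _
  have l6 : lettF4 φ 0 [1, 2, 1, 2, 0, 3, 1, 2, 1, 2, 0, 3, 1, 2, 1, 2] p6.1 p6.2 = good3F4.toGood2.gW [(38, φ p6.1), (43, p6.1)] :=
    lett0 φ (by decide) (by decide +kernel) (by decide +kernel) _ _
  have l7 : lettF4 φ 1 [1, 2, 1, 2, 0, 3, 1, 2, 1, 2, 0, 3, 1, 2, 1, 2, 0, 3] p7.1 p7.2 = good3F4.toGood2.gW [(34, φ p7.1), (26, p7.1), (36, φ p7.1 * p7.1 + p7.2), (42, φ (p7.2 ^ 2))] :=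
    lett1 φ (by decide) (by decide +kernel) (by decide +kernel) (by decide +kernel) (by decide +kernel) _ _
  have l8 : lettF4 φ 0 [1, 2, 1, 2, 0, 3, 1, 2, 1, 2, 0, 3, 1, 2, 1, 2, 0, 3, 1, 2, 1, 2] p8.1 p8.2 = good3F4.toGood2.gW [(33, φ p8.1), (24, p8.1)] :=
    lett0 φ (by decide) (by decide +kernel) (by decide +kernel) _ _
  have e1 : prodF4 φ [1, 0, 1, 0, 1, 0, 1, 0] [] [p1, p2, p3, p4, p5, p6, p7, p8] = lettF4 φ 1 [] p1.1 p1.2 * (lettF4 φ 0 [1, 2, 1, 2] p2.1 p2.2 * (lettF4 φ 1 [1, 2, 1, 2, 0, 3] p3.1 p3.2 * (lettF4 φ 0 [1, 2, 1, 2, 0, 3, 1, 2, 1, 2] p4.1 p4.2 * (lettF4 φ 1 [1, 2, 1, 2, 0, 3, 1, 2, 1, 2, 0, 3] p5.1 p5.2 * (lettF4 φ 0 [1, 2, 1, 2, 0, 3, 1, 2, 1, 2, 0, 3, 1, 2, 1, 2] p6.1 p6.2 * (lettF4 φ 1 [1, 2, 1, 2, 0, 3, 1, 2, 1, 2, 0, 3, 1, 2, 1, 2, 0, 3] p7.1 p7.2 * (lettF4 φ 0 [1, 2, 1, 2, 0, 3, 1, 2,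 1, 2, 0, 3, 1, 2, 1, 2, 0, 3, 1, 2, 1, 2] p8.1 p8.2 * 1))))))) := rfl
  rw [e1, l1, l2, l3, l4, l5, l6, l7, l8, mul_one]
  simp only [wSc, gW_wval_append]
  rw [gW_lS φ (vSF φ p1.1 p1.2 p2.1 p3.1 p3.2 p4.1 p5.1 p5.2 p6.1 p7.1 p7.2 p8.1 X) (i := 0) 27 25 28 30 (a := p1.1) (b := p1.2) rfl rfl rfl rfl,
    gW_lP φ (vSF φ p1.1 p1.2 p2.1 p3.1 p3.2 p4.1 p5.1 p5.2 p6.1 p7.1 p7.2 p8.1 X) (i := 4) 37 32 (a := p2.1) rfl rfl,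
    gW_lS φ (vSF φ p1.1 p1.2 p2.1 p3.1 p3.2 p4.1 p5.1 p5.2 p6.1 p7.1 p7.2 p8.1 X) (i := 6) 35 31 40 46 (a := p3.1) (b := p3.2) rfl rfl rfl rfl,
    gW_lP φ (vSF φ p1.1 p1.2 p2.1 p3.1 p3.2 p4.1 p5.1 p5.2 p6.1 p7.1 p7.2 p8.1 X) (i := 10) 39 45 (a := p4.1) rfl rfl,
    gW_lS φ (vSF φ p1.1 p1.2 p2.1 p3.1 p3.2 p4.1 p5.1 p5.2 p6.1 p7.1 p7.2 p8.1 X) (i := 12) 29 41 44 47 (a := p5.1) (b := p5.2) rfl rfl rfl rfl,
    gW_lP φ (vSF φ p1.1 p1.2 p2.1 p3.1 p3.2 p4.1 p5.1 p5.2 p6.1 p7.1 p7.2 p8.1 X) (i := 16) 38 43 (a := p6.1) rfl rfl,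
    gW_lS φ (vSF φ p1.1 p1.2 p2.1 p3.1 p3.2 p4.1 p5.1 p5.2 p6.1 p7.1 p7.2 p8.1 X) (i := 18) 34 26 36 42 (a := p7.1) (b := p7.2) rfl rfl rfl rfl,
    gW_lP φ (vSF φ p1.1 p1.2 p2.1 p3.1 p3.2 p4.1 p5.1 p5.2 p6.1 p7.1 p7.2 p8.1 X) (i := 22) 33 24 (a := p8.1) rfl rfl]
  simp only [mul_assoc]

end

end Cfsg.Agent.Lib.Chev
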