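/-
The group ²F₄(q): involutions with a leading letter in the short orbit.
-/
import Cfsg.Agent.Lib.Coll.ReeC

set_option autoImplicit false
set_option maxRecDepth 100000

namespace Cfsg.Agent.Lib.Chev

open Cfsg.Lie Coll

section

variable {K : Type*} [Field K] [CharP K 2] (hperf : ∀ x : K, ∃ y : K, y ^ 2 = x) (φ : K ≃+* K)

lemma two_eq_zero_K : (2 : K) = 0 := by exact_mod_cast CharP.cast_eq_zero K 2

/-- The inverse of the automorphism. -/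
lemma symm_eq (hφ : ∀ x, φ (φ (x ^ 2)) = x) (x : K) : φ.symm x = (φ x) ^ 2 := by
  apply φ.injective
  rw [RingEquiv.apply_symm_apply]
  have := hφ x
  rw [map_pow] at this
  exact this.symm

lemma sq_phi_phi (hφ : ∀ x, φ (φ (x ^ 2)) = x) (x : K) : (φ (φ x)) ^ 2 = x := by
  rw [← map_pow, ← map_pow]
  exact hφ x

lemma gW_vPF_X (a1 a2 b2 a3 a4 b4 a5 a6 b6 a7 a8 b8 : K) (X X' : List K) :
    good3F4.toGood2.gW (wval (vPF φ a1 a2 b2 a3 a4 b4 a5 a6 b6 a7 a8 b8 X) wPc) =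
      good3F4.toGood2.gW (wval (vPF φ a1 a2 b2 a3 a4 b4 a5 a6 b6 a7 a8 b8 X') wPc) :=
  (prodP φ (a1, 0) (a2, b2) (a3, 0) (a4, b4) (a5, 0) (a6, b6) (a7, 0) (a8, b8) X).symm.trans
    (prodP φ (a1, 0) (a2, b2) (a3, 0) (a4, b4) (a5, 0) (a6, b6) (a7, 0) (a8, b8) X')

lemma gW_vSF_X (a1 b1 a2 a3 b3 a4 a5 b5 a6 a7 b7 a8 : K) (X X' : List K) :
    good3F4.toGood2.gW (wval (vSF φ a1 b1 a2 a3 b3 a4 a5 b5 a6 a7 b7 a8 X) wSc) =
      good3F4.toGood2.gW (wval (vSF φ a1 b1 a2 a3 b3 a4 a5 b5 a6 a7 b7 a8 X') wSc) :=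
  (prodS φ (a1, b1) (a2, 0) (a3, b3) (a4, 0) (a5, b5) (a6, 0) (a7, b7) (a8, 0) X).symm.trans
    (prodS φ (a1, b1) (a2, 0) (a3, b3) (a4, 0) (a5, b5) (a6, 0) (a7, b7) (a8, 0) X')

/-- The chain form of the fixed elements of `U`. -/
theorem chainP_full (hφ : ∀ x, φ (φ (x ^ 2)) = x) {g : GL chevF4.Idx K} (hg : g ∈ chevF4.posUnipotent K ⊓ (twF4 hperf φ).fix) :
    ∃ a1 a2 b2 a3 a4 b4 a5 a6 b6 a7 a8 b8 : K, g = good3F4.toGood2.gW (wval (vPF φ a1 a2 b2 a3 a4 b4 a5 a6 b6 a7 a8 b8 []) wPc) := by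
  have hg1 : g ∈ (twF4 hperf φ).UF (good3F4.toGood2.nProd []) := by
    have e : good3F4.toGood2.nProd (F := K) [] = 1 := rfl
    rw [e, Tw.UF_one]
    exact hg
  obtain ⟨ps, hl, e⟩ := chain_form hperf φ hφ [0, 1, 0, 1, 0, 1, 0, 1] [] (by simp) (Subgroup.one_mem _) chainF4' hg1
  match ps, hl, e with
  | [p1, p2, p3, p4, p5, p6, p7, p8], _, e =>
    exact ⟨_, _, _, _, _, _, _, _, _, _, _, _, e.trans (prodP φ p1 p2 p3 p4 p5 p6 p7 p8 [])⟩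

/-- The reversed chain. -/
theorem chainF4S : chainOK digF4.tbl chevF4 orbF4 [] [1, 0, 1, 0, 1, 0, 1, 0] :=
  chainB_spec good3F4.toGood2 orbF4 (by decide +kernel)

/-- The chain form of the fixed elements of `U`, starting with the long orbit. -/
theorem chainS_full (hφ : ∀ x, φ (φ (x ^ 2)) = x) {g : GL chevF4.Idx K} (hg : g ∈ chevF4.posUnipotent K ⊓ (twF4 hperf φ).fix) :
    ∃ a1 b1 a2 a3 b3 a4 a5 b5 a6 a7 b7 a8 : K, g = good3F4.toGood2.gW (wval (vSF φ a1 b1 a2 a3 b3 a4 a5 b5 a6 a7 b7 a8 []) wSc) := by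
  have hg1 : g ∈ (twF4 hperf φ).UF (good3F4.toGood2.nProd []) := by
    have e : good3F4.toGood2.nProd (F := K) [] = 1 := rfl
    rw [e, Tw.UF_one]
    exact hg
  obtain ⟨ps, hl, e⟩ := chain_form hperf φ hφ [1, 0, 1, 0, 1, 0, 1, 0] [] (by simp) (Subgroup.one_mem _) chainF4S hg1
  match ps, hl, e with
  | [p1, p2, p3, p4, p5, p6, p7, p8], _, e =>
    exact ⟨_, _, _, _, _, _, _, _, _, _, _, _, e.trans (prodS φ p1 p2 p3 p4 p5 p6 p7 p8 [])⟩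

/-- The element after the short letter. -/
theorem chainP_tail (hφ : ∀ x, φ (φ (x ^ 2)) = x) {a : K} {g : GL chevF4.Idx K} (hg : g ∈ (twF4 hperf φ).UF (good3F4.toGood2.nProd [0, 3])) :
    ∃ a2 b2 a3 a4 b4 a5 a6 b6 a7 a8 b8 : K, parU φ a * g = good3F4.toGood2.gW (wval (vPF φ a a2 b2 a3 a4 b4 a5 a6 b6 a7 a8 b8 []) wPc) := by
  obtain ⟨ps, hl, e⟩ := chain_form hperf φ hφ [1, 0, 1, 0, 1, 0, 1] [0, 3] (by decide) (n0F4_fix hperf φ hφ) chainF4'.2.2 hg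
  match ps, hl, e with
  | [p2, p3, p4, p5, p6, p7, p8], _, e =>
    refine ⟨p2.1, p2.2, p3.1, p4.1, p4.2, p5.1, p6.1, p6.2, p7.1, p8.1, p8.2, ?_⟩
    have h := prodP φ (a, 0) p2 p3 p4 p5 p6 p7 p8 []
    refine Eq.trans ?_ h
    rw [e]
    have e1 : lettF4 φ 0 [] a (0 : K) = parU φ a := by
      unfold lettF4
      rw [if_pos rfl]
      have e2 : good3F4.toGood2.nProd (F := K) [] = 1 := rfl
      rw [e2]
      group
    rw [← e1]
    rfl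

/-- The element after the long letter. -/
theorem chainS_tail (hφ : ∀ x, φ (φ (x ^ 2)) = x) {a b : K} {g : GL chevF4.Idx K} (hg : g ∈ (twF4 hperf φ).UF (good3F4.toGood2.nProd [1, 2, 1, 2])) :
    ∃ a2 a3 b3 a4 a5 b5 a6 a7 b7 a8 : K, suzU φ a b * g = good3F4.toGood2.gW (wval (vSF φ a b a2 a3 b3 a4 a5 b5 a6 a7 b7 a8 []) wSc) := by
  obtain ⟨ps, hl, e⟩ := chain_form hperf φ hφ [0, 1, 0, 1, 0, 1, 0] [1, 2, 1, 2] (by decide) (n1F4_fix hperf φ hφ) chainF4S.2.2 hg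
  match ps, hl, e with
  | [p2, p3, p4, p5, p6, p7, p8], _, e =>
    refine ⟨p2.1, p3.1, p3.2, p4.1, p5.1, p5.2, p6.1, p7.1, p7.2, p8.1, ?_⟩
    have h := prodS φ (a, b) p2 p3 p4 p5 p6 p7 p8 []
    refine Eq.trans ?_ h
    rw [e]
    have e1 : lettF4 φ 1 [] a b = suzU φ a b := by
      unfold lettF4
      rw [if_neg (by decide)]
      have e2 : good3F4.toGood2.nProd (F := K) [] = 1 := rfl
      rw [e2]
      group
    rw [← e1]
    rfl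

theorem suzU_mem_U (hφ : ∀ x, φ (φ (x ^ 2)) = x) (t u : K) : suzU φ t u ∈ chevF4.posUnipotent K ⊓ (twF4 hperf φ).fix :=
  ⟨TwN.X_le_U _ ((mem_X1_fix_iff hperf φ hφ).2 ⟨t, u, rfl⟩).1, suzU_fix hperf φ hφ t u⟩

theorem parU_mem_U (hφ : ∀ x, φ (φ (x ^ 2)) = x) (t : K) : parU φ t ∈ chevF4.posUnipotent K ⊓ (twF4 hperf φ).fix :=
  ⟨TwN.X_le_U _ ((mem_X0_fix_iff hperf φ hφ).2 ⟨t, rfl⟩).1, parU_fix hperf φ hφ t⟩

/-- The last letter vanishes. -/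
theorem P_a {u : GL chevF4.Idx K} {a1 a2 b2 a3 a4 b4 a5 a6 b6 a7 a8 b8 : K} (hu : u = good3F4.toGood2.gW (wval (vPF φ a1 a2 b2 a3 a4 b4 a5 a6 b6 a7 a8 b8 []) wPc))
    (huu : u * u = 1) (h1 : a1 ≠ 0) : a8 = 0 ∧ b8 = 0 := by
  have e : good3F4.toGood2.gW (wval (vPF φ a1 a2 b2 a3 a4 b4 a5 a6 b6 a7 a8 b8 []) (wPc ++ wPc)) = 1 := by
    rw [gW_wval_append, ← hu, huu]
  have h26 : a1 * (a8 * 1) + 0 = 0 := good3F4.toGood2.coords_one _ nfPsq e 2 (by decide)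
  have h8 : a8 = 0 := by simpa [h1] using h26
  refine ⟨h8, ?_⟩
  have h29 : a1 * (b8 * 1) + (a2 * ((φ a8) * 1) + 0) = 0 := good3F4.toGood2.coords_one _ nfPsq e 5 (by decide)
  simpa [h1, h8] using h29

/-- Killing the letters of the second and sixth orbits. -/
theorem P_b (hφ : ∀ x, φ (φ (x ^ 2)) = x) {u : GL chevF4.Idx K} {a1 a2 b2 a3 a4 b4 a5 a6 b6 a7 : K} (hu : u = good3F4.toGood2.gW (wval (vPF φ a1 a2 b2 a3 a4 b4 a5 a6 b6 a7 0 0 []) wPc))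
    (h1 : a1 ≠ 0) (hU : u ∈ chevF4.posUnipotent K ⊓ (twF4 hperf φ).fix) :
    ∃ g ∈ (twF4 hperf φ).fix, ∃ b2' a3' a4' b4' a5' b6' a7' : K, g * u * g⁻¹ = good3F4.toGood2.gW (wval (vPF φ a1 0 b2' a3' a4' b4' a5' 0 b6' a7' 0 0 []) wPc) := by
  obtain ⟨c, hc⟩ : ∃ c : K, a1 * c = a2 := ⟨a2 / a1, mul_div_cancel₀ _ h1⟩
  obtain ⟨d, hd⟩ : ∃ d : K, a1 * φ (d ^ 2) = a6 := by
    refine ⟨φ (a6 / a1), ?_⟩
    rw [← map_pow, hφ, mul_div_cancel₀ _ h1]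
  have hg := suzU_mem_U hperf φ hφ c d
  have hU1 : suzU φ c d * u * (suzU φ c d)⁻¹ ∈ chevF4.posUnipotent K ⊓ (twF4 hperf φ).fix :=
    Subgroup.mul_mem _ (Subgroup.mul_mem _ hg hU) (Subgroup.inv_mem _ hg)
  obtain ⟨q1, q2, r2, q3, q4, r4, q5, q6, r6, q7, q8, r8, e⟩ := chainP_full hperf φ hφ hU1
  refine ⟨suzU φ c d, hg.2, r2, q3, q4, r4, q5, r6, q7, ?_⟩
  have hgw : ∀ (v : ℕ → K), v 24 = c → v 25 = φ c → v 26 = d → v 27 = φ (d ^ 2) →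
      good3F4.toGood2.gW (wval v (lS 27 25 28 30 24)) = suzU φ c d := by
    intro v h0 h1 h2 h3
    rw [gW_lS φ v 27 25 28 30 h0 h1 h2 h3, suzU_gW]
  have hmain : good3F4.toGood2.gW (wval (vPF φ a1 a2 b2 a3 a4 b4 a5 a6 b6 a7 0 0 [c, φ c, d, φ (d ^ 2)]) (lS 27 25 28 30 24 ++ wsub [20, 21, 22, 23] wPc)) =
      good3F4.toGood2.gW (wval (vPF φ q1 q2 r2 q3 q4 r4 q5 q6 r6 q7 q8 r8 [c, φ c, d, φ (d ^ 2)]) (wPc ++ lS 27 25 28 30 24)) := by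
    rw [gW_wval_append, gW_wval_append, gW_wval_wsub _ (by simp [vPF, vL]), hgw _ rfl rfl rfl rfl, hgw _ rfl rfl rfl rfl,
      gW_vPF_X φ _ _ _ _ _ _ _ _ _ _ _ _ [c, φ c, d, φ (d ^ 2)] [], ← hu,
      gW_vPF_X φ _ _ _ _ _ _ _ _ _ _ _ _ [c, φ c, d, φ (d ^ 2)] [], ← e]
    group
  have c0 : a1 * 1 + 0 = q1 * 1 + 0 := good3F4.toGood2.coords _ _ nfPA1 nfPA2 hmain 0 (by decide)
  have c1 : c * 1 + 0 = q8 * 1 + (c * 1 + 0) := good3F4.toGood2.coords _ _ nfPA1 nfPA2 hmain 1 (by decide)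
  have c2 : a1 * (c * 1) + (a2 * 1 + 0) = q2 * 1 + 0 := good3F4.toGood2.coords _ _ nfPA1 nfPA2 hmain 2 (by decide)
  have c4 : d * 1 + 0 = (φ q8) * (c * 1) + (r8 * 1 + (d * 1 + 0)) := good3F4.toGood2.coords _ _ nfPA1 nfPA2 hmain 4 (by decide)
  have c7 : a1 * (c * (((φ c)) * (((φ c)) * 1))) + (a1 * (((φ (d ^ 2))) * 1) + (a2 * (((φ c)) * (((φ c)) * 1)) + (a6 * 1 + 0))) = q6 * 1 + 0 := good3F4.toGood2.coords _ _ nfPA1 nfPA2 hmain 7 (by decide)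
  have h2 := two_eq_zero_K (K := K)
  have hq1 : q1 = a1 := by simpa using c0.symm
  have hq8 : q8 = 0 := by simpa using c1.symm
  have hr8 : r8 = 0 := by
    simp only [hq8, map_zero, mul_one, add_zero, zero_mul, zero_add] at c4
    simpa using c4.symm
  have hq2 : q2 = 0 := by
    simp only [mul_one, add_zero] at c2
    rw [← c2, hc]
    exact add_self_char_two a2
  have hq6 : q6 = 0 := by
    simp only [mul_one, add_zero] at c7
    rw [← c7]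
    linear_combination (φ c ^ 2) * hc + hd + (a2 * φ c ^ 2 + a6) * h2
  rw [e, hq1, hq8, hr8, hq2, hq6]

/-- Further letters vanish. -/
theorem P_c {u : GL chevF4.Idx K} {a1 b2 a3 a4 b4 a5 b6 a7 : K} (hu : u = good3F4.toGood2.gW (wval (vPF φ a1 0 b2 a3 a4 b4 a5 0 b6 a7 0 0 []) wPc))
    (huu : u * u = 1) (h1 : a1 ≠ 0) : a4 = 0 ∧ a7 = 0 ∧ b6 = 0 := by
  have hZ : ∀ k ∈ [20, 21, 22, 23, 2, 3, 14, 15], vPF φ a1 0 b2 a3 a4 b4 a5 0 b6 a7 0 0 [] k = 0 := by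
    simp [vPF, vL]
  have e : good3F4.toGood2.gW (wval (vPF φ a1 0 b2 a3 a4 b4 a5 0 b6 a7 0 0 []) (wsub [20, 21, 22, 23, 2, 3, 14, 15] (wPc ++ wPc))) = 1 := by
    rw [gW_wval_wsub _ hZ, gW_wval_append, ← hu, huu]
  have h36 : (φ a1) * ((φ a4) * 1) + 0 = 0 := good3F4.toGood2.coords_one _ nfPsq2 e 12 (by decide)
  have h38 : a1 * ((φ a7) * 1) + 0 = 0 := good3F4.toGood2.coords_one _ nfPsq2 e 14 (by decide)
  have h44 : (φ a1) * (b6 * 1) + (b2 * ((φ a7) * 1) + (a4 * ((φ a4) * 1) + 0)) = 0 := good3F4.toGood2.coords_one _ nfPsq2 e 20 (by decide)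
  have hA : φ a1 ≠ 0 := by simpa using h1
  have h4 : a4 = 0 := by simpa [h1] using h36
  have h7 : a7 = 0 := by simpa [h1] using h38
  refine ⟨h4, h7, ?_⟩
  simpa [h1, h4, h7] using h44

lemma lett_fix (hφ : ∀ x, φ (φ (x ^ 2)) = x) {pre : List ℕ} (hm : (good3F4.toGood2.nProd pre : GL chevF4.Idx K) ∈ (twF4 hperf φ).fix) (j : ℕ) (a b : K) :
    lettF4 φ j pre a b ∈ (twF4 hperf φ).fix := by
  unfold lettF4
  refine Subgroup.mul_mem _ (Subgroup.mul_mem _ hm ?_) (Subgroup.inv_mem _ hm)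
  split_ifs
  · exact parU_fix hperf φ hφ a
  · exact suzU_fix hperf φ hφ a b

lemma nProd_n0n1_fix (hφ : ∀ x, φ (φ (x ^ 2)) = x) (l : List (List ℕ)) (hl : ∀ e ∈ l, e = [0, 3] ∨ e = [1, 2, 1, 2]) :
    (good3F4.toGood2.nProd l.flatten : GL chevF4.Idx K) ∈ (twF4 hperf φ).fix := by
  induction l with
  | nil => exact Subgroup.one_mem _
  | cons e l ih =>
    rw [List.flatten_cons, good3F4.toGood2.nProd_append]
    refine Subgroup.mul_mem _ ?_ (ih fun x hx => hl x (List.mem_cons_of_mem _ hx))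
    rcases hl e (by simp) with rfl | rfl
    · exact n0F4_fix hperf φ hφ
    · exact n1F4_fix hperf φ hφ

/-- Killing the remaining letters. -/
theorem P_d (hφ : ∀ x, φ (φ (x ^ 2)) = x) {u : GL chevF4.Idx K} {a1 b2 a3 b4 a5 : K} (hu : u = good3F4.toGood2.gW (wval (vPF φ a1 0 b2 a3 0 b4 a5 0 0 0 0 0 []) wPc))
    (h1 : a1 ≠ 0) : ∃ g ∈ (twF4 hperf φ).fix, g * u * g⁻¹ = parU φ a1 := by
  have hs := symm_eq φ hφ
  have hss := sq_phi_phi φ hφ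
  have h2 := two_eq_zero_K (K := K)
  have hA : φ a1 ≠ 0 := by simpa using h1
  have hinj : ∀ x : K, φ.symm x = 0 → x = 0 := fun x hx => by simpa using hx
  obtain ⟨c, E3⟩ : ∃ c : K, φ a1 * c + φ a5 = 0 := ⟨φ a5 / φ a1, by rw [mul_div_cancel₀ _ hA]; exact add_self_char_two _⟩
  obtain ⟨e, E2⟩ : ∃ e : K, a1 * φ c + φ a1 * e + φ a3 = 0 := ⟨(a1 * φ c + φ a3) / φ a1, by
    rw [mul_div_cancel₀ _ hA]
    linear_combination (a1 * φ c + φ a3) * h2⟩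
  obtain ⟨h, E4⟩ : ∃ h : K, a1 * h + φ a1 ^ 2 * e + φ b2 ^ 2 = 0 := ⟨(φ a1 ^ 2 * e + φ b2 ^ 2) / a1, by
    rw [mul_div_cancel₀ _ h1]
    linear_combination (φ a1 ^ 2 * e + φ b2 ^ 2) * h2⟩
  obtain ⟨f, E6⟩ : ∃ f : K, φ a1 * φ c * φ h + φ a1 * e * φ e + φ a1 * f + b2 * φ c + b4 = 0 :=
    ⟨(φ a1 * φ c * φ h + φ a1 * e * φ e + b2 * φ c + b4) / φ a1, by
    rw [mul_div_cancel₀ _ hA]
    linear_combination (φ a1 * φ c * φ h + φ a1 * e * φ e + b2 * φ c + b4) * h2⟩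
  have E7 : a1 * φ c ^ 2 + a5 = 0 := by
    have := congrArg φ.symm E3
    simp only [map_add, map_mul, map_zero, RingEquiv.symm_apply_apply] at this
    simp only [hs, hss] at this
    linear_combination this
  have E5 : a1 * φ e ^ 2 + φ a1 ^ 2 * c + a3 = 0 := by
    have := congrArg φ.symm E2
    simp only [map_add, map_mul, map_zero, RingEquiv.symm_apply_apply] at this
    simp only [hs, hss] at this
    linear_combination this
  have E1 : a1 * φ e + φ a1 * φ h + b2 = 0 := by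
    apply hinj
    simp only [map_add, map_mul, map_zero, RingEquiv.symm_apply_apply]
    simp only [hs, hss]
    linear_combination E4
  have E8 : a1 * e * φ e ^ 2 + a1 * φ f ^ 2 + φ a1 ^ 2 * c * e + φ b4 ^ 2 = 0 := by
    have := congrArg φ.symm E6
    simp only [map_add, map_mul, map_zero, RingEquiv.symm_apply_apply] at this
    simp only [hs, hss] at this
    linear_combination this + c * E4 - (a1 * c * h + φ b2 ^ 2 * c) * h2
  set v := vPF φ a1 0 b2 a3 0 b4 a5 0 0 0 0 0 [c, φ c, e, φ e, f, φ (f ^ 2), h, φ h, 0, 0] with hv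
  have hE : ∀ x ∈ EPB, pval v x = 0 := by
    simp only [EPB, List.mem_cons, List.not_mem_nil, or_false, forall_eq_or_imp, forall_eq]
    refine ⟨rfl, ?_, ?_, ?_, ?_, ?_, ?_, ?_, ?_⟩
    · show a1 * (φ e * 1) + (φ a1 * (φ h * 1) + (b2 * 1 + 0)) = 0
      linear_combination E1
    · show a1 * (φ c * 1) + (φ a1 * (e * 1) + (φ a3 * 1 + 0)) = 0
      linear_combination E2
    · show φ a1 * (c * 1) + (φ a5 * 1 + 0) = 0
      linear_combination E3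
    · show a1 * (h * 1) + (φ a1 * (φ a1 * (e * 1)) + (φ (b2 ^ 2) * 1 + 0)) = 0
      rw [map_pow]
      linear_combination E4
    · show a1 * (φ e * (φ e * 1)) + (φ a1 * (φ a1 * (c * 1)) + (a3 * 1 + 0)) = 0
      linear_combination E5
    · show φ a1 * (φ c * (φ h * 1)) + (φ a1 * (e * (φ e * 1)) + (φ a1 * (f * 1) + (b2 * (φ c * 1) + (b4 * 1 + 0)))) = 0
      linear_combination E6
    · show a1 * (φ c * (φ c * 1)) + (a5 * 1 + 0) = 0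
      linear_combination E7
    · show a1 * (e * (φ e * (φ e * 1))) + (a1 * (φ (f ^ 2) * 1) + (φ a1 * (φ a1 * (c * (e * 1))) + (φ (b4 ^ 2) * 1 + 0))) = 0
      rw [map_pow, map_pow]
      linear_combination E8
  have hmain := good3F4.toGood2.gW_eq_of_diff v chkPB hE
  have hfix1 := nProd_n0n1_fix hperf φ hφ [[0, 3], [1, 2, 1, 2], [0, 3], [1, 2, 1, 2], [0, 3], [1, 2, 1, 2]] (by simp)
  have hfix2 := nProd_n0n1_fix hperf φ hφ [[0, 3], [1, 2, 1, 2], [0, 3], [1, 2, 1, 2], [0, 3]] (by simp)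
  have hfix3 := nProd_n0n1_fix hperf φ hφ [[0, 3], [1, 2, 1, 2], [0, 3]] (by simp)
  have l7 : good3F4.toGood2.gW (wval v (lP 37 32 24)) = lettF4 φ 0 [0, 3, 1, 2, 1, 2, 0, 3, 1, 2, 1, 2, 0, 3, 1, 2, 1, 2] c 0 := by
    rw [lett0 φ (r1 := 37) (r2 := 32) (by decide) (by decide +kernel) (by decide +kernel)]
    exact gW_lP φ v 37 32 rfl rfl
  have l6 : good3F4.toGood2.gW (wval v (lS 35 31 40 46 26)) = lettF4 φ 1 [0, 3, 1, 2, 1, 2, 0, 3, 1, 2, 1, 2, 0, 3] e f := by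
    rw [lett1 φ (r1 := 35) (r2 := 31) (r3 := 40) (r4 := 46) (by decide) (by decide +kernel) (by decide +kernel) (by decide +kernel) (by decide +kernel)]
    exact gW_lS φ v 35 31 40 46 rfl rfl rfl rfl
  have l4 : good3F4.toGood2.gW (wval v (wsub [32, 33] (lS 29 41 44 47 30))) = lettF4 φ 1 [0, 3, 1, 2, 1, 2, 0, 3] h 0 := by
    rw [gW_wval_wsub _ (by simp [hv, vPF, vL]), lett1 φ (r1 := 29) (r2 := 41) (r3 := 44) (r4 := 47) (by decide) (by decide +kernel) (by decide +kernel) (by decide +kernel) (by decide +kernel)]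
    exact gW_lS φ v 29 41 44 47 rfl rfl rfl (by simp [hv, vPF, vL])
  have hZ : ∀ k ∈ [2, 3, 8, 9, 14, 15, 16, 17, 18, 19, 20, 21, 22, 23], v k = 0 := by
    simp [hv, vPF, vL]
  have lu : good3F4.toGood2.gW (wval v (wsub [2, 3, 8, 9, 14, 15, 16, 17, 18, 19, 20, 21, 22, 23] wPc)) = u := by
    rw [gW_wval_wsub _ hZ, hu, hv]
    exact gW_vPF_X φ _ _ _ _ _ _ _ _ _ _ _ _ _ _
  have lp : good3F4.toGood2.gW (wval v (lP 33 24 0)) = parU φ a1 := by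
    rw [parU_gW]
    exact gW_lP φ v 33 24 rfl rfl
  refine ⟨lettF4 φ 0 [0, 3, 1, 2, 1, 2, 0, 3, 1, 2, 1, 2, 0, 3, 1, 2, 1, 2] c 0 * (lettF4 φ 1 [0, 3, 1, 2, 1, 2, 0, 3, 1, 2, 1, 2, 0, 3] e f * lettF4 φ 1 [0, 3, 1, 2, 1, 2, 0, 3] h 0),
    Subgroup.mul_mem _ (lett_fix hperf φ hφ hfix1 _ _ _) (Subgroup.mul_mem _ (lett_fix hperf φ hφ hfix2 _ _ _) (lett_fix hperf φ hφ hfix3 _ _ _)), ?_⟩
  simp only [gW_wval_append, l7, l6, l4, lu, lp] at hmain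
  rw [mul_inv_eq_iff_eq_mul]
  simpa only [mul_assoc] using hmain

/-- The involutions with a leading letter in the short orbit. -/
theorem caseP (hφ : ∀ x, φ (φ (x ^ 2)) = x) {a : K} (ha : a ≠ 0) {g' : GL chevF4.Idx K} (hg' : g' ∈ (twF4 hperf φ).UF (good3F4.toGood2.nProd [0, 3]))
    (hu : (parU φ a * g') * (parU φ a * g') = 1) : ∃ g ∈ (twF4 hperf φ).fix, g * (parU φ a * g') * g⁻¹ = parU φ a := by
  have hU : parU φ a * g' ∈ chevF4.posUnipotent K ⊓ (twF4 hperf φ).fix :=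
    Subgroup.mul_mem _ (parU_mem_U hperf φ hφ a) ⟨hg'.1, hg'.2.1⟩
  obtain ⟨a2, b2, a3, a4, b4, a5, a6, b6, a7, a8, b8, e⟩ := chainP_tail hperf φ hφ (a := a) hg'
  obtain ⟨h8, h8'⟩ := P_a φ e hu ha
  subst h8
  subst h8'
  obtain ⟨g1, hg1, b2', a3', a4', b4', a5', b6', a7', e1⟩ := P_b hperf φ hφ e ha hU
  have hsq : (g1 * (parU φ a * g') * g1⁻¹) * (g1 * (parU φ a * g') * g1⁻¹) = 1 := by
    have : (g1 * (parU φ a * g') * g1⁻¹) * (g1 * (parU φ a * g') * g1⁻¹) = g1 * ((parU φ a * g') * (parU φ a * g')) * g1⁻¹ := by group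
    rw [this, hu]
    group
  obtain ⟨h4, h7, h6⟩ := P_c φ e1 hsq ha
  subst h4
  subst h7
  subst h6
  obtain ⟨g2, hg2, e2⟩ := P_d hperf φ hφ e1 ha
  refine ⟨g2 * g1, Subgroup.mul_mem _ hg2 hg1, ?_⟩
  have : g2 * g1 * (parU φ a * g') * (g2 * g1)⁻¹ = g2 * (g1 * (parU φ a * g') * g1⁻¹) * g2⁻¹ := by group
  rw [this, e2]

end

end Cfsg.Agent.Lib.Chev
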