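/-
The group ²F₄(q): involutions with a leading letter in the long orbit.
-/
import Cfsg.Agent.Lib.Coll.ReeD

set_option autoImplicit false
set_option maxRecDepth 100000

namespace Cfsg.Agent.Lib.Chev

open Cfsg.Lie Coll

section

variable {K : Type*} [Field K] [CharP K 2] (hperf : ∀ x : K, ∃ y : K, y ^ 2 = x) (φ : K ≃+* K)

/-- The letters vanish. -/
theorem S_a {u : GL chevF4.Idx K} {a1 b1 a2 a3 b3 a4 a5 b5 a6 a7 b7 a8 : K} (hu : u = good3F4.toGood2.gW (wval (vSF φ a1 b1 a2 a3 b3 a4 a5 b5 a6 a7 b7 a8 []) wSc))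
    (huu : u * u = 1) (h1 : a1 ≠ 0 ∨ b1 ≠ 0) : a1 = 0 ∧ b1 ≠ 0 ∧ a8 = 0 ∧ a7 = 0 := by
  have e : good3F4.toGood2.gW (wval (vSF φ a1 b1 a2 a3 b3 a4 a5 b5 a6 a7 b7 a8 []) (wSc ++ wSc)) = 1 := by
    rw [gW_wval_append, ← hu, huu]
  have h28 : a1 * ((φ a1) * 1) + 0 = 0 := good3F4.toGood2.coords_one _ nfSsq e 4 (by decide)
  have ha1 : a1 = 0 := by simpa using h28
  have hb1 : b1 ≠ 0 := by
    rcases h1 with h | h
    · exact absurd ha1 h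
    · exact h
  refine ⟨ha1, hb1, ?_⟩
  have h29 : a1 * ((φ a1) * (a8 * 1)) + ((φ a1) * (a7 * 1) + (b1 * (a8 * 1) + 0)) = 0 := good3F4.toGood2.coords_one _ nfSsq e 5 (by decide)
  have ha8 : a8 = 0 := by simpa [ha1, hb1] using h29
  refine ⟨ha8, ?_⟩
  have h32 : a1 * ((φ a1) * ((φ a1) * (a7 * 1))) + (a1 * ((φ (b1 ^ 2)) * (a8 * 1)) + (a1 * (a3 * 1) + (b1 * (b1 * (a8 * 1)) + ((φ (b1 ^ 2)) * (a7 * 1) + 0)))) = 0 := good3F4.toGood2.coords_one _ nfSsq e 8 (by decide)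
  simpa [ha1, ha8, hb1] using h32

/-- Killing the letter of the third orbit. -/
theorem S_b (hφ : ∀ x, φ (φ (x ^ 2)) = x) {u : GL chevF4.Idx K} {b1 a2 a3 b3 a4 a5 b5 a6 b7 : K} (hu : u = good3F4.toGood2.gW (wval (vSF φ 0 b1 a2 a3 b3 a4 a5 b5 a6 0 b7 0 []) wSc))
    (h1 : b1 ≠ 0) (hU : u ∈ chevF4.posUnipotent K ⊓ (twF4 hperf φ).fix) :
    ∃ g ∈ (twF4 hperf φ).fix, ∃ a2' b3' a4' a5' b5' a6' b7' : K, g * u * g⁻¹ = good3F4.toGood2.gW (wval (vSF φ 0 b1 a2' 0 b3' a4' a5' b5' a6' 0 b7' 0 []) wSc) := by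
  have hD : φ (b1 ^ 2) ≠ 0 := by simpa using h1
  obtain ⟨e, he⟩ : ∃ e : K, φ (b1 ^ 2) * e = a3 := ⟨a3 / φ (b1 ^ 2), mul_div_cancel₀ _ hD⟩
  have hg := parU_mem_U hperf φ hφ e
  have hU1 : parU φ e * u * (parU φ e)⁻¹ ∈ chevF4.posUnipotent K ⊓ (twF4 hperf φ).fix :=
    Subgroup.mul_mem _ (Subgroup.mul_mem _ hg hU) (Subgroup.inv_mem _ hg)
  obtain ⟨q1, r1, q2, q3, r3, q4, q5, r5, q6, q7, r7, q8, e1⟩ := chainS_full hperf φ hφ hU1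
  refine ⟨parU φ e, hg.2, q2, r3, q4, q5, r5, q6, r7, ?_⟩
  have hgw : ∀ (v : ℕ → K), v 24 = e → v 25 = φ e →
      good3F4.toGood2.gW (wval v (lP 33 24 24)) = parU φ e := by
    intro v h0 h1
    rw [gW_lP φ v 33 24 h0 h1, parU_gW]
  have hmain : good3F4.toGood2.gW (wval (vSF φ 0 b1 a2 a3 b3 a4 a5 b5 a6 0 b7 0 [e, φ e]) (lP 33 24 24 ++ wsub [0, 1, 18, 19, 22, 23] wSc)) =
      good3F4.toGood2.gW (wval (vSF φ q1 r1 q2 q3 r3 q4 q5 r5 q6 q7 r7 q8 [e, φ e]) (wSc ++ lP 33 24 24)) := by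
    rw [gW_wval_append, gW_wval_append, gW_wval_wsub _ (by simp [vSF, vL]), hgw _ rfl rfl, hgw _ rfl rfl,
      gW_vSF_X φ _ _ _ _ _ _ _ _ _ _ _ _ [e, φ e] [], ← hu,
      gW_vSF_X φ _ _ _ _ _ _ _ _ _ _ _ _ [e, φ e] [], ← e1]
    group
  have c0 : e * 1 + 0 = q8 * 1 + (e * 1 + 0) := good3F4.toGood2.coords _ _ nfSA1 nfSA2 hmain 0 (by decide)
  have c1 : 0 = q1 * 1 + 0 := good3F4.toGood2.coords _ _ nfSA1 nfSA2 hmain 1 (by decide)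
  have c2 : 0 = q1 * (q8 * 1) + (q1 * (e * 1) + (q7 * 1 + 0)) := good3F4.toGood2.coords _ _ nfSA1 nfSA2 hmain 2 (by decide)
  have c4 : b1 * 1 + 0 = r1 * 1 + 0 := good3F4.toGood2.coords _ _ nfSA1 nfSA2 hmain 4 (by decide)
  have c7 : a3 * 1 + 0 = q1 * ((φ q1) * ((φ q1) * (q8 * 1))) + (q1 * ((φ q1) * ((φ q1) * (e * 1))) + ((φ q1) * ((φ q1) * (q7 * 1)) + ((φ (r1 ^ 2)) * (q8 * 1) + ((φ (r1 ^ 2)) * (e * 1) + (q3 * 1 + 0))))) := good3F4.toGood2.coords _ _ nfSA1 nfSA2 hmain 7 (by decide)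
  have h2 := two_eq_zero_K (K := K)
  have hq8 : q8 = 0 := by simpa using c0.symm
  have hq1 : q1 = 0 := by simpa using c1.symm
  have hq7 : q7 = 0 := by simpa [hq1, hq8] using c2.symm
  have hr1 : r1 = b1 := by simpa using c4.symm
  have hq3 : q3 = 0 := by
    simp only [hq1, hq7, hq8, hr1, map_zero, zero_mul, mul_zero, mul_one, add_zero, zero_add] at c7
    linear_combination (-1 : K) * c7 - he
  rw [e1, hq1, hq7, hq8, hr1, hq3]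

/-- Further letters vanish. -/
theorem S_c {u : GL chevF4.Idx K} {b1 a2 b3 a4 a5 b5 a6 b7 : K} (hu : u = good3F4.toGood2.gW (wval (vSF φ 0 b1 a2 0 b3 a4 a5 b5 a6 0 b7 0 []) wSc))
    (huu : u * u = 1) (h1 : b1 ≠ 0) : b7 = 0 ∧ a5 = 0 ∧ a6 = 0 := by
  have hZ : ∀ k ∈ [0, 1, 6, 7, 18, 19, 22, 23], vSF φ 0 b1 a2 0 b3 a4 a5 b5 a6 0 b7 0 [] k = 0 := by
    simp [vSF, vL]
  have e : good3F4.toGood2.gW (wval (vSF φ 0 b1 a2 0 b3 a4 a5 b5 a6 0 b7 0 []) (wsub [0, 1, 6, 7, 18, 19, 22, 23] (wSc ++ wSc))) = 1 := by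
    rw [gW_wval_wsub _ hZ, gW_wval_append, ← hu, huu]
  have h39 : b1 * (b7 * 1) + 0 = 0 := good3F4.toGood2.coords_one _ nfSsq2 e 15 (by decide)
  have h44 : b1 * ((φ (b7 ^ 2)) * 1) + ((φ a2) * (b7 * 1) + (a5 * ((φ a5) * 1) + 0)) = 0 := good3F4.toGood2.coords_one _ nfSsq2 e 20 (by decide)
  have h40 : b1 * ((φ a6) * 1) + ((φ (b1 ^ 2)) * (b7 * 1) + ((φ a2) * ((φ a5) * 1) + 0)) = 0 := good3F4.toGood2.coords_one _ nfSsq2 e 16 (by decide)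
  have h7 : b7 = 0 := by simpa [h1] using h39
  have h5 : a5 = 0 := by simpa [h7] using h44
  refine ⟨h7, h5, ?_⟩
  simpa [h1, h7, h5] using h40

/-- Killing the remaining letters. -/
theorem S_d (hφ : ∀ x, φ (φ (x ^ 2)) = x) {u : GL chevF4.Idx K} {b1 a2 b3 a4 b5 : K} (hu : u = good3F4.toGood2.gW (wval (vSF φ 0 b1 a2 0 b3 a4 0 b5 0 0 0 0 []) wSc))
    (h1 : b1 ≠ 0) : ∃ g ∈ (twF4 hperf φ).fix, ∃ b' : K, g * u * g⁻¹ = suzU φ 0 b1 * lettF4 φ 1 [1, 2, 1, 2, 0, 3, 1, 2, 1, 2, 0, 3] 0 b' := by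
  have hs := symm_eq φ hφ
  have hss := sq_phi_phi φ hφ
  have h2 := two_eq_zero_K (K := K)
  have hD : φ b1 ^ 2 ≠ 0 := by simpa using h1
  have hinj : ∀ x : K, φ.symm x = 0 → x = 0 := fun x hx => by simpa using hx
  have hD1 : φ (φ b1 ^ 2) = b1 := by
    have := hφ b1
    rwa [map_pow] at this
  obtain ⟨c, E1⟩ : ∃ c : K, φ b1 ^ 2 * c + a2 = 0 := ⟨a2 / φ b1 ^ 2, by rw [mul_div_cancel₀ _ hD]; exact add_self_char_two _⟩
  have E2 : b1 * φ c + φ a2 = 0 := by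
    have := congrArg φ E1
    simp only [map_add, map_mul, map_zero] at this
    rw [hD1] at this
    exact this
  obtain ⟨f, E3⟩ : ∃ f : K, b1 * f + φ a4 = 0 := ⟨φ a4 / b1, by rw [mul_div_cancel₀ _ h1]; exact add_self_char_two _⟩
  obtain ⟨h, E4⟩ : ∃ h : K, b1 * φ h + φ b1 ^ 2 * f + a2 * φ c + b3 = 0 := ⟨φ.symm ((φ b1 ^ 2 * f + a2 * φ c + b3) / b1), by
    rw [RingEquiv.apply_symm_apply, mul_div_cancel₀ _ h1]
    linear_combination (φ b1 ^ 2 * f + a2 * φ c + b3) * h2⟩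
  obtain ⟨b', E5⟩ : ∃ b' : K, b1 * c * φ c ^ 2 + b1 * φ c * f + b1 * φ f ^ 2 + b5 + b' = 0 := ⟨b1 * c * φ c ^ 2 + b1 * φ c * f + b1 * φ f ^ 2 + b5, by
    linear_combination (b1 * c * φ c ^ 2 + b1 * φ c * f + b1 * φ f ^ 2 + b5) * h2⟩
  have E6 : φ b1 ^ 2 * c * φ c ^ 2 + φ b1 ^ 2 * φ f ^ 2 + a2 * φ c ^ 2 + a4 = 0 := by
    have := congrArg φ.symm E3
    simp only [map_add, map_mul, map_zero, RingEquiv.symm_apply_apply] at this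
    simp only [hs, hss] at this
    linear_combination this + φ c ^ 2 * E1
  have E7 : b1 ^ 2 * c * φ c ^ 2 + b1 ^ 2 * φ f ^ 2 + φ b1 ^ 2 * h + φ b3 ^ 2 = 0 := by
    have := congrArg φ.symm E4
    simp only [map_add, map_mul, map_zero, map_pow, RingEquiv.symm_apply_apply] at this
    simp only [hs, hss] at this
    linear_combination this + c * (b1 * φ c - φ a2) * E2
  have E8 : φ b1 ^ 2 * f ^ 2 + a2 * c * φ c ^ 2 + a2 * φ f ^ 2 + φ b5 ^ 2 + φ b' ^ 2 = 0 := by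
    have e5 : b' = b1 * c * φ c ^ 2 + b1 * φ c * f + b1 * φ f ^ 2 + b5 := by
      linear_combination E5 - (b1 * c * φ c ^ 2 + b1 * φ c * f + b1 * φ f ^ 2 + b5) * h2
    have e6 : φ b' ^ 2 = φ.symm b' := (hs b').symm
    rw [e6, e5]
    simp only [map_add, map_mul, map_pow, RingEquiv.symm_apply_apply]
    simp only [hs, hss]
    linear_combination (c * φ c ^ 2 + φ f ^ 2) * E1 + (φ b1 ^ 2 * f ^ 2 + φ b5 ^ 2) * h2
  set v := vSF φ 0 b1 a2 0 b3 a4 0 b5 0 0 0 0 [c, φ c, f, φ (f ^ 2), h, φ h, 0, 0, b', φ (b' ^ 2)] with hv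
  have hE : ∀ x ∈ ESB, pval v x = 0 := by
    simp only [ESB, List.mem_cons, List.not_mem_nil, or_false, forall_eq_or_imp, forall_eq]
    refine ⟨rfl, ?_, ?_, ?_, ?_, ?_, ?_, ?_, ?_⟩
    · show (φ (b1 ^ 2)) * (c * 1) + (a2 * 1 + 0) = 0
      rw [map_pow]
      linear_combination E1
    · show b1 * (((φ c)) * 1) + ((φ a2) * 1 + 0) = 0
      linear_combination E2
    · show b1 * (f * 1) + ((φ a4) * 1 + 0) = 0
      linear_combination E3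
    · show b1 * (((φ h)) * 1) + ((φ (b1 ^ 2)) * (f * 1) + (a2 * (((φ c)) * 1) + (b3 * 1 + 0))) = 0
      rw [map_pow]
      linear_combination E4
    · show b1 * (c * (((φ c)) * (((φ c)) * 1))) + (b1 * (((φ c)) * (f * 1)) + (b1 * (((φ (f ^ 2))) * 1) + (b5 * 1 + (b' * 1 + 0)))) = 0
      rw [map_pow]
      linear_combination E5
    · show (φ (b1 ^ 2)) * (c * (((φ c)) * (((φ c)) * 1))) + ((φ (b1 ^ 2)) * (((φ (f ^ 2))) * 1) + (a2 * (((φ c)) * (((φ c)) * 1)) + (a4 * 1 + 0))) = 0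
      simp only [map_pow]
      linear_combination E6
    · show b1 * (b1 * (c * (((φ c)) * (((φ c)) * 1)))) + (b1 * (b1 * (((φ (f ^ 2))) * 1)) + ((φ (b1 ^ 2)) * (h * 1) + ((φ (b3 ^ 2)) * 1 + 0))) = 0
      simp only [map_pow]
      linear_combination E7
    · show (φ (b1 ^ 2)) * (f * (f * 1)) + (a2 * (c * (((φ c)) * (((φ c)) * 1))) + (a2 * (((φ (f ^ 2))) * 1) + ((φ (b5 ^ 2)) * 1 + (((φ (b' ^ 2))) * 1 + 0)))) = 0
      simp only [map_pow]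
      linear_combination E8
  have hmain := good3F4.toGood2.gW_eq_of_diff v chkSB hE
  have hfix1 := nProd_n0n1_fix hperf φ hφ [[1, 2, 1, 2], [0, 3], [1, 2, 1, 2], [0, 3], [1, 2, 1, 2], [0, 3]] (by simp)
  have hfix2 := nProd_n0n1_fix hperf φ hφ [[1, 2, 1, 2], [0, 3], [1, 2, 1, 2], [0, 3], [1, 2, 1, 2]] (by simp)
  have l7 : good3F4.toGood2.gW (wval v (lS 34 26 36 42 24)) = lettF4 φ 1 [1, 2, 1, 2, 0, 3, 1, 2, 1, 2, 0, 3, 1, 2, 1, 2, 0, 3] c f := by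
    rw [lett1 φ (r1 := 34) (r2 := 26) (r3 := 36) (r4 := 42) (by decide) (by decide +kernel) (by decide +kernel) (by decide +kernel) (by decide +kernel)]
    exact gW_lS φ v 34 26 36 42 rfl rfl rfl rfl
  have l6 : good3F4.toGood2.gW (wval v (lP 38 43 28)) = lettF4 φ 0 [1, 2, 1, 2, 0, 3, 1, 2, 1, 2, 0, 3, 1, 2, 1, 2] h 0 := by
    rw [lett0 φ (r1 := 38) (r2 := 43) (by decide) (by decide +kernel) (by decide +kernel)]
    exact gW_lP φ v 38 43 rfl rfl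
  have hZ : ∀ k ∈ [0, 1, 6, 7, 12, 13, 16, 17, 18, 19, 20, 21, 22, 23], v k = 0 := by
    simp [hv, vSF, vL]
  have lu : good3F4.toGood2.gW (wval v (wsub [0, 1, 6, 7, 12, 13, 16, 17, 18, 19, 20, 21, 22, 23] wSc)) = u := by
    rw [gW_wval_wsub _ hZ, hu, hv]
    exact gW_vSF_X φ _ _ _ _ _ _ _ _ _ _ _ _ _ _
  have hZ2 : ∀ k ∈ [0, 1, 30, 31], v k = 0 := by
    simp [hv, vSF, vL]
  have lt : good3F4.toGood2.gW (wval v (wsub [0, 1, 30, 31] (lS 27 25 28 30 0 ++ lS 29 41 44 47 30))) =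
      suzU φ 0 b1 * lettF4 φ 1 [1, 2, 1, 2, 0, 3, 1, 2, 1, 2, 0, 3] 0 b' := by
    rw [gW_wval_wsub _ hZ2, gW_wval_append, suzU_gW, lett1 φ (r1 := 29) (r2 := 41) (r3 := 44) (r4 := 47) (by decide) (by decide +kernel) (by decide +kernel) (by decide +kernel) (by decide +kernel)]
    rw [gW_lS φ v 27 25 28 30 (i := 0) (a := 0) (b := b1) (by simp [hv, vSF, vL]) (by simp [hv, vSF, vL]) rfl rfl]
    rw [gW_lS φ v 29 41 44 47 (i := 30) (a := 0) (b := b') (by simp [hv, vSF, vL]) (by simp [hv, vSF, vL]) rfl rfl]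
  refine ⟨lettF4 φ 1 [1, 2, 1, 2, 0, 3, 1, 2, 1, 2, 0, 3, 1, 2, 1, 2, 0, 3] c f * lettF4 φ 0 [1, 2, 1, 2, 0, 3, 1, 2, 1, 2, 0, 3, 1, 2, 1, 2] h 0,
    Subgroup.mul_mem _ (lett_fix hperf φ hφ hfix1 _ _ _) (lett_fix hperf φ hφ hfix2 _ _ _), b', ?_⟩
  simp only [gW_wval_append, l7, l6, lu, lt] at hmain
  rw [mul_inv_eq_iff_eq_mul]
  simpa only [mul_assoc] using hmain

/-- The involutions with a leading letter in the long orbit. -/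
theorem caseS (hφ : ∀ x, φ (φ (x ^ 2)) = x) {a b : K} (hab : suzU φ a b ≠ 1) {g' : GL chevF4.Idx K} (hg' : g' ∈ (twF4 hperf φ).UF (good3F4.toGood2.nProd [1, 2, 1, 2]))
    (hu : (suzU φ a b * g') * (suzU φ a b * g') = 1) : ∃ g ∈ (twF4 hperf φ).fix, ∃ b1 b' : K, b1 ≠ 0 ∧
      g * (suzU φ a b * g') * g⁻¹ = suzU φ 0 b1 * lettF4 φ 1 [1, 2, 1, 2, 0, 3, 1, 2, 1, 2, 0, 3] 0 b' := by
  have hU : suzU φ a b * g' ∈ chevF4.posUnipotent K ⊓ (twF4 hperf φ).fix :=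
    Subgroup.mul_mem _ (suzU_mem_U hperf φ hφ a b) ⟨hg'.1, hg'.2.1⟩
  obtain ⟨a2, a3, b3, a4, a5, b5, a6, a7, b7, a8, e⟩ := chainS_tail hperf φ hφ (a := a) (b := b) hg'
  have hab' : a ≠ 0 ∨ b ≠ 0 := by
    by_contra hc
    push Not at hc
    rw [hc.1, hc.2] at hab
    exact hab (suzU_zero φ)
  obtain ⟨h1, hb, h8, h7⟩ := S_a φ e hu hab'
  subst h1
  subst h8
  subst h7
  obtain ⟨g1, hg1, a2', b3', a4', a5', b5', a6', b7', e1⟩ := S_b hperf φ hφ e hb hU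
  have hsq : (g1 * (suzU φ 0 b * g') * g1⁻¹) * (g1 * (suzU φ 0 b * g') * g1⁻¹) = 1 := by
    have : (g1 * (suzU φ 0 b * g') * g1⁻¹) * (g1 * (suzU φ 0 b * g') * g1⁻¹) = g1 * ((suzU φ 0 b * g') * (suzU φ 0 b * g')) * g1⁻¹ := by group
    rw [this, hu]
    group
  obtain ⟨h7, h5, h6⟩ := S_c φ e1 hsq hb
  subst h7
  subst h5
  subst h6
  obtain ⟨g2, hg2, b', e2⟩ := S_d hperf φ hφ e1 hb
  refine ⟨g2 * g1, Subgroup.mul_mem _ hg2 hg1, b, b', hb, ?_⟩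
  rw [← e2]
  have : g2 * g1 * (suzU φ 0 b * g') * (g2 * g1)⁻¹ = g2 * (g1 * (suzU φ 0 b * g') * g1⁻¹) * g2⁻¹ := by group
  exact this

end

end Cfsg.Agent.Lib.Chev
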