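/-
The group ²F₄(q): the conjugates of the involutions of `U`, by the torus, the Weyl group and a fusion word.
-/
import Cfsg.Agent.Lib.Coll.ReeE
import Cfsg.Agent.Lib.ChInv.CertF4

set_option autoImplicit false
set_option maxRecDepth 100000

namespace Cfsg.Agent.Lib.Chev

open Cfsg.Lie Coll

section

variable {K : Type*} [Field K] [CharP K 2] (hperf : ∀ x : K, ∃ y : K, y ^ 2 = x) (φ : K ≃+* K)

omit [CharP K 2] in
lemma chi29_eq (z : ↥(chevF4.diagonalSubgroup K)) : chiF4 29 (by decide) z = chC z * chQ z := by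
  have h := good3F4.toGood2.chi_lin z (r := 28) (s := 24) (t := 29) (by decide) (by decide) (by decide) 1 1 (by
    intro i hi
    have hi' : i < 4 := hi
    interval_cases i <;> decide +kernel)
  simpa using h

omit [CharP K 2] in
lemma chi36_eq (z : ↥(chevF4.diagonalSubgroup K)) : chiF4 36 (by decide) z = chP z * chiF4 29 (by decide) z := by
  have h := good3F4.toGood2.chi_lin z (r := 33) (s := 29) (t := 36) (by decide) (by decide) (by decide) 1 1 (by
    intro i hi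
    have hi' : i < 4 := hi
    interval_cases i <;> decide +kernel)
  simpa using h

omit [CharP K 2] in
lemma chi44_eq (z : ↥(chevF4.diagonalSubgroup K)) : chiF4 44 (by decide) z = chiF4 36 (by decide) z * chiF4 37 (by decide) z := by
  have h := good3F4.toGood2.chi_lin z (r := 36) (s := 37) (t := 44) (by decide) (by decide) (by decide) 1 1 (by
    intro i hi
    have hi' : i < 4 := hi
    interval_cases i <;> decide +kernel)
  simpa using h

lemma chi47_fix {z : ↥(chevF4.diagonalSubgroup K)} (hz : (z : GL chevF4.Idx K) ∈ (twF4 hperf φ).fix) :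
    (chiF4 47 (by decide) z : K) = φ ((chiF4 44 (by decide) z : K) ^ 2) := by
  have h1 := (twF4 hperf φ).chi_tw hz (r := 44) (by decide) 1
  rw [twF4_f, twF4_f, show excF4.exp 44 = 2 by decide +kernel,
    good3F4.toGood2.chi_congr _ (show 47 < chevF4.nroots by decide) (show (twF4 hperf φ).τ 44 = 47 by
      show excF4.tau 44 = 47
      decide +kernel)] at h1
  simpa [map_pow] using h1

/-- The map `a ↦ a φ(a²)` is onto. -/
lemma exists_F1 [Finite K] (hφ : ∀ x, φ (φ (x ^ 2)) = x) (x : Kˣ) : ∃ a : Kˣ, (a : K) * φ ((a : K) ^ 2) = x := by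
  let f : Kˣ →* Kˣ := (MonoidHom.id _) * ((Units.map (φ : K →* K)).comp (powMonoidHom 2))
  have hf : ∀ a : Kˣ, (f a : K) = (a : K) * φ ((a : K) ^ 2) := by
    intro a
    simp [f]
  have hinj : Function.Injective f := by
    rw [injective_iff_map_eq_one]
    intro a ha
    by_contra hc
    have hne : (a : K) ≠ 1 := fun h => hc (Units.ext h)
    apply F_ne_one φ hφ hne
    rw [← hf, ha]
    rfl
  obtain ⟨a, ha⟩ := (Finite.injective_iff_surjective.1 hinj) x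
  exact ⟨a, by rw [← hf, ha]⟩

/-- The map `p ↦ p² φ(p²)` is onto. -/
lemma exists_F2 [Finite K] (hφ : ∀ x, φ (φ (x ^ 2)) = x) (x : Kˣ) : ∃ a : Kˣ, (a : K) ^ 2 * φ ((a : K) ^ 2) = x := by
  let f : Kˣ →* Kˣ := (powMonoidHom 2) * ((Units.map (φ : K →* K)).comp (powMonoidHom 2))
  have hf : ∀ a : Kˣ, (f a : K) = (a : K) ^ 2 * φ ((a : K) ^ 2) := by
    intro a
    simp [f]
  have h2 := two_eq_zero_K (K := K)
  have hinj : Function.Injective f := by
    rw [injective_iff_map_eq_one]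
    intro a ha
    have h1 : (a : K) ^ 2 * φ ((a : K) ^ 2) = 1 := by
      rw [← hf, ha]
      rfl
    have h3 : ((a : K) * φ (a : K)) ^ 2 = 1 := by
      rw [mul_pow, ← map_pow]
      exact h1
    have h4 : (a : K) * φ (a : K) = 1 := by
      have h5 : ((a : K) * φ (a : K) + 1) ^ 2 = 0 := by
        linear_combination h3 + ((a : K) * φ (a : K) + 1) * h2
      have h6 := pow_eq_zero_iff (two_ne_zero) |>.1 h5
      linear_combination h6 - h2
    have h5 : φ (φ (a : K)) = a := by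
      have h6 := congrArg φ h4
      rw [map_mul, map_one] at h6
      linear_combination (a : K) * h6 - φ (φ (a : K)) * h4
    have h6 : (a : K) ^ 2 = a := by
      have := hφ (a : K)
      rw [map_pow, map_pow, h5] at this
      exact this
    have h7 : (a : K) = 1 := by
      have ha0 : (a : K) ≠ 0 := a.ne_zero
      field_simp at h6
      exact h6
    exact Units.ext h7
  obtain ⟨a, ha⟩ := (Finite.injective_iff_surjective.1 hinj) x
  exact ⟨a, by rw [← hf, ha]⟩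

/-- The letter in the fourth orbit as root elements. -/
lemma lett4_eq (b : K) : lettF4 φ 1 [1, 2, 1, 2, 0, 3, 1, 2, 1, 2, 0, 3] 0 b = xF4 44 b * xF4 47 (φ (b ^ 2)) := by
  rw [lett1 φ (r1 := 29) (r2 := 41) (r3 := 44) (r4 := 47) (by decide) (by decide +kernel) (by decide +kernel) (by decide +kernel) (by decide +kernel)]
  simp [good3F4.toGood2.xN_zero]

lemma suzU_zero_eq (b : K) : suzU φ 0 b = xF4 28 b * xF4 30 (φ (b ^ 2)) := by
  rw [suzU_gW]
  simp [good3F4.toGood2.xN_zero]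

/-- The action of the torus on the forms of the long orbit. -/
theorem torus_S [Finite K] (hφ : ∀ x, φ (φ (x ^ 2)) = x) {b1 b' : K} (h1 : b1 ≠ 0) (h2 : b' ≠ 0) :
    ∃ g ∈ (twF4 hperf φ).fix, g * (suzU φ 0 b1 * lettF4 φ 1 [1, 2, 1, 2, 0, 3, 1, 2, 1, 2, 0, 3] 0 b') * g⁻¹ =
      suzU φ 0 1 * lettF4 φ 1 [1, 2, 1, 2, 0, 3, 1, 2, 1, 2, 0, 3] 0 1 := by
  obtain ⟨A, hA⟩ := exists_F1 φ hφ (Units.mk0 b1 h1)⁻¹
  set B : K := φ ((A : K) ^ 2) with hB
  have hB0 : B ≠ 0 := by simp [hB]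
  have hA0 : (A : K) ≠ 0 := A.ne_zero
  have hAB : (A : K) * B * b1 = 1 := by
    rw [hA]
    simp [h1]
  set Y : K := ((A : K) * B) * ((A : K) ^ 2 * B) * b' with hY
  have hY0 : Y ≠ 0 := by
    simp [hY, hB0, hA0, h2]
  obtain ⟨P, hP⟩ := exists_F2 φ hφ (Units.mk0 Y hY0)⁻¹
  obtain ⟨⟨z, hzd, hzf⟩, hz⟩ := (chiFixF4_bij hperf φ hφ).2 (P, A)
  rw [chiFixF4_apply, Prod.mk.injEq] at hz
  obtain ⟨hzP, hzA⟩ := hz
  refine ⟨z, hzf, ?_⟩
  set z' : ↥(chevF4.diagonalSubgroup K) := ⟨z, hzd⟩ with hz'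
  have hzf' : ((z' : ↥(chevF4.diagonalSubgroup K)) : GL chevF4.Idx K) ∈ (twF4 hperf φ).fix := hzf
  have hzc : ((z' : ↥(chevF4.diagonalSubgroup K)) : GL chevF4.Idx K) = z := rfl
  have eB : (chB z' : K) = B := by
    rw [chB_fix hperf φ hzf', show chA z' = A from hzA]
  have eC : (chC z' : K) = (A : K) * B := by
    rw [chC_eq, Units.val_mul, show chA z' = A from hzA, eB]
  have eD : (chD z' : K) = (A : K) ^ 2 * B := by
    rw [chD_eq, Units.val_mul, Units.val_pow_eq_pow_val, show chA z' = A from hzA, eB]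
  have eQ : (chQ z' : K) = φ ((P : K) ^ 2) := by
    rw [chQ_fix hperf φ hzf', show chP z' = P from hzP]
  have e44 : (chiF4 44 (by decide) z' : K) * b' = 1 := by
    rw [chi44_eq, chi36_eq, chi37_eq, chi29_eq]
    simp only [Units.val_mul]
    rw [show chP z' = P from hzP, eC, eQ, eD]
    have : (P : K) ^ 2 * φ ((P : K) ^ 2) * Y = 1 := by
      rw [hP]
      simp [hY0]
    rw [hY] at this
    linear_combination this
  have e47 : (chiF4 47 (by decide) z' : K) * φ (b' ^ 2) = 1 := by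
    rw [chi47_fix hperf φ hzf', ← map_mul, ← mul_pow, e44]
    simp
  rw [← hzc, conj_mul, conj_suzU hperf φ hφ hzf', lett4_eq, conj_mul,
    conj_xF4 z' (r := 44) (by decide), conj_xF4 z' (r := 47) (by decide), e44, e47, lett4_eq, eC, hAB]
  simp [mul_zero]

/-- The action of the torus on the long orbit. -/
theorem torus_S0 [Finite K] (hφ : ∀ x, φ (φ (x ^ 2)) = x) {b1 : K} (h1 : b1 ≠ 0) :
    ∃ g ∈ (twF4 hperf φ).fix, g * suzU φ 0 b1 * g⁻¹ = suzU φ 0 1 := by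
  obtain ⟨A, hA⟩ := exists_F1 φ hφ (Units.mk0 b1 h1)⁻¹
  have hAB : (A : K) * φ ((A : K) ^ 2) * b1 = 1 := by
    rw [hA]
    simp [h1]
  obtain ⟨⟨z, hzd, hzf⟩, hz⟩ := (chiFixF4_bij hperf φ hφ).2 (1, A)
  rw [chiFixF4_apply, Prod.mk.injEq] at hz
  obtain ⟨_, hzA⟩ := hz
  refine ⟨z, hzf, ?_⟩
  set z' : ↥(chevF4.diagonalSubgroup K) := ⟨z, hzd⟩ with hz'
  have hzf' : ((z' : ↥(chevF4.diagonalSubgroup K)) : GL chevF4.Idx K) ∈ (twF4 hperf φ).fix := hzf
  have hzc : ((z' : ↥(chevF4.diagonalSubgroup K)) : GL chevF4.Idx K) = z := rfl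
  have eB : (chB z' : K) = φ ((A : K) ^ 2) := by
    rw [chB_fix hperf φ hzf', show chA z' = A from hzA]
  have eC : (chC z' : K) = (A : K) * φ ((A : K) ^ 2) := by
    rw [chC_eq, Units.val_mul, show chA z' = A from hzA, eB]
  rw [← hzc, conj_suzU hperf φ hφ hzf', eC, hAB]
  simp [mul_zero]

/-- The action of the torus on the short orbit. -/
theorem torus_P (hφ : ∀ x, φ (φ (x ^ 2)) = x) {a : K} (h1 : a ≠ 0) :
    ∃ g ∈ (twF4 hperf φ).fix, g * parU φ a * g⁻¹ = parU φ 1 := by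
  obtain ⟨y, hy⟩ := hperf (φ.symm a⁻¹)
  have hy0 : y ≠ 0 := by
    intro h
    rw [h] at hy
    have h3 : φ.symm a⁻¹ = 0 := by
      rw [← hy]
      simp
    simp [h1] at h3
  obtain ⟨⟨z, hzd, hzf⟩, hz⟩ := (chiFixF4_bij hperf φ hφ).2 (Units.mk0 y hy0, 1)
  rw [chiFixF4_apply, Prod.mk.injEq] at hz
  obtain ⟨hzP, _⟩ := hz
  refine ⟨z, hzf, ?_⟩
  set z' : ↥(chevF4.diagonalSubgroup K) := ⟨z, hzd⟩ with hz'
  have hzf' : ((z' : ↥(chevF4.diagonalSubgroup K)) : GL chevF4.Idx K) ∈ (twF4 hperf φ).fix := hzf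
  have hzc : ((z' : ↥(chevF4.diagonalSubgroup K)) : GL chevF4.Idx K) = z := rfl
  have eQ : (chQ z' : K) * a = 1 := by
    rw [chQ_fix hperf φ hzf', show chP z' = Units.mk0 y hy0 from hzP, Units.val_mk0, hy, RingEquiv.apply_symm_apply]
    simp [h1]
  rw [← hzc, conj_parU hperf φ hφ hzf', eQ]

/-- The fusion of the product of two commuting root elements. -/
theorem chkFusR : digF4.tbl.chkWEqN 2
    (wL ([27, 25, 28] ++ [27, 25, 28, 19, 17, 27, 25, 30] ++ [27, 25, 30] ++ [33, 24] ++ [33, 24, 14, 23, 33, 24]) ++ wL [28, 30, 44, 47])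
    (wL [39, 45] ++ wL ([27, 25, 28] ++ [27, 25, 28, 19, 17, 27, 25, 30] ++ [27, 25, 30] ++ [33, 24] ++ [33, 24, 14, 23, 33, 24])) = true := by
  decide +kernel

lemma xL_append (A B : List ℕ) : good3F4.toGood2.xL (F := K) (A ++ B) = good3F4.toGood2.xL A * good3F4.toGood2.xL B := by
  induction A with
  | nil => simp [good3F4.toGood2.xL_nil]
  | cons a A ih =>
    rw [List.cons_append, good3F4.toGood2.xL_cons, good3F4.toGood2.xL_cons, ih, mul_assoc]

lemma suzU_one_zero : suzU φ (1 : K) 0 = good3F4.toGood2.xL [27, 25, 28] := by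
  rw [suzU_gW]
  simp [good3F4.toGood2.xN_zero, good3F4.toGood2.xL_cons, good3F4.toGood2.xL_nil]

lemma suzU_one_one : suzU φ (1 : K) 1 = good3F4.toGood2.xL [27, 25, 30] := by
  rw [suzU_gW]
  have h : (1 : K) + 1 = 0 := add_self_char_two 1
  simp [good3F4.toGood2.xN_zero, good3F4.toGood2.xL_cons, good3F4.toGood2.xL_nil, h]

lemma parU_one : parU φ (1 : K) = good3F4.toGood2.xL [33, 24] := by
  rw [parU_gW]
  simp [good3F4.toGood2.xL_cons, good3F4.toGood2.xL_nil]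

lemma n0F4_xL : n0F4 (K := K) = good3F4.toGood2.xL [33, 24, 14, 23, 33, 24] := by
  rw [n0F4_eq]
  simp [good3F4.toGood2.xL_cons, good3F4.toGood2.xL_nil, mul_assoc]

lemma n1F4_xL : n1F4 (K := K) = good3F4.toGood2.xL [27, 25, 28, 19, 17, 27, 25, 30] := by
  rw [n1F4_gg, ggF4_eq_gW, ggF4_eq_gW]
  simp [good3F4.toGood2.xL_cons, good3F4.toGood2.xL_nil, mul_assoc, good3F4.toGood2.xN_zero]

lemma t3_xL : suzU φ (0 : K) 1 * lettF4 φ 1 [1, 2, 1, 2, 0, 3, 1, 2, 1, 2, 0, 3] 0 1 = good3F4.toGood2.xL [28, 30, 44, 47] := by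
  rw [suzU_zero_eq, lett4_eq]
  simp [good3F4.toGood2.xL_cons, good3F4.toGood2.xL_nil, mul_assoc]

/-- The fusion of the product of two commuting root elements. -/
theorem fus_t3 (hφ : ∀ x, φ (φ (x ^ 2)) = x) : ∃ g ∈ (twF4 hperf φ).fix,
    g * (suzU φ (0 : K) 1 * lettF4 φ 1 [1, 2, 1, 2, 0, 3, 1, 2, 1, 2, 0, 3] 0 1) * g⁻¹ = good3F4.toGood2.xL [39, 45] := by
  refine ⟨suzU φ 1 0 * n1F4 * suzU φ 1 1 * parU φ 1 * n0F4, Subgroup.mul_mem _ (Subgroup.mul_mem _ (Subgroup.mul_mem _ (Subgroup.mul_mem _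
    (suzU_fix hperf φ hφ _ _) (n1F4_fix hperf φ hφ)) (suzU_fix hperf φ hφ _ _)) (parU_fix hperf φ hφ _)) (n0F4_fix hperf φ hφ), ?_⟩
  have e := good3F4.toGood2.wEqN (F := K) chkFusR 1 1
  rw [List.map_append, List.map_append, good3F4.toGood2.gW_append, good3F4.toGood2.gW_append, good3F4.toGood2.gW_wL,
    good3F4.toGood2.gW_wL, good3F4.toGood2.gW_wL, xL_append, xL_append, xL_append, xL_append,
    ← suzU_one_zero φ, ← n1F4_xL, ← suzU_one_one φ, ← parU_one φ, ← n0F4_xL, ← t3_xL φ] at e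
  rw [mul_inv_eq_iff_eq_mul]
  exact e

lemma t2_lett : lettF4 φ 0 [0, 3, 1, 2, 1, 2, 0, 3, 1, 2, 1, 2] (1 : K) 0 = good3F4.toGood2.xL [39, 45] := by
  rw [lett0 φ (r1 := 39) (r2 := 45) (by decide) (by decide +kernel) (by decide +kernel)]
  simp [good3F4.toGood2.xL_cons, good3F4.toGood2.xL_nil]

lemma t1_lett : lettF4 φ 1 [1, 2, 1, 2, 0, 3, 1, 2, 1, 2, 0, 3] (0 : K) 1 = good3F4.toGood2.xL [47, 44] := by
  rw [lett4_eq]
  have e := commF4 (K := K) (r := 44) (s := 47) (by decide +kernel) 1 1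
  simp [good3F4.toGood2.xL_cons, good3F4.toGood2.xL_nil]
  exact e

/-- The involutions of `U` are conjugate to one of two elements. -/
theorem inv_U_F4 [Finite K] (hφ : ∀ x, φ (φ (x ^ 2)) = x) {u : GL chevF4.Idx K} (hU : u ∈ chevF4.posUnipotent K ⊓ (twF4 hperf φ).fix)
    (h1 : u ≠ 1) (h2 : u * u = 1) : ∃ g ∈ (twF4 hperf φ).fix, g * u * g⁻¹ = good3F4.toGood2.xL [47, 44] ∨ g * u * g⁻¹ = good3F4.toGood2.xL [39, 45] := by
  have hg1 : u ∈ (twF4 hperf φ).UF (good3F4.toGood2.nProd []) := by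
    have e : good3F4.toGood2.nProd (F := K) [] = 1 := rfl
    rw [e, Tw.UF_one]
    exact hU
  obtain ⟨m, hm, j, hj, a, b, hne, g', hg', e⟩ := lead_form hperf φ hφ [0, 1, 0, 1, 0, 1, 0, 1] [] (by simp) (Subgroup.one_mem _) chainF4' hg1 h1
  have hsq : (m⁻¹ * u * m) * (m⁻¹ * u * m) = 1 := by
    have : (m⁻¹ * u * m) * (m⁻¹ * u * m) = m⁻¹ * (u * u) * m := by group
    rw [this, h2]
    group
  have hconj : ∀ g ∈ (twF4 hperf φ).fix, ∀ t, g * (m⁻¹ * u * m) * g⁻¹ = t → ∃ g' ∈ (twF4 hperf φ).fix, g' * u * g'⁻¹ = t := by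
    intro g hg t ht
    refine ⟨g * m⁻¹, Subgroup.mul_mem _ hg (Subgroup.inv_mem _ hm), ?_⟩
    rw [← ht]
    group
  interval_cases j
  · simp only [if_true] at hne e
    have ha : a ≠ 0 := by
      intro h0
      apply hne
      rw [h0]
      exact parU_zero φ
    rw [e] at hsq hconj
    obtain ⟨g1, hg1, e1⟩ := caseP hperf φ hφ ha hg' hsq
    obtain ⟨g2, hg2, e2⟩ := torus_P hperf φ hφ ha
    have hn := nProd_n0n1_fix hperf φ hφ [[0, 3], [1, 2, 1, 2], [0, 3], [1, 2, 1, 2]] (by simp)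
    obtain ⟨g3, hg3, e3⟩ := hconj (good3F4.toGood2.nProd [0, 3, 1, 2, 1, 2, 0, 3, 1, 2, 1, 2] * g2 * g1)
      (Subgroup.mul_mem _ (Subgroup.mul_mem _ hn hg2) hg1) (good3F4.toGood2.xL [39, 45]) (by
        have e4 := t2_lett φ (K := K)
        unfold lettF4 at e4
        rw [if_pos rfl] at e4
        rw [← e4, ← e2]
        have e6 : good3F4.toGood2.nProd [0, 3, 1, 2, 1, 2, 0, 3, 1, 2, 1, 2] * g2 * g1 * (parU φ a * g') * (good3F4.toGood2.nProd [0, 3, 1, 2, 1, 2, 0, 3, 1, 2, 1, 2] * g2 * g1)⁻¹ =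
            good3F4.toGood2.nProd [0, 3, 1, 2, 1, 2, 0, 3, 1, 2, 1, 2] * (g2 * (g1 * (parU φ a * g') * g1⁻¹) * g2⁻¹) * (good3F4.toGood2.nProd [0, 3, 1, 2, 1, 2, 0, 3, 1, 2, 1, 2])⁻¹ := by group
        rw [e6, e1])
    exact ⟨g3, hg3, Or.inr e3⟩
  · simp only [one_ne_zero, if_false] at hne e
    rw [e] at hsq hconj
    obtain ⟨g1, hg1, b1, b', hb1, e1⟩ := caseS hperf φ hφ hne hg' hsq
    by_cases hb' : b' = 0
    · subst hb'
      have e5 : lettF4 φ 1 [1, 2, 1, 2, 0, 3, 1, 2, 1, 2, 0, 3] (0 : K) 0 = 1 := by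
        rw [lett4_eq]
        simp [good3F4.toGood2.xN_zero]
      rw [e5, mul_one] at e1
      obtain ⟨g2, hg2, e2⟩ := torus_S0 hperf φ hφ hb1
      have hn := nProd_n0n1_fix hperf φ hφ [[1, 2, 1, 2], [0, 3], [1, 2, 1, 2], [0, 3]] (by simp)
      obtain ⟨g3, hg3, e3⟩ := hconj (good3F4.toGood2.nProd [1, 2, 1, 2, 0, 3, 1, 2, 1, 2, 0, 3] * g2 * g1)
        (Subgroup.mul_mem _ (Subgroup.mul_mem _ hn hg2) hg1) (good3F4.toGood2.xL [47, 44]) (by
          have e4 := t1_lett φ (K := K)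
          unfold lettF4 at e4
          rw [if_neg (by decide)] at e4
          rw [← e4, ← e2]
          have e6 : good3F4.toGood2.nProd [1, 2, 1, 2, 0, 3, 1, 2, 1, 2, 0, 3] * g2 * g1 * (suzU φ a b * g') * (good3F4.toGood2.nProd [1, 2, 1, 2, 0, 3, 1, 2, 1, 2, 0, 3] * g2 * g1)⁻¹ =
              good3F4.toGood2.nProd [1, 2, 1, 2, 0, 3, 1, 2, 1, 2, 0, 3] * (g2 * (g1 * (suzU φ a b * g') * g1⁻¹) * g2⁻¹) * (good3F4.toGood2.nProd [1, 2, 1, 2, 0, 3, 1, 2, 1, 2, 0, 3])⁻¹ := by group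
          rw [e6, e1])
      exact ⟨g3, hg3, Or.inl e3⟩
    · obtain ⟨g2, hg2, e2⟩ := torus_S hperf φ hφ hb1 hb'
      obtain ⟨g4, hg4, e4⟩ := fus_t3 hperf φ hφ
      obtain ⟨g3, hg3, e3⟩ := hconj (g4 * g2 * g1)
        (Subgroup.mul_mem _ (Subgroup.mul_mem _ hg4 hg2) hg1) (good3F4.toGood2.xL [39, 45]) (by
          rw [← e4, ← e2]
          have e6 : g4 * g2 * g1 * (suzU φ a b * g') * (g4 * g2 * g1)⁻¹ = g4 * (g2 * (g1 * (suzU φ a b * g') * g1⁻¹) * g2⁻¹) * g4⁻¹ := by group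
          rw [e6, e1])
      exact ⟨g3, hg3, Or.inr e3⟩

end

end Cfsg.Agent.Lib.Chev
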