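/-
The group ²F₄(q): the classes of involutions, the commutator subgroup of ²F₄(2) and its involutions.
-/
import Cfsg.Agent.Lib.Coll.ReeF

set_option autoImplicit false
set_option maxRecDepth 100000

namespace Cfsg.Agent.Lib.Chev

open Cfsg.Lie Coll

/-- A `p`-element has a conjugate in a subgroup of `p`-power order and index prime to `p`. -/
theorem exists_conj_of_sylow {G : Type*} [Group G] [Finite G] {p : ℕ} [Fact p.Prime] {S : Subgroup G} (hp : IsPGroup p S) (hidx : ¬ p ∣ S.index)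
    {x : G} (hx : ∃ j, orderOf x = p ^ j) : ∃ g, g * x * g⁻¹ ∈ S := by
  obtain ⟨j, hj⟩ := hx
  have hP : IsPGroup p (Subgroup.zpowers x) := IsPGroup.of_card (n := j) (by rw [Nat.card_zpowers, hj])
  obtain ⟨Q, hQ⟩ := hP.exists_le_sylow
  obtain ⟨g, hg⟩ := MulAction.exists_smul_eq G Q (hp.toSylow hidx)
  have h1 : x ∈ (Q : Subgroup G) := hQ (Subgroup.mem_zpowers x)
  have h2 : g * x * g⁻¹ ∈ ((g • Q : Sylow p G) : Subgroup G) := by
    rw [Sylow.coe_subgroup_smul, Subgroup.mem_pointwise_smul_iff_inv_smul_mem, MulAut.smul_def, MulAut.conj_inv_apply]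
    have e : g⁻¹ * (g * x * g⁻¹) * g = x := by group
    rwa [e]
  rw [hg] at h2
  exact ⟨g, h2⟩

/-- The classes of involutions of a normal subgroup, when they do not split. -/
theorem count_sub {G : Type*} [Group G] {C : Subgroup G} [C.Normal] {t1 t2 y : G} (h1 : t1 ∈ C) (h2 : t2 ∈ C) (o1 : orderOf t1 = 2) (o2 : orderOf t2 = 2)
    (hne : ¬ IsConj t1 t2) (c1 : Commute y t1) (c2 : Commute y t2) (hgen : C ⊔ Subgroup.zpowers y = ⊤)
    (hall : ∀ g : G, orderOf g = 2 → IsConj t1 g ∨ IsConj t2 g) :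
    (ConjClasses.mk '' {g : C | orderOf g = 2}).ncard = 2 := by
  have hord : ∀ g : C, orderOf g = orderOf (g : G) := fun g => (Subgroup.orderOf_coe g).symm
  have hne' : ConjClasses.mk (⟨t1, h1⟩ : C) ≠ ConjClasses.mk (⟨t2, h2⟩ : C) := by
    intro h
    rw [ConjClasses.mk_eq_mk_iff_isConj, isConj_iff] at h
    obtain ⟨c, hc⟩ := h
    apply hne
    rw [isConj_iff]
    refine ⟨c, ?_⟩
    have := congrArg Subtype.val hc
    simpa using this
  have himg : ConjClasses.mk '' {g : C | orderOf g = 2} = {ConjClasses.mk (⟨t1, h1⟩ : C), ConjClasses.mk (⟨t2, h2⟩ : C)} := by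
    ext c
    simp only [Set.mem_image, Set.mem_setOf_eq, Set.mem_insert_iff, Set.mem_singleton_iff]
    constructor
    · rintro ⟨g, hg, rfl⟩
      have hg' : orderOf (g : G) = 2 := by rw [← hord]; exact hg
      have key : ∀ t (ht : t ∈ C), Commute y t → IsConj t (g : G) → ConjClasses.mk g = ConjClasses.mk (⟨t, ht⟩ : C) := by
        intro t ht hc hconj
        rw [isConj_iff] at hconj
        obtain ⟨x, hx⟩ := hconj
        have hxm : x ∈ C ⊔ Subgroup.zpowers y := by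
          rw [hgen]
          exact Subgroup.mem_top _
        obtain ⟨a, ha, b, hb, rfl⟩ := Subgroup.mem_sup_of_normal_left.1 hxm
        rw [ConjClasses.mk_eq_mk_iff_isConj, isConj_comm, isConj_iff]
        refine ⟨⟨a, ha⟩, Subtype.ext ?_⟩
        obtain ⟨k, rfl⟩ := Subgroup.mem_zpowers_iff.1 hb
        have hc2 : y ^ k * t * (y ^ k)⁻¹ = t := by
          have : Commute (y ^ k) t := hc.zpow_left k
          rw [this.eq]
          group
        have e : a * t * a⁻¹ = a * (y ^ k * t * (y ^ k)⁻¹) * a⁻¹ := by rw [hc2]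
        show a * t * a⁻¹ = g
        rw [e, ← hx]
        group
      rcases hall _ hg' with h | h
      · exact Or.inl (key t1 h1 c1 h)
      · exact Or.inr (key t2 h2 c2 h)
    · rintro (rfl | rfl)
      · exact ⟨⟨t1, h1⟩, by rw [hord]; exact o1, rfl⟩
      · exact ⟨⟨t2, h2⟩, by rw [hord]; exact o2, rfl⟩
  rw [himg, Set.ncard_pair hne']

section

variable {K : Type*} [Field K] [CharP K 2] (hperf : ∀ x : K, ∃ y : K, y ^ 2 = x) (φ : K ≃+* K)

lemma fix_le_group : (twF4 hperf φ).fix ≤ chevF4.group K := fun _ h => h.1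

lemma t1_fix (hφ : ∀ x, φ (φ (x ^ 2)) = x) : good3F4.toGood2.xL (F := K) [47, 44] ∈ (twF4 hperf φ).fix := by
  rw [← t1_lett φ]
  exact lett_fix hperf φ hφ (nProd_n0n1_fix hperf φ hφ [[1, 2, 1, 2], [0, 3], [1, 2, 1, 2], [0, 3]] (by simp)) _ _ _

lemma t2_fix (hφ : ∀ x, φ (φ (x ^ 2)) = x) : good3F4.toGood2.xL (F := K) [39, 45] ∈ (twF4 hperf φ).fix := by
  rw [← t2_lett φ]
  exact lett_fix hperf φ hφ (nProd_n0n1_fix hperf φ hφ [[0, 3], [1, 2, 1, 2], [0, 3], [1, 2, 1, 2]] (by simp)) _ _ _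

lemma t1_order : orderOf (good3F4.toGood2.xL (F := K) [47, 44]) = 2 := by
  have h := hsqF4 (F := K) [47, 44] (by decide)
  exact orderOf_eq_prime (by rw [pow_two]; exact h.1) h.2

lemma t2_order : orderOf (good3F4.toGood2.xL (F := K) [39, 45]) = 2 := by
  have h := hsqF4 (F := K) [39, 45] (by decide)
  exact orderOf_eq_prime (by rw [pow_two]; exact h.1) h.2

lemma t1_t2_not_conj {h : GL chevF4.Idx K} (hh : h ∈ chevF4.group K) :
    h * good3F4.toGood2.xL (F := K) [47, 44] * h⁻¹ ≠ good3F4.toGood2.xL [39, 45] := by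
  intro e
  have := hnonF4 (F := K) [47, 44] (by decide) [39, 45] (by decide) h hh e
  exact absurd this (by decide)

/-- The involutions of the fixed points. -/
theorem inv_G_F4 [Fintype K] {m : ℕ} (hK : Fintype.card K = 2 ^ (2 * m + 1)) (hφ : ∀ x, φ (φ (x ^ 2)) = x) (x : ↥(twF4 hperf φ).fix) (hx : orderOf x = 2) :
    IsConj (⟨_, t1_fix hperf φ hφ⟩ : ↥(twF4 hperf φ).fix) x ∨ IsConj (⟨_, t2_fix hperf φ hφ⟩ : ↥(twF4 hperf φ).fix) x := by
  haveI : Fact (Nat.Prime 2) := ⟨Nat.prime_two⟩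
  obtain ⟨h1, h2⟩ := U1_sylow hperf φ hK hφ
  obtain ⟨g, hg⟩ := exists_conj_of_sylow h1 h2 (x := x) ⟨1, by simpa using hx⟩
  have hg' : ((g * x * g⁻¹ : ↥(twF4 hperf φ).fix) : GL chevF4.Idx K) ∈ chevF4.posUnipotent K ⊓ (twF4 hperf φ).fix :=
    ⟨hg, (g * x * g⁻¹).2⟩
  have hne : ((g * x * g⁻¹ : ↥(twF4 hperf φ).fix) : GL chevF4.Idx K) ≠ 1 := by
    intro h
    have h3 : g * x * g⁻¹ = 1 := Subtype.ext h
    have h4 : x = 1 := by
      rw [conj_eq_one_iff] at h3
      exact h3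
    rw [h4, orderOf_one] at hx
    omega
  have hsq : ((g * x * g⁻¹ : ↥(twF4 hperf φ).fix) : GL chevF4.Idx K) * ((g * x * g⁻¹ : ↥(twF4 hperf φ).fix) : GL chevF4.Idx K) = 1 := by
    have h3 : x * x = 1 := by
      rw [← pow_two, ← hx]
      exact pow_orderOf_eq_one x
    have h4 : (g * x * g⁻¹) * (g * x * g⁻¹) = 1 := by
      have : (g * x * g⁻¹) * (g * x * g⁻¹) = g * (x * x) * g⁻¹ := by group
      rw [this, h3]
      group
    exact congrArg Subtype.val h4
  obtain ⟨c, hc, e⟩ := inv_U_F4 hperf φ hφ hg' hne hsq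
  have key : ∀ t (ht : t ∈ (twF4 hperf φ).fix), c * ((g * x * g⁻¹ : ↥(twF4 hperf φ).fix) : GL chevF4.Idx K) * c⁻¹ = t →
      IsConj (⟨t, ht⟩ : ↥(twF4 hperf φ).fix) x := by
    intro t ht e1
    rw [isConj_comm, isConj_iff]
    refine ⟨⟨c, hc⟩ * g, Subtype.ext ?_⟩
    show ((⟨c, hc⟩ * g * x * (⟨c, hc⟩ * g)⁻¹ : ↥(twF4 hperf φ).fix) : GL chevF4.Idx K) = t
    rw [← e1]
    simp [mul_assoc]
  rcases e with e | e
  · exact Or.inl (key _ _ e)
  · exact Or.inr (key _ _ e)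

/-- The number of classes of involutions of the fixed points. -/
theorem count_fix [Fintype K] {m : ℕ} (hK : Fintype.card K = 2 ^ (2 * m + 1)) (hφ : ∀ x, φ (φ (x ^ 2)) = x) :
    (ConjClasses.mk '' {g : ↥(twF4 hperf φ).fix | orderOf g = 2}).ncard = 2 := by
  have hord : ∀ g : ↥(twF4 hperf φ).fix, orderOf g = orderOf (g : GL chevF4.Idx K) := fun g => (Subgroup.orderOf_coe g).symm
  have hne' : ConjClasses.mk (⟨_, t1_fix hperf φ hφ⟩ : ↥(twF4 hperf φ).fix) ≠ ConjClasses.mk (⟨_, t2_fix hperf φ hφ⟩ : ↥(twF4 hperf φ).fix) := by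
    intro h
    rw [ConjClasses.mk_eq_mk_iff_isConj, isConj_iff] at h
    obtain ⟨c, hc⟩ := h
    exact t1_t2_not_conj (fix_le_group hperf φ c.2) (congrArg Subtype.val hc)
  have himg : ConjClasses.mk '' {g : ↥(twF4 hperf φ).fix | orderOf g = 2} =
      {ConjClasses.mk (⟨_, t1_fix hperf φ hφ⟩ : ↥(twF4 hperf φ).fix), ConjClasses.mk (⟨_, t2_fix hperf φ hφ⟩ : ↥(twF4 hperf φ).fix)} := by
    ext c
    simp only [Set.mem_image, Set.mem_setOf_eq, Set.mem_insert_iff, Set.mem_singleton_iff]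
    constructor
    · rintro ⟨g, hg, rfl⟩
      rcases inv_G_F4 hperf φ hK hφ g hg with h | h
      · exact Or.inl (ConjClasses.mk_eq_mk_iff_isConj.2 h.symm)
      · exact Or.inr (ConjClasses.mk_eq_mk_iff_isConj.2 h.symm)
    · rintro (rfl | rfl)
      · exact ⟨_, by rw [hord]; exact t1_order, rfl⟩
      · exact ⟨_, by rw [hord]; exact t2_order, rfl⟩
  rw [himg, Set.ncard_pair hne']

end

end Cfsg.Agent.Lib.Chev
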