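/-
The group ²F₄(2): the commutator subgroup contains the involutions and has index at most two, and the classes do not split.
-/
import Cfsg.Agent.Lib.Coll.ReeG

set_option autoImplicit false
set_option maxRecDepth 100000

namespace Cfsg.Agent.Lib.Chev

open Cfsg.Lie Coll

theorem chkC1 : digF4.tbl.chkWEq 2 (wL [33, 24] ++ wL [29, 41, 44]) (wL [36, 42] ++ (wL [29, 41, 44] ++ wL [33, 24])) = true := by decide +kernel

theorem chkC2 : digF4.tbl.chkWEq 2 (wL [36, 42] ++ wL [28, 30]) (wL [39, 45, 40, 46, 44, 47] ++ (wL [28, 30] ++ wL [36, 42])) = true := by decide +kernel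

theorem chkC3 : digF4.tbl.chkWEq 2 (wL [29, 41, 44] ++ wL [47, 44]) (wL [47, 44] ++ wL [29, 41, 44]) = true := by decide +kernel

theorem chkC4 : digF4.tbl.chkWEq 2 (wL [29, 41, 44] ++ wL [39, 45]) (wL [39, 45] ++ wL [29, 41, 44]) = true := by decide +kernel

section

variable {K : Type*} [Field K] [CharP K 2] (hperf : ∀ x : K, ∃ y : K, y ^ 2 = x) (φ : K ≃+* K)

/-- Membership in the commutator subgroup of the fixed points. -/
def inCF (x : GL chevF4.Idx K) : Prop :=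
  ∃ h : x ∈ (twF4 hperf φ).fix, (⟨x, h⟩ : ↥(twF4 hperf φ).fix) ∈ commutator ↥(twF4 hperf φ).fix

lemma inCF_comm {a b : GL chevF4.Idx K} (ha : a ∈ (twF4 hperf φ).fix) (hb : b ∈ (twF4 hperf φ).fix) : inCF hperf φ (a * b * a⁻¹ * b⁻¹) := by
  refine ⟨Subgroup.mul_mem _ (Subgroup.mul_mem _ (Subgroup.mul_mem _ ha hb) (Subgroup.inv_mem _ ha)) (Subgroup.inv_mem _ hb), ?_⟩
  have h := Subgroup.commutator_mem_commutator (Subgroup.mem_top (⟨a, ha⟩ : ↥(twF4 hperf φ).fix)) (Subgroup.mem_top (⟨b, hb⟩ : ↥(twF4 hperf φ).fix))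
  rw [commutatorElement_def] at h
  exact h

lemma inCF_conj {g x : GL chevF4.Idx K} (hg : g ∈ (twF4 hperf φ).fix) (hx : inCF hperf φ x) : inCF hperf φ (g * x * g⁻¹) := by
  obtain ⟨h1, h2⟩ := hx
  refine ⟨Subgroup.mul_mem _ (Subgroup.mul_mem _ hg h1) (Subgroup.inv_mem _ hg), ?_⟩
  have h := (inferInstance : (commutator ↥(twF4 hperf φ).fix).Normal).conj_mem _ h2 ⟨g, hg⟩
  exact h

lemma inCF_mul {x y : GL chevF4.Idx K} (hx : inCF hperf φ x) (hy : inCF hperf φ y) : inCF hperf φ (x * y) := by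
  obtain ⟨h1, h2⟩ := hx
  obtain ⟨h3, h4⟩ := hy
  exact ⟨Subgroup.mul_mem _ h1 h3, Subgroup.mul_mem _ h2 h4⟩

lemma inCF_inv {x : GL chevF4.Idx K} (hx : inCF hperf φ x) : inCF hperf φ x⁻¹ := by
  obtain ⟨h1, h2⟩ := hx
  exact ⟨Subgroup.inv_mem _ h1, Subgroup.inv_mem _ h2⟩

lemma y4_eq : lettF4 φ 1 [0, 3, 1, 2, 1, 2, 0, 3] (1 : K) 0 = good3F4.toGood2.xL [29, 41, 44] := by
  rw [lett1 φ (r1 := 29) (r2 := 41) (r3 := 44) (r4 := 47) (by decide) (by decide +kernel) (by decide +kernel) (by decide +kernel) (by decide +kernel)]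
  simp [good3F4.toGood2.xN_zero, good3F4.toGood2.xL_cons, good3F4.toGood2.xL_nil]

lemma y2b_eq : lettF4 φ 1 [0, 3] (0 : K) 1 = good3F4.toGood2.xL [36, 42] := by
  rw [lett1 φ (r1 := 34) (r2 := 26) (r3 := 36) (r4 := 42) (by decide) (by decide +kernel) (by decide +kernel) (by decide +kernel) (by decide +kernel)]
  simp [good3F4.toGood2.xN_zero, good3F4.toGood2.xL_cons, good3F4.toGood2.xL_nil]

lemma y6b_eq : lettF4 φ 1 [1, 2, 1, 2, 0, 3] (0 : K) 1 = good3F4.toGood2.xL [40, 46] := by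
  rw [lett1 φ (r1 := 35) (r2 := 31) (r3 := 40) (r4 := 46) (by decide) (by decide +kernel) (by decide +kernel) (by decide +kernel) (by decide +kernel)]
  simp [good3F4.toGood2.xN_zero, good3F4.toGood2.xL_cons, good3F4.toGood2.xL_nil]

lemma y4b_eq : lettF4 φ 1 [1, 2, 1, 2, 0, 3, 1, 2, 1, 2, 0, 3] (0 : K) 1 = good3F4.toGood2.xL [44, 47] := by
  rw [lett4_eq]
  simp [good3F4.toGood2.xL_cons, good3F4.toGood2.xL_nil]

lemma s01_eq : suzU φ (0 : K) 1 = good3F4.toGood2.xL [28, 30] := by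
  rw [suzU_zero_eq]
  simp [good3F4.toGood2.xL_cons, good3F4.toGood2.xL_nil]

lemma nP_fix (hφ : ∀ x, φ (φ (x ^ 2)) = x) (l : List (List ℕ)) (hl : ∀ e ∈ l, e = [0, 3] ∨ e = [1, 2, 1, 2]) :
    (good3F4.toGood2.nProd l.flatten : GL chevF4.Idx K) ∈ (twF4 hperf φ).fix := nProd_n0n1_fix hperf φ hφ l hl

/-- Conjugates of the fixed elements of a long letter. -/
lemma lettS_inCF (hφ : ∀ x, φ (φ (x ^ 2)) = x) {l : List (List ℕ)} (hl : ∀ e ∈ l, e = [0, 3] ∨ e = [1, 2, 1, 2]) {a b : K}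
    (h : inCF hperf φ (lettF4 φ 1 l.flatten a b)) : inCF hperf φ (suzU φ a b) := by
  have hn := nP_fix hperf φ hφ l hl
  have := inCF_conj hperf φ (Subgroup.inv_mem _ hn) h
  unfold lettF4 at this
  rw [if_neg (by decide)] at this
  have e : (good3F4.toGood2.nProd l.flatten)⁻¹ * (good3F4.toGood2.nProd l.flatten * suzU φ a b * (good3F4.toGood2.nProd l.flatten)⁻¹) * (good3F4.toGood2.nProd l.flatten)⁻¹⁻¹ = suzU φ a b := by group
  rwa [e] at this

lemma inCF_lettS (hφ : ∀ x, φ (φ (x ^ 2)) = x) {l : List (List ℕ)} (hl : ∀ e ∈ l, e = [0, 3] ∨ e = [1, 2, 1, 2]) {a b : K}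
    (h : inCF hperf φ (suzU φ a b)) : inCF hperf φ (lettF4 φ 1 l.flatten a b) := by
  have hn := nP_fix hperf φ hφ l hl
  have := inCF_conj hperf φ hn h
  unfold lettF4
  rw [if_neg (by decide)]
  exact this

lemma inCF_y2b (hφ : ∀ x, φ (φ (x ^ 2)) = x) : inCF hperf φ (good3F4.toGood2.xL (F := K) [36, 42]) := by
  have e := good3F4.toGood2.wEq (F := K) chkC1 1 1
  rw [List.map_append, List.map_append, List.map_append, good3F4.toGood2.gW_append, good3F4.toGood2.gW_append, good3F4.toGood2.gW_append] at e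
  simp only [good3F4.toGood2.gW_wL] at e
  rw [← parU_one φ, ← y4_eq φ] at e
  have ha := parU_fix hperf φ hφ (1 : K)
  have hb : lettF4 φ 1 [0, 3, 1, 2, 1, 2, 0, 3] (1 : K) 0 ∈ (twF4 hperf φ).fix :=
    lett_fix hperf φ hφ (nProd_n0n1_fix hperf φ hφ [[0, 3], [1, 2, 1, 2], [0, 3]] (by simp)) 1 (1 : K) 0
  have h := inCF_comm hperf φ ha hb
  have e2 : parU φ 1 * lettF4 φ 1 [0, 3, 1, 2, 1, 2, 0, 3] (1 : K) 0 * (parU φ 1)⁻¹ * (lettF4 φ 1 [0, 3, 1, 2, 1, 2, 0, 3] (1 : K) 0)⁻¹ =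
      good3F4.toGood2.xL [36, 42] := by
    rw [e]
    group
  rwa [e2] at h

lemma inCF_s01 (hφ : ∀ x, φ (φ (x ^ 2)) = x) : inCF hperf φ (suzU φ (0 : K) 1) := by
  refine lettS_inCF hperf φ hφ (l := [[0, 3]]) (by simp) ?_
  have e := y2b_eq φ (K := K)
  have h := inCF_y2b hperf φ hφ
  rw [← e] at h
  exact h

lemma inCF_t1 (hφ : ∀ x, φ (φ (x ^ 2)) = x) : inCF hperf φ (good3F4.toGood2.xL (F := K) [47, 44]) := by
  rw [← t1_lett φ]
  exact inCF_lettS hperf φ hφ (l := [[1, 2, 1, 2], [0, 3], [1, 2, 1, 2], [0, 3]]) (by simp) (inCF_s01 hperf φ hφ)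

lemma inCF_t2 (hφ : ∀ x, φ (φ (x ^ 2)) = x) : inCF hperf φ (good3F4.toGood2.xL (F := K) [39, 45]) := by
  have e := good3F4.toGood2.wEq (F := K) chkC2 1 1
  rw [List.map_append, List.map_append, List.map_append, good3F4.toGood2.gW_append, good3F4.toGood2.gW_append, good3F4.toGood2.gW_append] at e
  simp only [good3F4.toGood2.gW_wL] at e
  have hsplit : good3F4.toGood2.xL (F := K) [39, 45, 40, 46, 44, 47] =
      good3F4.toGood2.xL [39, 45] * (good3F4.toGood2.xL [40, 46] * good3F4.toGood2.xL [44, 47]) := by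
    simp [good3F4.toGood2.xL_cons, good3F4.toGood2.xL_nil, mul_assoc]
  rw [hsplit] at e
  have ha : good3F4.toGood2.xL (F := K) [36, 42] ∈ (twF4 hperf φ).fix := (inCF_y2b hperf φ hφ).1
  have hb : good3F4.toGood2.xL (F := K) [28, 30] ∈ (twF4 hperf φ).fix := by
    rw [← s01_eq φ]
    exact suzU_fix hperf φ hφ _ _
  have h1 := inCF_comm hperf φ ha hb
  have h6 : inCF hperf φ (good3F4.toGood2.xL (F := K) [40, 46]) := by
    rw [← y6b_eq φ]
    exact inCF_lettS hperf φ hφ (l := [[1, 2, 1, 2], [0, 3]]) (by simp) (inCF_s01 hperf φ hφ)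
  have h4 : inCF hperf φ (good3F4.toGood2.xL (F := K) [44, 47]) := by
    rw [← y4b_eq φ]
    exact inCF_lettS hperf φ hφ (l := [[1, 2, 1, 2], [0, 3], [1, 2, 1, 2], [0, 3]]) (by simp) (inCF_s01 hperf φ hφ)
  have e2 : good3F4.toGood2.xL (F := K) [39, 45] =
      (good3F4.toGood2.xL [36, 42] * good3F4.toGood2.xL [28, 30] * (good3F4.toGood2.xL [36, 42])⁻¹ * (good3F4.toGood2.xL [28, 30])⁻¹) *
        (good3F4.toGood2.xL [40, 46] * good3F4.toGood2.xL [44, 47])⁻¹ := by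
    rw [e]
    group
  rw [e2]
  exact inCF_mul hperf φ h1 (inCF_inv hperf φ (inCF_mul hperf φ h6 h4))

lemma inCF_p1 (hφ : ∀ x, φ (φ (x ^ 2)) = x) : inCF hperf φ (parU φ (1 : K)) := by
  have hn := nProd_n0n1_fix hperf φ hφ (K := K) [[0, 3], [1, 2, 1, 2], [0, 3], [1, 2, 1, 2]] (by simp)
  have h := inCF_conj hperf φ (Subgroup.inv_mem _ hn) (inCF_t2 hperf φ hφ)
  have e4 := t2_lett φ (K := K)
  unfold lettF4 at e4
  rw [if_pos rfl] at e4
  have e5 : (good3F4.toGood2.nProd ([[0, 3], [1, 2, 1, 2], [0, 3], [1, 2, 1, 2]] : List (List ℕ)).flatten)⁻¹ * good3F4.toGood2.xL (F := K) [39, 45] *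
      (good3F4.toGood2.nProd ([[0, 3], [1, 2, 1, 2], [0, 3], [1, 2, 1, 2]] : List (List ℕ)).flatten)⁻¹⁻¹ = parU φ (1 : K) := by
    have e6 : ([[0, 3], [1, 2, 1, 2], [0, 3], [1, 2, 1, 2]] : List (List ℕ)).flatten = [0, 3, 1, 2, 1, 2, 0, 3, 1, 2, 1, 2] := rfl
    rw [e6, ← e4]
    group
  rwa [e5] at h

/-- The element outside the commutator subgroup. -/
noncomputable def yF4 (hφ : ∀ x, φ (φ (x ^ 2)) = x) : ↥(twF4 hperf φ).fix :=
  ⟨lettF4 φ 1 [0, 3, 1, 2, 1, 2, 0, 3] (1 : K) 0, lett_fix hperf φ hφ (nProd_n0n1_fix hperf φ hφ [[0, 3], [1, 2, 1, 2], [0, 3]] (by simp)) 1 (1 : K) 0⟩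

/-- Over the prime field, the fixed points are generated by the commutator subgroup and one element. -/
theorem gen_yF4 (hφ : ∀ x, φ (φ (x ^ 2)) = x) (h01 : ∀ x : K, x = 0 ∨ x = 1) :
    commutator ↥(twF4 hperf φ).fix ⊔ Subgroup.zpowers (yF4 hperf φ hφ) = ⊤ := by
  set M : Subgroup ↥(twF4 hperf φ).fix := commutator ↥(twF4 hperf φ).fix ⊔ Subgroup.zpowers (yF4 hperf φ hφ) with hM
  have hCM : commutator ↥(twF4 hperf φ).fix ≤ M := le_sup_left
  have hconj : ∀ g x : ↥(twF4 hperf φ).fix, x ∈ M → g * x * g⁻¹ ∈ M := by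
    intro g x hx
    have e : g * x * g⁻¹ = (g * x * g⁻¹ * x⁻¹) * x := by group
    have h := Subgroup.commutator_mem_commutator (Subgroup.mem_top g) (Subgroup.mem_top x)
    rw [commutatorElement_def] at h
    rw [e]
    exact Subgroup.mul_mem _ (hCM h) hx
  let M' : Subgroup (GL chevF4.Idx K) := M.map (twF4 hperf φ).fix.subtype
  have hM' : ∀ x (hx : x ∈ (twF4 hperf φ).fix), (⟨x, hx⟩ : ↥(twF4 hperf φ).fix) ∈ M → x ∈ M' := fun x hx h => ⟨_, h, rfl⟩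
  have hC' : ∀ x, inCF hperf φ x → x ∈ M' := fun x ⟨h1, h2⟩ => hM' x h1 (hCM h2)
  have hconj' : ∀ g ∈ (twF4 hperf φ).fix, ∀ x ∈ M', g * x * g⁻¹ ∈ M' := by
    rintro g hg x ⟨y, hy, rfl⟩
    exact ⟨_, hconj ⟨g, hg⟩ y hy, rfl⟩
  have hle : M' ≤ (twF4 hperf φ).fix := by
    rintro x ⟨y, _, rfl⟩
    exact y.2
  have hy' : lettF4 φ 1 [0, 3, 1, 2, 1, 2, 0, 3] (1 : K) 0 ∈ M' :=
    hM' _ (yF4 hperf φ hφ).2 (Subgroup.mem_sup_right (Subgroup.mem_zpowers _))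
  have hs10 : suzU φ (1 : K) 0 ∈ M' := by
    have hn := nProd_n0n1_fix hperf φ hφ (K := K) [[0, 3], [1, 2, 1, 2], [0, 3]] (by simp)
    have h := hconj' _ (Subgroup.inv_mem _ hn) _ hy'
    unfold lettF4 at h
    rw [if_neg (by decide)] at h
    have e : (good3F4.toGood2.nProd ([[0, 3], [1, 2, 1, 2], [0, 3]] : List (List ℕ)).flatten)⁻¹ *
        (good3F4.toGood2.nProd [0, 3, 1, 2, 1, 2, 0, 3] * suzU φ (1 : K) 0 * (good3F4.toGood2.nProd [0, 3, 1, 2, 1, 2, 0, 3])⁻¹) *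
        (good3F4.toGood2.nProd ([[0, 3], [1, 2, 1, 2], [0, 3]] : List (List ℕ)).flatten)⁻¹⁻¹ = suzU φ (1 : K) 0 := by
      have e6 : ([[0, 3], [1, 2, 1, 2], [0, 3]] : List (List ℕ)).flatten = [0, 3, 1, 2, 1, 2, 0, 3] := rfl
      rw [e6]
      group
    rwa [e] at h
  have hs01 : suzU φ (0 : K) 1 ∈ M' := hC' _ (inCF_s01 hperf φ hφ)
  have hp1 : parU φ (1 : K) ∈ M' := hC' _ (inCF_p1 hperf φ hφ)
  have hU : ∀ t u : K, suzU φ t u ∈ M' := by
    intro t u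
    rcases h01 t with rfl | rfl <;> rcases h01 u with rfl | rfl
    · rw [suzU_zero φ]
      exact Subgroup.one_mem _
    · exact hs01
    · exact hs10
    · have e := suzU_mul hφ (1 : K) 0 0 1
      have h0 : φ (1 : K) * 0 = 0 := mul_zero _
      rw [add_zero, zero_add, h0, add_zero] at e
      rw [← e]
      exact Subgroup.mul_mem _ hs10 hs01
  have hU0 : ∀ t : K, parU φ t ∈ M' := by
    intro t
    rcases h01 t with rfl | rfl
    · rw [parU_zero φ]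
      exact Subgroup.one_mem _
    · exact hp1
  have hV : ∀ t u : K, suzV φ t u ∈ M' := fun t u => hconj' _ (n1F4_fix hperf φ hφ) _ (hU t u)
  have hV0 : ∀ t : K, parV φ t ∈ M' := fun t => hconj' _ (n0F4_fix hperf φ hφ) _ (hU0 t)
  have h := fix_le_F4 hperf φ hφ hle hU hV hU0 hV0
  rw [eq_top_iff]
  rintro ⟨x, hx⟩ -
  obtain ⟨y, hy, rfl⟩ := h hx
  exact hy

/-- The involutions lie in the commutator subgroup. -/
theorem invol_mem_commutator [Fintype K] {m : ℕ} (hK : Fintype.card K = 2 ^ (2 * m + 1)) (hφ : ∀ x, φ (φ (x ^ 2)) = x) (g : ↥(twF4 hperf φ).fix) (hg : orderOf g = 2) :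
    g ∈ commutator ↥(twF4 hperf φ).fix := by
  have key : ∀ t (ht : t ∈ (twF4 hperf φ).fix), inCF hperf φ t → IsConj (⟨t, ht⟩ : ↥(twF4 hperf φ).fix) g → g ∈ commutator ↥(twF4 hperf φ).fix := by
    intro t ht h1 h2
    rw [isConj_iff] at h2
    obtain ⟨c, hc⟩ := h2
    rw [← hc]
    obtain ⟨h3, h4⟩ := h1
    exact (inferInstance : (commutator ↥(twF4 hperf φ).fix).Normal).conj_mem _ h4 c
  rcases inv_G_F4 hperf φ hK hφ g hg with h | h
  · exact key _ _ (inCF_t1 hperf φ hφ) h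
  · exact key _ _ (inCF_t2 hperf φ hφ) h

/-- The classes of involutions of the commutator subgroup over the prime field. -/
theorem count_tits [Fintype K] {m : ℕ} (hK : Fintype.card K = 2 ^ (2 * m + 1)) (hφ : ∀ x, φ (φ (x ^ 2)) = x) (h01 : ∀ x : K, x = 0 ∨ x = 1) :
    (ConjClasses.mk '' {g : commutator ↥(twF4 hperf φ).fix | orderOf g = 2}).ncard = 2 := by
  have hord : ∀ g : ↥(twF4 hperf φ).fix, orderOf g = orderOf (g : GL chevF4.Idx K) := fun g => (Subgroup.orderOf_coe g).symm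
  obtain ⟨_, h1⟩ := inCF_t1 hperf φ hφ (K := K)
  obtain ⟨_, h2⟩ := inCF_t2 hperf φ hφ (K := K)
  refine count_sub (t1 := ⟨_, t1_fix hperf φ hφ⟩) (t2 := ⟨_, t2_fix hperf φ hφ⟩) (y := yF4 hperf φ hφ) h1 h2 ?_ ?_ ?_ ?_ ?_ (gen_yF4 hperf φ hφ h01) (inv_G_F4 hperf φ hK hφ)
  · rw [hord]
    exact t1_order
  · rw [hord]
    exact t2_order
  · intro h
    rw [isConj_iff] at h
    obtain ⟨c, hc⟩ := h
    exact t1_t2_not_conj (fix_le_group hperf φ c.2) (congrArg Subtype.val hc)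
  · apply Subtype.ext
    have e := good3F4.toGood2.wEq (F := K) chkC3 1 1
    rw [List.map_append, List.map_append, good3F4.toGood2.gW_append, good3F4.toGood2.gW_append] at e
    simp only [good3F4.toGood2.gW_wL] at e
    show lettF4 φ 1 [0, 3, 1, 2, 1, 2, 0, 3] (1 : K) 0 * good3F4.toGood2.xL [47, 44] = good3F4.toGood2.xL [47, 44] * lettF4 φ 1 [0, 3, 1, 2, 1, 2, 0, 3] (1 : K) 0
    rw [y4_eq φ]
    exact e
  · apply Subtype.ext
    have e := good3F4.toGood2.wEq (F := K) chkC4 1 1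
    rw [List.map_append, List.map_append, good3F4.toGood2.gW_append, good3F4.toGood2.gW_append] at e
    simp only [good3F4.toGood2.gW_wL] at e
    show lettF4 φ 1 [0, 3, 1, 2, 1, 2, 0, 3] (1 : K) 0 * good3F4.toGood2.xL [39, 45] = good3F4.toGood2.xL [39, 45] * lettF4 φ 1 [0, 3, 1, 2, 1, 2, 0, 3] (1 : K) 0
    rw [y4_eq φ]
    exact e

end

end Cfsg.Agent.Lib.Chev
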